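import Mathlib

set_option autoImplicit false

namespace Cfsg.Agent.Helper2

open scoped BigOperators

lemma ap_amgm {S : Type*} (T : Finset S) (c : S → ℕ) :
    (∏ s ∈ T, c s) * T.card ^ T.card ≤ (∑ s ∈ T, c s) ^ T.card := by
  rcases Finset.eq_empty_or_nonempty T with rfl | hT
  · simp
  · have hk : 0 < T.card := Finset.card_pos.mpr hT
    have hkR : (0 : ℝ) < T.card := by exact_mod_cast hk
    have h := Real.geom_mean_le_arith_mean_weighted T (fun _ => (T.card : ℝ)⁻¹)
      (fun s => (c s : ℝ)) (fun i _ => by positivity)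
      (by rw [Finset.sum_const, nsmul_eq_mul]; field_simp) (fun i _ => by positivity)
    have h2 : (∏ s ∈ T, ((c s : ℝ) ^ ((T.card : ℝ)⁻¹))) ^ T.card = ∏ s ∈ T, (c s : ℝ) := by
      rw [← Finset.prod_pow]
      apply Finset.prod_congr rfl
      intro s _
      exact Real.rpow_inv_natCast_pow (by positivity) hk.ne'
    have h3 : (∑ s ∈ T, (T.card : ℝ)⁻¹ * (c s : ℝ)) = (∑ s ∈ T, (c s : ℝ)) / T.card := by
      rw [← Finset.mul_sum]; field_simp
    have h4 : (∏ s ∈ T, (c s : ℝ)) ≤ ((∑ s ∈ T, (c s : ℝ)) / T.card) ^ T.card := by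
      rw [← h2, ← h3]
      exact pow_le_pow_left₀ (Finset.prod_nonneg (fun i _ => by positivity)) h _
    have h5 : ((∏ s ∈ T, c s : ℕ) : ℝ) * (T.card : ℝ) ^ T.card
        ≤ ((∑ s ∈ T, c s : ℕ) : ℝ) ^ T.card := by
      push_cast
      rw [div_pow] at h4
      rw [le_div_iff₀ (by positivity)] at h4
      exact h4
    exact_mod_cast h5

lemma ap_sum_le_prod {ι : Type*} (s : Finset ι) (f : ι → ℕ) (hf : ∀ i, 1 < f i) :
    ∑ i ∈ s, f i ≤ ∏ i ∈ s, f i ∧ (∑ i ∈ s, f i = 0 ∨ 2 ≤ ∏ i ∈ s, f i) := by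
  classical
  induction s using Finset.induction_on with
  | empty => simp
  | insert a s ha ih =>
    rw [Finset.sum_insert ha, Finset.prod_insert ha]
    have hP : 0 < ∏ i ∈ s, f i := Finset.prod_pos (fun i _ => by have := hf i; omega)
    have hfa := hf a
    obtain ⟨P, hPdef⟩ : ∃ P, P = ∏ i ∈ s, f i := ⟨_, rfl⟩
    obtain ⟨Sg, hSdef⟩ : ∃ Sg, Sg = ∑ i ∈ s, f i := ⟨_, rfl⟩
    rw [← hPdef, ← hSdef] at ih ⊢
    rw [← hPdef] at hP
    obtain ⟨c, hc⟩ : ∃ c, f a = c + 2 := ⟨f a - 2, by omega⟩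
    rw [hc]
    constructor
    · rcases ih.2 with h0 | h2
      · rw [h0]
        nlinarith
      · obtain ⟨d, rfl⟩ : ∃ d, P = d + 2 := ⟨P - 2, by omega⟩
        have := ih.1
        nlinarith
    · right
      nlinarith

lemma ap_greedy {A : Type*} [CommGroup A] [Finite A] {p : ℕ} (hp : p.Prime) (hA : IsPGroup p A)
    {S : Type*} {C : S → Type*} [∀ s, Group (C s)] [∀ s, IsCyclic (C s)] [∀ s, Finite (C s)]
    (φ : ∀ s, A →* C s) (hφ : ∀ a : A, (∀ s, φ s a = 1) → a = 1)
    (k : ℕ) (hk : Nat.card {x : A // x ^ p = 1} = p ^ k) :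
    ∃ T : Finset S, T.card = k ∧ ∀ a : A, (∀ s ∈ T, φ s a = 1) → a = 1 := by
  classical
  haveI : Fact p.Prime := ⟨hp⟩
  let V : Finset S → Subgroup A := fun T =>
    { carrier := {x | x ^ p = 1 ∧ ∀ s ∈ T, φ s x = 1}
      one_mem' := by simp
      mul_mem' := by
        intro a b ha hb
        exact ⟨by rw [mul_pow, ha.1, hb.1, one_mul],
          fun s hs => by rw [map_mul, ha.2 s hs, hb.2 s hs, one_mul]⟩
      inv_mem' := by
        intro a ha
        exact ⟨by rw [inv_pow, ha.1, inv_one], fun s hs => by rw [map_inv, ha.2 s hs, inv_one]⟩ }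
  have hVmem : ∀ T x, x ∈ V T ↔ (x ^ p = 1 ∧ ∀ s ∈ T, φ s x = 1) := fun T x => Iff.rfl
  have key : ∀ j, j ≤ k → ∃ T : Finset S, T.card = j ∧ Nat.card (V T) * p ^ j = p ^ k := by
    intro j
    induction j with
    | zero =>
      intro _
      refine ⟨∅, rfl, ?_⟩
      rw [pow_zero, mul_one, ← hk]
      apply Nat.card_congr
      exact { toFun := fun x => ⟨x.1, ((hVmem ∅ x.1).mp x.2).1⟩
              invFun := fun x => ⟨x.1, (hVmem ∅ x.1).mpr ⟨x.2, by simp⟩⟩
              left_inv := fun x => rfl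
              right_inv := fun x => rfl }
    | succ j ih =>
      intro hj
      obtain ⟨T, hTc, hT⟩ := ih (by omega)
      have hp2 := hp.two_le
      have hVcard : Nat.card (V T) = p ^ (k - j) := by
        have : p ^ k = p ^ (k - j) * p ^ j := by rw [← pow_add]; congr 1; omega
        rw [this] at hT
        exact Nat.eq_of_mul_eq_mul_right (pow_pos hp.pos j) hT
      have hVnt : 1 < Nat.card (V T) := by
        rw [hVcard]; exact Nat.one_lt_pow (by omega) hp.one_lt
      obtain ⟨x, hx, hx1⟩ : ∃ x ∈ V T, x ≠ 1 := by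
        by_contra hcon
        push_neg at hcon
        have : V T = ⊥ := by
          rw [Subgroup.eq_bot_iff_forall]; exact hcon
        rw [this] at hVnt
        simp at hVnt
      obtain ⟨s, hs⟩ : ∃ s, φ s x ≠ 1 := by
        by_contra hcon
        push_neg at hcon
        exact hx1 (hφ x hcon)
      have hsT : s ∉ T := fun h => hs (((hVmem T x).mp hx).2 s h)
      refine ⟨insert s T, by rw [Finset.card_insert_of_notMem hsT, hTc], ?_⟩
      let ψ : V T →* C s := (φ s).comp (V T).subtype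
      have hker : Nat.card ψ.ker = Nat.card (V (insert s T)) := by
        apply Nat.card_congr
        exact { toFun := fun y => ⟨y.1.1, (hVmem _ _).mpr ⟨((hVmem T _).mp y.1.2).1, by
                  intro t ht
                  rcases Finset.mem_insert.mp ht with rfl | ht
                  · exact y.2
                  · exact ((hVmem T _).mp y.1.2).2 t ht⟩⟩
                invFun := fun y => ⟨⟨y.1, (hVmem T _).mpr ⟨((hVmem _ _).mp y.2).1,
                    fun t ht => ((hVmem _ _).mp y.2).2 t (Finset.mem_insert_of_mem ht)⟩⟩,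
                  ((hVmem _ _).mp y.2).2 s (Finset.mem_insert_self s T)⟩
                left_inv := fun y => rfl
                right_inv := fun y => rfl }
      have hmul : Nat.card ψ.ker * Nat.card ψ.range = Nat.card (V T) := by
        rw [← Subgroup.index_ker]; exact Subgroup.card_mul_index _
      have hrange_dvd : Nat.card ψ.range ∣ p := by
        rw [← IsCyclic.exponent_eq_card]
        apply Monoid.exponent_dvd_of_forall_pow_eq_one
        rintro ⟨y, ⟨z, rfl⟩⟩
        apply Subtype.ext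
        simp only [SubmonoidClass.coe_pow, OneMemClass.coe_one]
        show (φ s z.1) ^ p = 1
        rw [← map_pow, ((hVmem T _).mp z.2).1, map_one]
      have hrange : Nat.card ψ.range = p := by
        rcases (Nat.dvd_prime hp).mp hrange_dvd with h1 | h1
        · exfalso
          have hbot : ψ.range = ⊥ := Subgroup.card_eq_one.mp h1
          have hmem : φ s x ∈ ψ.range := ⟨⟨x, hx⟩, rfl⟩
          rw [hbot] at hmem
          exact hs (Subgroup.mem_bot.mp hmem)
        · exact h1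
      rw [← hker, ← hT, ← hmul, hrange, pow_succ]
      ring
  obtain ⟨T, hTc, hT⟩ := key k le_rfl
  refine ⟨T, hTc, ?_⟩
  have hV1 : Nat.card (V T) = 1 := by
    have : Nat.card (V T) * p ^ k = 1 * p ^ k := by rw [hT, one_mul]
    exact Nat.eq_of_mul_eq_mul_right (pow_pos hp.pos k) this
  intro a ha
  by_contra ha1
  obtain ⟨m, hm⟩ := (IsPGroup.iff_orderOf.mp hA) a
  have hm0 : m ≠ 0 := by
    rintro rfl
    rw [pow_zero, orderOf_eq_one_iff] at hm
    exact ha1 hm
  obtain ⟨m', rfl⟩ : ∃ m', m = m' + 1 := ⟨m - 1, by omega⟩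
  have hb : a ^ (p ^ m') ∈ V T := by
    refine (hVmem T _).mpr ⟨?_, fun s hs => by rw [map_pow, ha s hs, one_pow]⟩
    rw [← pow_mul, ← pow_succ, ← hm, pow_orderOf_eq_one]
  have hb1 : a ^ (p ^ m') = 1 := by
    have : V T = ⊥ := Subgroup.card_eq_one.mp hV1
    rw [this] at hb
    exact Subgroup.mem_bot.mp hb
  have h1 := orderOf_dvd_of_pow_eq_one hb1
  rw [hm] at h1
  have h2 := Nat.le_of_dvd (pow_pos hp.pos _) h1
  have h3 : p ^ m' < p ^ (m' + 1) := Nat.pow_lt_pow_right hp.one_lt (by omega)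
  omega

theorem ap_main {A : Type*} [Group A] [Finite A] (hcomm : ∀ a b : A, a * b = b * a)
    {Ω : Type*} [Fintype Ω] [MulAction A Ω] [FaithfulSMul A Ω]
    (p : ℕ) (hp : p.Prime) (hA : IsPGroup p A) (k : ℕ)
    (hk : Nat.card {x : A // x ^ p = 1} = p ^ k) :
    Nat.card A * k ^ k ≤ Fintype.card Ω ^ k := by
  classical
  letI : CommGroup A := { ‹Group A› with mul_comm := hcomm }
  let N : MulAction.orbitRel.Quotient A Ω → Subgroup A := fun ω =>
    MulAction.stabilizer A (Quotient.out ω)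
  have hdec : ∀ ω : MulAction.orbitRel.Quotient A Ω, ∃ (ι : Type) (_ : Fintype ι) (n : ι → ℕ),
      (∀ i, 1 < n i) ∧ Nonempty ((A ⧸ N ω) ≃* ((i : ι) → Multiplicative (ZMod (n i)))) :=
    fun ω => CommGroup.equiv_prod_multiplicative_zmod_of_finite (A ⧸ N ω)
  choose ι hι n hn1 he using hdec
  letI : ∀ ω, Fintype (ι ω) := hι
  have e : ∀ ω, (A ⧸ N ω) ≃* ((i : ι ω) → Multiplicative (ZMod (n ω i))) := fun ω => (he ω).some
  haveI hfin : ∀ s : (Σ ω : MulAction.orbitRel.Quotient A Ω, ι ω),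
      Finite (Multiplicative (ZMod (n s.1 s.2))) := fun s => by
    haveI : NeZero (n s.1 s.2) := ⟨by have := hn1 s.1 s.2; omega⟩
    show Finite (ZMod (n s.1 s.2))
    infer_instance
  let φ : ∀ s : (Σ ω : MulAction.orbitRel.Quotient A Ω, ι ω),
      A →* Multiplicative (ZMod (n s.1 s.2)) := fun s =>
    (Pi.evalMonoidHom (fun i : ι s.1 => Multiplicative (ZMod (n s.1 i))) s.2).comp
      ((e s.1).toMonoidHom.comp (QuotientGroup.mk' (N s.1)))
  have hφ : ∀ a : A, (∀ s, φ s a = 1) → a = 1 := by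
    intro a ha
    have hstab : ∀ ω : MulAction.orbitRel.Quotient A Ω, a • (Quotient.out ω) = Quotient.out ω := by
      intro ω
      have h1 : e ω (QuotientGroup.mk' (N ω) a) = 1 := by
        funext i
        exact ha ⟨ω, i⟩
      have h2 : QuotientGroup.mk' (N ω) a = 1 := by
        have := (e ω).injective (h1.trans (map_one (e ω)).symm)
        exact this
      have h3 : a ∈ N ω := (QuotientGroup.eq_one_iff a).mp h2
      exact MulAction.mem_stabilizer_iff.mp h3
    apply FaithfulSMul.eq_of_smul_eq_smul (α := Ω)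
    intro x
    rw [one_smul]
    obtain ⟨ω, hω⟩ : ∃ ω : MulAction.orbitRel.Quotient A Ω, ω = Quotient.mk'' x := ⟨_, rfl⟩
    have h4 : Quotient.mk'' (Quotient.out ω) = (Quotient.mk'' x : MulAction.orbitRel.Quotient A Ω) := by
      rw [← hω]; exact Quotient.out_eq' ω
    have h5 : Quotient.out ω ∈ MulAction.orbit A x := by
      have := Quotient.exact' h4
      exact this
    obtain ⟨b, hb⟩ := h5
    have hb' : x = b⁻¹ • Quotient.out ω := by rw [← hb, inv_smul_smul]
    rw [hb', smul_smul, hcomm a b⁻¹, ← smul_smul, hstab ω]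
  obtain ⟨T, hTc, hT⟩ := ap_greedy hp hA φ hφ k hk
  -- cardinality of A bounded by the product
  have hcardZ : ∀ s : (Σ ω : MulAction.orbitRel.Quotient A Ω, ι ω),
      Nat.card (Multiplicative (ZMod (n s.1 s.2))) = n s.1 s.2 := fun s => by
    show Nat.card (ZMod (n s.1 s.2)) = n s.1 s.2
    exact Nat.card_zmod _
  have hA_le : Nat.card A ≤ ∏ s ∈ T, n s.1 s.2 := by
    have hinj : Function.Injective (fun (a : A) (s : T) => φ s.1 a) := by
      intro a b hab
      have h1 : ∀ s ∈ T, φ s (a * b⁻¹) = 1 := by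
        intro s hs
        have := congrFun hab ⟨s, hs⟩
        simp only at this
        rw [map_mul, map_inv, this, mul_inv_cancel]
      have := hT _ h1
      exact mul_inv_eq_one.mp this
    have h2 := Nat.card_le_card_of_injective _ hinj
    rw [Nat.card_pi] at h2
    calc Nat.card A ≤ ∏ s : T, Nat.card (Multiplicative (ZMod (n s.1.1 s.1.2))) := h2
      _ = ∏ s : T, n s.1.1 s.1.2 := Finset.prod_congr rfl (fun s _ => hcardZ s.1)
      _ = ∏ s ∈ T, n s.1 s.2 := Finset.prod_coe_sort T (fun s => n s.1 s.2)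
  -- sum bound
  have hsum : ∑ s ∈ T, n s.1 s.2 ≤ Fintype.card Ω := by
    have h1 : ∑ s ∈ T, n s.1 s.2 ≤ ∑ s : (Σ ω : MulAction.orbitRel.Quotient A Ω, ι ω), n s.1 s.2 :=
      Finset.sum_le_sum_of_subset (Finset.subset_univ T)
    have h2 : ∑ s : (Σ ω : MulAction.orbitRel.Quotient A Ω, ι ω), n s.1 s.2
        = ∑ ω : MulAction.orbitRel.Quotient A Ω, ∑ i : ι ω, n ω i :=
      Fintype.sum_sigma (fun s : (Σ ω : MulAction.orbitRel.Quotient A Ω, ι ω) => n s.1 s.2)
    have h3 : ∀ ω : MulAction.orbitRel.Quotient A Ω,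
        ∑ i : ι ω, n ω i ≤ Nat.card (MulAction.orbit A (Quotient.out ω)) := by
      intro ω
      have h4 := (ap_sum_le_prod Finset.univ (n ω) (hn1 ω)).1
      have h5 : Nat.card (A ⧸ N ω) = ∏ i : ι ω, n ω i := by
        rw [Nat.card_congr (e ω).toEquiv, Nat.card_pi]
        exact Finset.prod_congr rfl (fun i _ => hcardZ ⟨ω, i⟩)
      have h6 : Nat.card (MulAction.orbit A (Quotient.out ω)) = Nat.card (A ⧸ N ω) :=
        Nat.card_congr (MulAction.orbitEquivQuotientStabilizer A (Quotient.out ω))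
      rw [h6, h5]
      exact h4
    have h7 : ∑ ω : MulAction.orbitRel.Quotient A Ω, Nat.card (MulAction.orbit A (Quotient.out ω))
        = Fintype.card Ω := by
      rw [Fintype.card_congr (MulAction.selfEquivSigmaOrbits A Ω), Fintype.card_sigma]
      exact Finset.sum_congr rfl (fun ω _ => Nat.card_eq_fintype_card)
    calc ∑ s ∈ T, n s.1 s.2 ≤ ∑ ω : MulAction.orbitRel.Quotient A Ω, ∑ i : ι ω, n ω i := h2 ▸ h1
      _ ≤ ∑ ω : MulAction.orbitRel.Quotient A Ω, Nat.card (MulAction.orbit A (Quotient.out ω)) :=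
          Finset.sum_le_sum (fun ω _ => h3 ω)
      _ = Fintype.card Ω := h7
  have hamgm := ap_amgm T (fun s => n s.1 s.2)
  rw [hTc] at hamgm
  calc Nat.card A * k ^ k ≤ (∏ s ∈ T, n s.1 s.2) * k ^ k := Nat.mul_le_mul_right _ hA_le
    _ ≤ (∑ s ∈ T, n s.1 s.2) ^ k := hamgm
    _ ≤ Fintype.card Ω ^ k := Nat.pow_le_pow_left hsum k

end Cfsg.Agent.Helper2
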