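import Mathlib
import Cfsg.Agent.Helper2.Invol

set_option autoImplicit false

namespace Cfsg.Agent.Helper2

variable {G : Type*} [Group G]

/-- class equation for one class: `|g^G| * |C(g)| = |G|`. -/
theorem card_conj_mul_card_centralizer [Finite G] (g : G) :
    Nat.card {h : G // IsConj g h} * Nat.card (Subgroup.centralizer ({g} : Set G)) = Nat.card G := by
  rw [Subgroup.nat_card_centralizer_nat_card_stabilizer]
  have e := MulAction.orbitProdStabilizerEquivGroup (ConjAct G) g
  have h1 : Nat.card (MulAction.orbit (ConjAct G) g) = Nat.card {h : G // IsConj g h} := by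
    apply Nat.card_congr
    apply Equiv.subtypeEquivRight
    intro h
    rw [ConjAct.mem_orbit_conjAct, isConj_comm]
  rw [← h1, ← Nat.card_prod, Nat.card_congr e]
  rfl

theorem orderOf_conj_eq (g x : G) : orderOf (g * x * g⁻¹) = orderOf x := by
  have := orderOf_injective (MulAut.conj g).toMonoidHom (MulAut.conj g).injective x
  simpa using this

theorem IsConj.orderOf_eq' {x y : G} (h : IsConj x y) : orderOf y = orderOf x := by
  obtain ⟨c, hc⟩ := isConj_iff.mp h
  rw [← hc, orderOf_conj_eq]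

/-- non-conjugate involutions have a product of even order -/
theorem even_orderOf_mul_of_not_isConj [Finite G] (x y : G) (hx : orderOf x = 2)
    (hy : orderOf y = 2) (h : ¬ IsConj x y) : Even (orderOf (x * y)) := by
  by_contra hodd
  rw [Nat.not_even_iff_odd] at hodd
  obtain ⟨k, hk⟩ := hodd
  apply h
  rw [isConj_iff]
  refine ⟨(x * y) ^ (k : ℤ), ?_⟩
  rw [zpow_conj_x x y hx hy]
  have h1 : (x * y) ^ (2 * (k : ℤ)) = (x * y) ^ (-1 : ℤ) := by
    have h2 : (2 * (k : ℤ)) = ((2 * k + 1 : ℕ) : ℤ) + (-1 : ℤ) := by push_cast; ring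
    rw [h2, zpow_add, zpow_natCast, ← hk, pow_orderOf_eq_one, one_mul]
  rw [h1]
  exact (y_eq x y hx hy).symm

/-- the central involution of the dihedral group generated by two involutions with product
of even order -/
theorem exists_central_invol [Finite G] (x y : G) (hx : orderOf x = 2) (hy : orderOf y = 2)
    (heven : Even (orderOf (x * y))) :
    ∃ z : G, orderOf z = 2 ∧ Commute z x ∧ Commute z y ∧ z ∈ Subgroup.zpowers (x * y) := by
  obtain ⟨m, hm⟩ := heven
  have hpos : 0 < orderOf (x * y) := orderOf_pos (x * y)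
  have hsq : (x * y) ^ m * (x * y) ^ m = 1 := by
    rw [← pow_add, ← hm, pow_orderOf_eq_one]
  have hne : (x * y) ^ m ≠ 1 := by
    apply pow_ne_one_of_lt_orderOf
    · omega
    · omega
  have h1 := conj_zpow_invol x y hx hy (m : ℤ)
  rw [zpow_natCast, zpow_neg, zpow_natCast] at h1
  have h2 : x * (x * y) ^ m * x⁻¹ = (x * y) ^ m := by
    rw [h1]
    exact inv_eq_of_mul_eq_one_left hsq
  have hzx : (x * y) ^ m * x = x * (x * y) ^ m := by
    nth_rewrite 1 [← h2]
    simp [mul_assoc]
  refine ⟨(x * y) ^ m, orderOf_two_of_sq hsq hne, hzx, ?_, Subgroup.npow_mem_zpowers _ _⟩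
  have hzr : (x * y) ^ m * (x * y) = (x * y) * (x * y) ^ m := by
    rw [← pow_succ, ← pow_succ']
  have hy' : y = x * (x * y) := by
    rw [← mul_assoc, sq_of_orderOf_two hx, one_mul]
  show (x * y) ^ m * y = y * (x * y) ^ m
  have : (x * y) ^ m * (x * (x * y)) = x * (x * y) * (x * y) ^ m := by
    rw [← mul_assoc, hzx, mul_assoc, hzr, ← mul_assoc]
  calc (x * y) ^ m * y = (x * y) ^ m * (x * (x * y)) := by rw [← hy']
    _ = x * (x * y) * (x * y) ^ m := this
    _ = y * (x * y) ^ m := by rw [← hy']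

theorem mem_centralizer_singleton_iff {z v : G} :
    v ∈ Subgroup.centralizer ({z} : Set G) ↔ Commute v z := by
  rw [Subgroup.mem_centralizer_iff]
  constructor
  · intro h
    exact (h z (Set.mem_singleton z)).symm
  · intro h w hw
    rw [Set.mem_singleton_iff] at hw
    subst hw
    exact h.eq.symm

theorem isConj_mul_even_zpow (x y : G) (hx : orderOf x = 2) (hy : orderOf y = 2) (j : ℤ) :
    IsConj x (x * (x * y) ^ (2 * j)) := by
  rw [isConj_iff]
  refine ⟨(x * y) ^ (-j), ?_⟩
  rw [zpow_conj_x x y hx hy, invol_mul_zpow x y hx hy]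
  congr 2
  ring

theorem isConj_mul_odd_zpow (x y : G) (hx : orderOf x = 2) (hy : orderOf y = 2) (j : ℤ) :
    IsConj y (x * (x * y) ^ (2 * j + 1)) := by
  rw [isConj_iff]
  refine ⟨(x * y) ^ (-j), ?_⟩
  have hy' : y = x * (x * y) := by
    rw [← mul_assoc, sq_of_orderOf_two hx, one_mul]
  calc (x * y) ^ (-j) * y * ((x * y) ^ (-j))⁻¹
      = (x * y) ^ (-j) * (x * (x * y)) * ((x * y) ^ (-j))⁻¹ := by rw [← hy']
    _ = ((x * y) ^ (-j) * x) * ((x * y) * ((x * y) ^ (-j))⁻¹) := by simp only [mul_assoc]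
    _ = (x * (x * y) ^ j) * ((x * y) * ((x * y) ^ (-j))⁻¹) := by
        rw [invol_mul_zpow x y hx hy j]
    _ = x * ((x * y) ^ j * (x * y) ^ (1 : ℤ) * (x * y) ^ j) := by
        rw [zpow_neg, inv_inv, zpow_one]; simp only [mul_assoc]
    _ = x * (x * y) ^ (2 * j + 1) := by
        rw [← zpow_add, ← zpow_add]
        congr 2
        ring

end Cfsg.Agent.Helper2
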