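import Mathlib
import Cfsg.Agent.Helper2.Cliff
import Cfsg.Agent.Helper1.TateLift
import Cfsg.Agent.S4762

/-!
# Thompson's theorem on character degrees and normal `p`-complements (helper2)
-/

set_option autoImplicit false

namespace Cfsg.Agent.Helper2

open Cfsg
open scoped ComplexConjugate

universe u

/-- **Thompson**: if `p` divides the degree of every nonlinear irreducible character of `G`,
then `G` has a normal `p`-complement. -/
theorem thompson_npc {G : Type u} [Group G] [Finite G] (p : ℕ) [Fact p.Prime]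
    (h : ∀ χ : IrrCharacter G, charDegree (χ : G → ℂ) ≠ 1 → p ∣ charDegree (χ : G → ℂ)) :
    HasNormalPComplement p G := by
  classical
  haveI := Fintype.ofFinite G
  have hp : p.Prime := Fact.out
  obtain ⟨P⟩ : Nonempty (Sylow p G) := inferInstance
  have hext1 : ∀ lam : IrrCharacter (P : Subgroup G), (lam : ↥(P : Subgroup G) → ℂ) 1 = 1 →
      ∃ μ : IrrCharacter G, (μ : G → ℂ) 1 = 1 ∧
        ∀ x : (P : Subgroup G), (μ : G → ℂ) x = (lam : ↥(P : Subgroup G) → ℂ) x := by
    intro lam hlam
    have hind : IsCharacter G (indFun (P : Subgroup G) (lam : ↥(P : Subgroup G) → ℂ)) :=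
      isCharacter_indFun _ (isCharacter_of_isIrrCharacter lam.2)
    have hc : ∀ ζ : IrrCharacter G, ∃ c : ℕ,
        classInner (indFun (P : Subgroup G) (lam : ↥(P : Subgroup G) → ℂ)) (ζ : G → ℂ) = c :=
      fun ζ => classInner_char_nat hind (isCharacter_of_isIrrCharacter ζ.2)
    choose c hc using hc
    have hdec : indFun (P : Subgroup G) (lam : ↥(P : Subgroup G) → ℂ)
        = ∑ ζ : IrrCharacter G, (c ζ : ℂ) • (ζ : G → ℂ) := by
      conv_lhs => rw [classFun_eq_sum_classInner (isClassFunction_of_isCharacter hind)]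
      exact Finset.sum_congr rfl (fun ζ _ => by rw [hc ζ])
    have hdeg : (P : Subgroup G).index = ∑ ζ : IrrCharacter G, c ζ * charDegree (ζ : G → ℂ) := by
      have h1 := congrFun hdec 1
      rw [indFun_one_apply, hlam, mul_one] at h1
      simp only [Finset.sum_apply, Pi.smul_apply, smul_eq_mul] at h1
      rw [Finset.sum_congr rfl (fun ζ _ => by rw [Helper25.irr_one_eq_degree ζ])] at h1
      exact_mod_cast h1
    have hex : ∃ ζ : IrrCharacter G, c ζ ≠ 0 ∧ charDegree (ζ : G → ℂ) = 1 := by
      by_contra hno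
      push_neg at hno
      apply P.not_dvd_index
      rw [hdeg]
      apply Finset.dvd_sum
      intro ζ _
      by_cases hc0 : c ζ = 0
      · rw [hc0, zero_mul]
        exact dvd_zero p
      · exact Dvd.dvd.mul_left (h ζ (hno ζ hc0)) _
    obtain ⟨ζ, hζc, hζ1⟩ := hex
    have hζ1' : (ζ : G → ℂ) 1 = 1 := by rw [Helper25.irr_one_eq_degree, hζ1, Nat.cast_one]
    refine ⟨ζ, hζ1', ?_⟩
    have hirr : IsIrrCharacter (P : Subgroup G) (fun x : (P : Subgroup G) => (ζ : G → ℂ) x) := by
      have h2 := Helper25.isIrrCharacter_of_monoidHom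
        (((Helper25.linHom ζ hζ1').toHomUnits).comp (P : Subgroup G).subtype)
      convert h2 using 1
      funext x
      rfl
    have hfr := frobenius_reciprocity (P : Subgroup G) (lam : ↥(P : Subgroup G) → ℂ) (ζ : G → ℂ)
      (isClassFunction_of_isCharacter (isCharacter_of_isIrrCharacter ζ.2))
    rw [hc ζ] at hfr
    have h3 := classInner_irr_irr lam ⟨_, hirr⟩
    by_cases heq : lam = ⟨_, hirr⟩
    · intro x
      have := congrFun (congrArg Subtype.val heq) x
      exact this.symm
    · rw [if_neg heq] at h3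
      exfalso
      apply hζc
      have h4 : (c ζ : ℂ) = 0 := by
        rw [hfr]
        exact h3
      exact_mod_cast h4
  have hfoc : commutator G ⊓ (P : Subgroup G) ≤ ⁅(P : Subgroup G), (P : Subgroup G)⁆ := by
    intro x hx
    obtain ⟨hx1, hx2⟩ := Subgroup.mem_inf.mp hx
    by_contra hnot
    have hnot' : (⟨x, hx2⟩ : (P : Subgroup G)) ∉ commutator (P : Subgroup G) := by
      intro hmem
      apply hnot
      rw [← Subgroup.map_subtype_commutator]
      exact ⟨⟨x, hx2⟩, hmem, rfl⟩
    obtain ⟨lam, hlam1, hlamx⟩ := Cfsg.Agent.S4762.exists_linear_ne_one hnot'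
    obtain ⟨μ, hμ1, hμ⟩ := hext1 lam hlam1
    apply hlamx
    rw [← hμ ⟨x, hx2⟩]
    exact Helper25.irr_linear_commutator μ hμ1 hx1
  have hidx : (P : Subgroup G).index.Coprime p :=
    Nat.Coprime.symm ((Nat.Prime.coprime_iff_not_dvd hp).mpr P.not_dvd_index)
  have hext : ∀ (C : Type u) [Group C], Nat.card C = p → ∀ χ : (P : Subgroup G) →* C,
      ∃ χ' : G →* C, ∀ h : (P : Subgroup G), χ' h = χ h := by
    intro C _ hC χ
    haveI : IsCyclic C := isCyclic_of_prime_card hC
    letI : CommGroup C := IsCyclic.commGroup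
    exact Helper1.ext_of_focal P (P : Subgroup G) le_rfl hfoc hC χ
  obtain ⟨ψ, hψ⟩ := Helper1.tate_lift p (P : Subgroup G) hidx hext (P : Subgroup G)
    P.isPGroup' (MonoidHom.id _)
  have hsurj : Function.Surjective ψ := fun y => ⟨(y : G), hψ y⟩
  have hker_idx : ψ.ker.index = Nat.card (P : Subgroup G) := by
    rw [Subgroup.index_ker, MonoidHom.range_eq_top.mpr hsurj, Subgroup.card_top]
  obtain ⟨n, hn⟩ := IsPGroup.iff_card.mp P.isPGroup'
  apply Helper1.hasNormalPComplement_of_normal_hall ψ.ker
  · have h1 := ψ.ker.card_mul_index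
    rw [hker_idx] at h1
    have h2 := (P : Subgroup G).card_mul_index
    have h3 : Nat.card ψ.ker = (P : Subgroup G).index := by
      have hpos : 0 < Nat.card (P : Subgroup G) := Nat.card_pos
      apply Nat.eq_of_mul_eq_mul_right hpos
      rw [h1, mul_comm, h2]
    rw [h3]
    exact hidx
  · exact ⟨n, by rw [hker_idx, hn]⟩

end Cfsg.Agent.Helper2
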