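import Mathlib
import Cfsg.Agent.Helper2.Cliff
import Cfsg.Agent.Helper2.ThompsonNPC
import Cfsg.Agent.Helper2.CentralDefect

/-!
# Groups with two character degrees: basic tools (helper2)
-/

set_option autoImplicit false

namespace Cfsg.Agent.Helper2

open Cfsg
open scoped ComplexConjugate

universe u

section TwoDegA

variable {G : Type u} [Group G]

/-- all irreducible character degrees are `1` or `m` -/
def TwoDeg (G : Type u) [Group G] (m : ℕ) : Prop :=
  ∀ χ : IrrCharacter G, charDegree (χ : G → ℂ) = 1 ∨ charDegree (χ : G → ℂ) = m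

theorem twoDeg_quot {m : ℕ} (K : Subgroup G) [K.Normal] (h : TwoDeg G m) :
    TwoDeg (G ⧸ K) m := by
  intro ψ
  have h1 := h (Helper25.irrComp ψ (QuotientGroup.mk' K) (QuotientGroup.mk'_surjective K))
  rw [Helper25.charDegree_irrComp] at h1
  exact h1

/-- A character with an irreducible constituent of the same degree is that constituent. -/
theorem char_eq_irr_of_degree [Fintype G] {Ψ : G → ℂ} (hΨ : IsCharacter G Ψ)
    (φ : IrrCharacter G) (h : classInner Ψ (φ : G → ℂ) ≠ 0) (hdeg : Ψ 1 = (φ : G → ℂ) 1) :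
    Ψ = (φ : G → ℂ) := by
  classical
  have hc : ∀ ζ : IrrCharacter G, ∃ c : ℕ, classInner Ψ (ζ : G → ℂ) = c :=
    fun ζ => classInner_char_nat hΨ (isCharacter_of_isIrrCharacter ζ.2)
  choose c hc using hc
  have hdec : Ψ = ∑ ζ : IrrCharacter G, (c ζ : ℂ) • (ζ : G → ℂ) := by
    conv_lhs => rw [classFun_eq_sum_classInner (isClassFunction_of_isCharacter hΨ)]
    exact Finset.sum_congr rfl (fun ζ _ => by rw [hc ζ])
  have hsum : charDegree (φ : G → ℂ) = ∑ ζ : IrrCharacter G, c ζ * charDegree (ζ : G → ℂ) := by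
    have h1 := congrFun hdec 1
    rw [hdeg] at h1
    simp only [Finset.sum_apply, Pi.smul_apply, smul_eq_mul] at h1
    rw [Helper25.irr_one_eq_degree φ,
      Finset.sum_congr rfl (fun ζ _ => by rw [Helper25.irr_one_eq_degree ζ])] at h1
    exact_mod_cast h1
  have hcφ : c φ ≠ 0 := by
    intro h0
    apply h
    rw [hc φ, h0, Nat.cast_zero]
  have hsingle : c φ * charDegree (φ : G → ℂ)
      ≤ ∑ ζ : IrrCharacter G, c ζ * charDegree (ζ : G → ℂ) :=
    Finset.single_le_sum (f := fun ζ => c ζ * charDegree (ζ : G → ℂ)) (fun _ _ => Nat.zero_le _)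
      (Finset.mem_univ φ)
  have hpos := Helper25.irr_degree_pos φ
  have hc1 : c φ = 1 := by
    by_contra hne
    have h2 : 2 ≤ c φ := by omega
    have h3 : 2 * charDegree (φ : G → ℂ) ≤ c φ * charDegree (φ : G → ℂ) :=
      Nat.mul_le_mul_right _ h2
    omega
  have hzero : ∀ ζ : IrrCharacter G, ζ ≠ φ → c ζ = 0 := by
    intro ζ hζ
    by_contra hne
    have h1 : ∑ x ∈ ({φ, ζ} : Finset (IrrCharacter G)), c x * charDegree (x : G → ℂ)
        ≤ ∑ ζ : IrrCharacter G, c ζ * charDegree (ζ : G → ℂ) :=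
      Finset.sum_le_sum_of_subset (Finset.subset_univ _)
    rw [Finset.sum_pair (Ne.symm hζ), hc1, one_mul] at h1
    have h2 : 0 < c ζ * charDegree (ζ : G → ℂ) :=
      Nat.mul_pos (Nat.pos_of_ne_zero hne) (Helper25.irr_degree_pos ζ)
    omega
  rw [hdec, Finset.sum_eq_single φ (fun ζ _ hζ => by rw [hzero ζ hζ, Nat.cast_zero, zero_smul])
    (fun h => absurd (Finset.mem_univ φ) h), hc1, Nat.cast_one, one_smul]

theorem indFun_eq_zero_of_conj_not_mem [Fintype G] (H : Subgroup G) (θ : H → ℂ) (g : G)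
    (h : ∀ x : G, x⁻¹ * g * x ∉ H) : indFun H θ g = 0 := by
  rw [indFun_apply, Finset.sum_eq_zero, mul_zero]
  intro x _
  exact extendByZero_of_not_mem H θ (h x)

/-- Clifford correspondence: an irreducible character is induced from the stabilizer of an
irreducible constituent of its restriction to a normal subgroup. -/
theorem clifford_corr [Fintype G] (N : Subgroup G) [hN : N.Normal] [Fintype N]
    (χ : IrrCharacter G) (θ : IrrCharacter N)
    (h : classInner (fun n : N => (χ : G → ℂ) n) (θ : N → ℂ) ≠ 0)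
    (T : Subgroup G) [Fintype T] (hT : T = stabChar N (θ : N → ℂ)) (hNT : N ≤ T) :
    ∃ (ψ : IrrCharacter T) (f : ℕ), f ≠ 0 ∧
      (∀ n : N, (ψ : T → ℂ) ⟨n, hNT n.2⟩ = (f : ℂ) * (θ : N → ℂ) n) ∧
      indFun T (ψ : T → ℂ) = (χ : G → ℂ) := by
  classical
  have hχT : IsCharacter T (fun t : T => (χ : G → ℂ) t) :=
    isCharacter_restrict T (isCharacter_of_isIrrCharacter χ.2)
  have ha : ∀ η : IrrCharacter T, ∃ a : ℕ,
      classInner (fun t : T => (χ : G → ℂ) t) (η : T → ℂ) = a :=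
    fun η => classInner_char_nat hχT (isCharacter_of_isIrrCharacter η.2)
  choose a ha using ha
  have hdecT : (fun t : T => (χ : G → ℂ) t) = ∑ η : IrrCharacter T, (a η : ℂ) • (η : T → ℂ) := by
    conv_lhs => rw [classFun_eq_sum_classInner (isClassFunction_of_isCharacter hχT)]
    exact Finset.sum_congr rfl (fun η _ => by rw [ha η])
  have hb : ∀ η : IrrCharacter T, ∃ b : ℕ,
      classInner (fun n : N => (η : T → ℂ) ⟨n, hNT n.2⟩) (θ : N → ℂ) = b :=
    fun η => classInner_char_nat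
      (isCharacter_comp (Subgroup.inclusion hNT) (isCharacter_of_isIrrCharacter η.2))
      (isCharacter_of_isIrrCharacter θ.2)
  choose b hb using hb
  have hχN : (fun n : N => (χ : G → ℂ) n)
      = ∑ η : IrrCharacter T, (a η : ℂ) • (fun n : N => (η : T → ℂ) ⟨n, hNT n.2⟩) := by
    funext n
    have h1 := congrFun hdecT ⟨n, hNT n.2⟩
    simp only [Finset.sum_apply, Pi.smul_apply, smul_eq_mul] at h1 ⊢
    exact h1
  have he2 : classInner (fun n : N => (χ : G → ℂ) n) (θ : N → ℂ)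
      = ((∑ η : IrrCharacter T, a η * b η : ℕ) : ℂ) := by
    rw [hχN, classInner_sum_left]
    simp only [classInner_smul_left, hb]
    push_cast
    rfl
  obtain ⟨ψ, hψ⟩ : ∃ ψ : IrrCharacter T, a ψ * b ψ ≠ 0 := by
    by_contra hno
    push_neg at hno
    apply h
    rw [he2, Finset.sum_eq_zero (fun η _ => hno η), Nat.cast_zero]
  have haψ : a ψ ≠ 0 := fun h0 => hψ (by rw [h0, zero_mul])
  have hbψ : b ψ ≠ 0 := fun h0 => hψ (by rw [h0, mul_zero])
  -- Clifford's theorem inside `T`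
  haveI : (N.subgroupOf T).Normal := inferInstance
  haveI : Fintype (N.subgroupOf T) := Fintype.ofFinite _
  obtain ⟨e, he⟩ : ∃ e : (N.subgroupOf T) ≃* N, e = Subgroup.subgroupOfEquivOfLe hNT := ⟨_, rfl⟩
  have hev : ∀ x : N.subgroupOf T, ((e x : N) : G) = ((x : T) : G) := by
    intro x
    rw [he]
    rfl
  have hθ' : IsIrrCharacter (N.subgroupOf T) (fun x => (θ : N → ℂ) (e x)) :=
    isIrrCharacter_comp_of_surjective e.toMonoidHom e.surjective θ.2
  have hinv : ∀ (g : T) (n : N.subgroupOf T),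
      (fun x : N.subgroupOf T => (θ : N → ℂ) (e x))
        ⟨g * n * g⁻¹, Subgroup.Normal.conj_mem inferInstance (n : T) n.2 g⟩
        = (fun x : N.subgroupOf T => (θ : N → ℂ) (e x)) n := by
    intro g n
    have hg : conjChar N (θ : N → ℂ) (g : G) = (θ : N → ℂ) := by
      have h0 : (g : G) ∈ stabChar N (θ : N → ℂ) := by
        rw [← hT]
        exact g.2
      exact h0
    have h1 := congrFun hg (e n)
    rw [conjChar_apply] at h1
    show (θ : N → ℂ) (e _) = (θ : N → ℂ) (e n)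
    rw [← h1]
    refine congrArg _ (Subtype.ext ?_)
    rw [hev]
    show ((g : G) * ((n : T) : G) * ((g : G))⁻¹) = (g : G) * ((e n : N) : G) * (g : G)⁻¹
    rw [hev]
  have hcl : classInner (fun n : N.subgroupOf T => (ψ : T → ℂ) n)
        (fun x : N.subgroupOf T => (θ : N → ℂ) (e x))
      = classInner (fun n : N => (ψ : T → ℂ) ⟨n, hNT n.2⟩) (θ : N → ℂ) := by
    unfold classInner
    rw [Nat.card_congr e.toEquiv]
    congr 1
    refine Fintype.sum_equiv e.toEquiv _ _ (fun x => ?_)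
    have h2 : (⟨((e.toEquiv x : N) : G), hNT (e.toEquiv x).2⟩ : T) = (x : T) :=
      Subtype.ext (hev x)
    show (ψ : T → ℂ) (x : T) * conj ((θ : N → ℂ) (e x))
      = (ψ : T → ℂ) ⟨((e.toEquiv x : N) : G), hNT (e.toEquiv x).2⟩
        * conj ((θ : N → ℂ) (e.toEquiv x))
    rw [h2]
    rfl
  obtain ⟨f, hf0, hfeq, -⟩ := Helper7.clifford_invariant (N.subgroupOf T)
    (fun x : N.subgroupOf T => (θ : N → ℂ) (e x)) hθ' hinv (ψ : T → ℂ) ψ.2
    (by rw [hcl, hb ψ]; exact Nat.cast_ne_zero.mpr hbψ)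
  have hres : ∀ n : N, (ψ : T → ℂ) ⟨n, hNT n.2⟩ = (f : ℂ) * (θ : N → ℂ) n := by
    intro n
    have h1 := congrFun hfeq (e.symm n)
    simp only [Pi.smul_apply, smul_eq_mul, MulEquiv.apply_symm_apply] at h1
    rw [← h1]
    refine congrArg _ (Subtype.ext ?_)
    have h2 := hev (e.symm n)
    rw [MulEquiv.apply_symm_apply] at h2
    exact h2
  obtain ⟨χ', hχ', -⟩ := exists_irr_of_induced N θ T hT hNT ψ f hf0 hres
  refine ⟨ψ, f, hf0, hres, ?_⟩
  have hfr : classInner (χ' : G → ℂ) (χ : G → ℂ) ≠ 0 := by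
    rw [← hχ', frobenius_reciprocity T (ψ : T → ℂ) (χ : G → ℂ)
      (isClassFunction_of_isCharacter (isCharacter_of_isIrrCharacter χ.2)),
      classInner_conj_symm, ha ψ, Complex.conj_natCast]
    exact Nat.cast_ne_zero.mpr haψ
  rw [classInner_irr_irr] at hfr
  have : χ' = χ := by
    by_contra hne
    rw [if_neg hne] at hfr
    exact hfr rfl
  rw [hχ', this]

/-- A maximal normal subgroup not containing `L`. -/
theorem exists_max_normal_not_le [Finite G] (L : Subgroup G) (hL : L ≠ ⊥) :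
    ∃ K : Subgroup G, K.Normal ∧ ¬ L ≤ K ∧
      ∀ K' : Subgroup G, K'.Normal → K < K' → L ≤ K' := by
  have hne : ({K : Subgroup G | K.Normal ∧ ¬ L ≤ K}).Nonempty :=
    ⟨⊥, Subgroup.normal_bot, fun h => hL (le_bot_iff.mp h)⟩
  obtain ⟨K, hK, hmax⟩ := (wellFounded_gt (α := Subgroup G)).has_min _ hne
  refine ⟨K, hK.1, hK.2, fun K' hK' hlt => ?_⟩
  by_contra hno
  exact hmax K' ⟨hK', hno⟩ hlt

theorem quot_min_normal (L K : Subgroup G) [K.Normal]
    (hmax : ∀ K' : Subgroup G, K'.Normal → K < K' → L ≤ K')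
    (X : Subgroup (G ⧸ K)) [X.Normal] (hX : X ≠ ⊥) : L.map (QuotientGroup.mk' K) ≤ X := by
  rw [Subgroup.map_le_iff_le_comap]
  apply hmax _ inferInstance
  refine lt_of_le_of_ne ?_ ?_
  · intro k hk
    rw [Subgroup.mem_comap]
    have : (QuotientGroup.mk' K) k = 1 := (QuotientGroup.eq_one_iff k).mpr hk
    rw [this]
    exact X.one_mem
  · intro heq
    apply hX
    rw [Subgroup.eq_bot_iff_forall]
    intro x hx
    obtain ⟨g, rfl⟩ := QuotientGroup.mk_surjective x
    have hg : g ∈ X.comap (QuotientGroup.mk' K) := hx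
    rw [← heq] at hg
    exact (QuotientGroup.eq_one_iff g).mpr hg

end TwoDegA

end Cfsg.Agent.Helper2
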