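import Mathlib
import Cfsg.Agent.Helper2.TwoDegA

/-!
# Groups with two character degrees: groups whose derived subgroup is the unique minimal
normal subgroup (helper2)
-/

set_option autoImplicit false

namespace Cfsg.Agent.Helper2

open Cfsg
open scoped ComplexConjugate

universe u

section TwoDegB

variable {Q : Type u} [Group Q]

theorem comm_elt_mem_commutator (x g : Q) : x * g * x⁻¹ * g⁻¹ ∈ commutator Q := by
  rw [commutator_def, ← commutatorElement_def]
  exact Subgroup.commutator_mem_commutator (Subgroup.mem_top x) (Subgroup.mem_top g)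

theorem exists_mul_of_sup_eq_top (L M : Subgroup Q) [M.Normal] (h : L ⊔ M = ⊤) (g : Q) :
    ∃ l ∈ L, ∃ m ∈ M, g = l * m := by
  have hg : g ∈ ((L ⊔ M : Subgroup Q) : Set Q) := by rw [h]; trivial
  rw [Subgroup.mul_normal] at hg
  obtain ⟨l, hl, m, hm, rfl⟩ := Set.mem_mul.mp hg
  exact ⟨l, hl, m, hm, rfl⟩

/-- In a group of Frobenius type, the index of the kernel is at most its order. -/
theorem frob_index_le [Finite Q] (M : Subgroup Q) [hMn : M.Normal]
    (hab : ∀ a ∈ M, ∀ b ∈ M, a * b = b * a) (hM : M ≠ ⊥)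
    (hfpf : ∀ x : Q, x ∉ M → ∀ n ∈ M, x * n = n * x → n = 1) : M.index ≤ Nat.card M := by
  classical
  haveI := Fintype.ofFinite Q
  obtain ⟨n₀, hn₀, hne⟩ : ∃ n₀ ∈ M, n₀ ≠ 1 := by
    by_contra hno
    push_neg at hno
    exact hM ((Subgroup.eq_bot_iff_forall M).mpr hno)
  have hcent : Subgroup.centralizer ({n₀} : Set Q) = M := by
    apply le_antisymm
    · intro x hx
      by_contra hxM
      rw [Subgroup.mem_centralizer_iff] at hx
      have h1 := hx n₀ rfl
      exact hne (hfpf x hxM n₀ hn₀ h1.symm)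
    · intro x hx
      rw [Subgroup.mem_centralizer_iff]
      intro y hy
      rw [Set.mem_singleton_iff] at hy
      rw [hy]
      exact hab _ hn₀ x hx
  have h1 := Helper25.index_centralizer_eq_card_class n₀
  rw [hcent] at h1
  rw [h1]
  have hmem : ∀ x : {x : Q // IsConj n₀ x}, (x : Q) ∈ M := by
    intro x
    obtain ⟨c, hc⟩ := isConj_iff.mp x.2
    rw [← hc]
    exact hMn.conj_mem n₀ hn₀ c
  exact Nat.card_le_card_of_injective (fun x : {x : Q // IsConj n₀ x} => (⟨x, hmem x⟩ : M))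
    (fun x y hxy => Subtype.ext (by
      have := congrArg (Subtype.val : M → Q) hxy
      exact this))

/-- In a group of Frobenius type with kernel an `r`-group, `r` does not divide the index of
the kernel. -/
theorem frob_not_dvd_index [Finite Q] (M : Subgroup Q) [hMn : M.Normal] (r a : ℕ) (hr : r.Prime)
    (hcard : Nat.card M = r ^ a) (ha : a ≠ 0)
    (hfpf : ∀ x : Q, x ∉ M → ∀ n ∈ M, x * n = n * x → n = 1) : ¬ r ∣ M.index := by
  intro hdvd
  haveI : Fact r.Prime := ⟨hr⟩
  rw [Subgroup.index_eq_card] at hdvd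
  obtain ⟨xb, hxb⟩ := exists_prime_orderOf_dvd_card' r hdvd
  obtain ⟨x, rfl⟩ := QuotientGroup.mk_surjective xb
  have hxM : x ∉ M := by
    intro h
    have h1 : (QuotientGroup.mk x : Q ⧸ M) = 1 := (QuotientGroup.eq_one_iff x).mpr h
    rw [h1, orderOf_one] at hxb
    exact hr.one_lt.ne hxb
  have hxr : x ^ r ∈ M := by
    have h1 : (QuotientGroup.mk x : Q ⧸ M) ^ r = 1 := by rw [← hxb]; exact pow_orderOf_eq_one _
    rw [← QuotientGroup.mk_pow] at h1
    exact (QuotientGroup.eq_one_iff _).mp h1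
  have hxpow : x ^ (r ^ (a + 1)) = 1 := by
    have h1 : (⟨x ^ r, hxr⟩ : M) ^ (r ^ a) = 1 := by rw [← hcard]; exact pow_card_eq_one'
    have h2 := congrArg Subtype.val h1
    rw [Subgroup.coe_pow] at h2
    rw [pow_succ', pow_mul]
    exact h2
  letI : MulAction (Subgroup.zpowers x) M :=
    MulAction.compHom M ((MulAut.conjNormal (H := M)).comp (Subgroup.zpowers x).subtype)
  have hP : IsPGroup r (Subgroup.zpowers x) := by
    intro y
    refine ⟨a + 1, ?_⟩
    obtain ⟨k, hk⟩ := Subgroup.mem_zpowers_iff.mp y.2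
    apply Subtype.ext
    rw [Subgroup.coe_pow, ← hk, ← zpow_natCast, ← zpow_mul, mul_comm, zpow_mul, zpow_natCast,
      hxpow, one_zpow]
    rfl
  have hfix1 : (1 : M) ∈ MulAction.fixedPoints (Subgroup.zpowers x) M := by
    intro y
    show (MulAut.conjNormal (y : Q)) (1 : M) = 1
    exact map_one _
  have hdvdM : r ∣ Nat.card M := by rw [hcard]; exact dvd_pow_self r ha
  obtain ⟨b, hb, hb1⟩ := hP.exists_fixed_point_of_prime_dvd_card_of_fixed_point M hdvdM hfix1
  have hbx := hb ⟨x, Subgroup.mem_zpowers x⟩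
  have h3 : x * (b : Q) * x⁻¹ = b := by
    have h4 : ((MulAut.conjNormal x) b : M) = b := hbx
    have h5 := congrArg Subtype.val h4
    rw [MulAut.conjNormal_apply] at h5
    exact h5
  have h6 : x * (b : Q) = b * x := by
    calc x * (b : Q) = (x * (b : Q) * x⁻¹) * x := by group
      _ = b * x := by rw [h3]
  have h7 := hfpf x hxM b b.2 h6
  exact hb1 (Subtype.ext h7.symm)

theorem exists_prime_exponent [Finite Q] (M : Subgroup Q) [hMn : M.Normal]
    (hab : ∀ a ∈ M, ∀ b ∈ M, a * b = b * a) (hM : M ≠ ⊥)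
    (hmin : ∀ X : Subgroup Q, X.Normal → X ≠ ⊥ → M ≤ X) :
    ∃ r : ℕ, r.Prime ∧ ∀ n ∈ M, n ^ r = 1 := by
  have hcard : Nat.card M ≠ 1 := fun h => hM (Subgroup.card_eq_one.mp h)
  obtain ⟨r, hr, hdvd⟩ := Nat.exists_prime_and_dvd hcard
  haveI : Fact r.Prime := ⟨hr⟩
  refine ⟨r, hr, ?_⟩
  obtain ⟨y, hy⟩ := exists_prime_orderOf_dvd_card' r hdvd
  obtain ⟨X, hX⟩ : ∃ X : Subgroup Q, ∀ x, x ∈ X ↔ x ∈ M ∧ x ^ r = 1 :=
    ⟨{ carrier := {x | x ∈ M ∧ x ^ r = 1}
       one_mem' := ⟨M.one_mem, one_pow r⟩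
       mul_mem' := by
         rintro a b ⟨ha, ha1⟩ ⟨hb, hb1⟩
         refine ⟨M.mul_mem ha hb, ?_⟩
         have hc : Commute a b := hab a ha b hb
         rw [hc.mul_pow, ha1, hb1, one_mul]
       inv_mem' := by
         rintro a ⟨ha, ha1⟩
         exact ⟨M.inv_mem ha, by rw [inv_pow, ha1, inv_one]⟩ }, fun x => Iff.rfl⟩
  have hXn : X.Normal := ⟨by
    intro n hn g
    rw [hX] at hn ⊢
    refine ⟨hMn.conj_mem n hn.1 g, ?_⟩
    rw [conj_pow, hn.2, mul_one, mul_inv_cancel]⟩
  have hXne : X ≠ ⊥ := by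
    intro h
    have h1 : (y : Q) ∈ X := by
      rw [hX]
      refine ⟨y.2, ?_⟩
      rw [← Subgroup.coe_pow, ← hy, pow_orderOf_eq_one]
      rfl
    rw [h, Subgroup.mem_bot] at h1
    have h2 : y = 1 := Subtype.ext h1
    rw [h2, orderOf_one] at hy
    exact hr.one_lt.ne hy
  have hle := hmin X hXn hXne
  intro n hn
  exact ((hX n).mp (hle hn)).2

theorem comm_abelian_or_pgroup [Finite Q] {m : ℕ} (h2 : TwoDeg Q m)
    (hmin : ∀ X : Subgroup Q, X.Normal → X ≠ ⊥ → commutator Q ≤ X) :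
    (∃ r : ℕ, r.Prime ∧ IsPGroup r Q) ∨
      (∀ a ∈ commutator Q, ∀ b ∈ commutator Q, a * b = b * a) := by
  classical
  haveI := Fintype.ofFinite Q
  haveI : Fintype (commutator Q) := Fintype.ofFinite _
  by_cases hab : ∀ a ∈ commutator Q, ∀ b ∈ commutator Q, a * b = b * a
  · exact Or.inr hab
  left
  obtain ⟨θ, hθ⟩ : ∃ θ : IrrCharacter (commutator Q),
      charDegree (θ : commutator Q → ℂ) ≠ 1 := by
    by_contra hno
    push_neg at hno
    apply hab
    intro a ha b hb
    have := comm_of_all_linear hno ⟨a, ha⟩ ⟨b, hb⟩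
    exact congrArg Subtype.val this
  obtain ⟨p, hp, hpd⟩ := Nat.exists_prime_and_dvd hθ
  haveI : Fact p.Prime := ⟨hp⟩
  obtain ⟨χ₀, hχ₀⟩ := exists_irr_above_h2 (commutator Q) θ
  have hdvd := irr_degree_dvd_of_over (commutator Q) χ₀ θ hχ₀
  have hpm : p ∣ m := by
    rcases h2 χ₀ with h1 | h1
    · rw [h1, Nat.dvd_one] at hdvd
      exact absurd hdvd hθ
    · rw [← h1]
      exact hpd.trans hdvd
  have hth : ∀ χ : IrrCharacter Q, charDegree (χ : Q → ℂ) ≠ 1 →
      p ∣ charDegree (χ : Q → ℂ) := by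
    intro χ hχ
    rcases h2 χ with h1 | h1
    · exact absurd h1 hχ
    · rw [h1]; exact hpm
  obtain ⟨P, N, hNn, hcompl⟩ := thompson_npc p hth
  by_cases hN : N = ⊥
  · refine ⟨p, hp, ?_⟩
    rw [hN, Subgroup.isComplement'_bot_left] at hcompl
    intro g
    have hg : g ∈ (P : Subgroup Q) := by rw [hcompl]; trivial
    obtain ⟨k, hk⟩ := P.2 ⟨g, hg⟩
    exact ⟨k, congrArg Subtype.val hk⟩
  · exfalso
    have hle := hmin N hNn hN
    have h1 : p ∣ Nat.card N :=
      (hpd.trans (Helper25.irr_degree_dvd_card θ)).trans (Subgroup.card_dvd_of_le hle)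
    have h3 := P.not_dvd_index
    rw [hcompl.index_eq_card] at h3
    exact h3 h1

/-- A group with two character degrees whose derived subgroup is its unique minimal normal
subgroup is a `p`-group or of Frobenius type. -/
theorem frob_type_or_pgroup [Finite Q] {m : ℕ} (h2 : TwoDeg Q m)
    (hnab : commutator Q ≠ ⊥)
    (hmin : ∀ X : Subgroup Q, X.Normal → X ≠ ⊥ → commutator Q ≤ X) :
    (∃ r : ℕ, r.Prime ∧ IsPGroup r Q) ∨
    ((∀ a ∈ commutator Q, ∀ b ∈ commutator Q, a * b = b * a) ∧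
      (∃ r a : ℕ, r.Prime ∧ a ≠ 0 ∧ Nat.card (commutator Q) = r ^ a) ∧
      ∀ x : Q, x ∉ commutator Q → ∀ n ∈ commutator Q, x * n = n * x → n = 1) := by
  classical
  rcases comm_abelian_or_pgroup h2 hmin with h | hab
  · exact Or.inl h
  obtain ⟨r, hr, hexp⟩ := exists_prime_exponent (commutator Q) hab hnab hmin
  haveI : Fact r.Prime := ⟨hr⟩
  have hMp : IsPGroup r (commutator Q) := by
    intro y
    refine ⟨1, ?_⟩
    apply Subtype.ext
    rw [pow_one, Subgroup.coe_pow]
    exact hexp y y.2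
  obtain ⟨a, ha⟩ := IsPGroup.iff_card.mp hMp
  have ha0 : a ≠ 0 := by
    rintro rfl
    rw [pow_zero] at ha
    exact hnab (Subgroup.card_eq_one.mp ha)
  by_cases hZ : Subgroup.center Q = ⊥
  swap
  · left
    refine ⟨r, hr, ?_⟩
    have hMZ : commutator Q ≤ Subgroup.center Q := hmin _ inferInstance hZ
    have hprimes : ∀ {q : ℕ}, q.Prime → q ∣ Nat.card Q → q = r := by
      intro q hq hqd
      by_contra hne
      haveI : Fact q.Prime := ⟨hq⟩
      obtain ⟨x, hx⟩ := exists_prime_orderOf_dvd_card' q hqd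
      have hxc : x ∈ Subgroup.center Q := by
        rw [Subgroup.mem_center_iff]
        intro g
        obtain ⟨c, hc⟩ : ∃ c, c = x * g * x⁻¹ * g⁻¹ := ⟨_, rfl⟩
        have hcM : c ∈ commutator Q := by rw [hc]; exact comm_elt_mem_commutator x g
        have hpow : ∀ k : ℕ, x ^ k * g * (x ^ k)⁻¹ = c ^ k * g := by
          intro k
          induction k with
          | zero => simp
          | succ k ih =>
            have hcomm : x * c ^ k = c ^ k * x :=
              Subgroup.mem_center_iff.mp (Subgroup.pow_mem _ (hMZ hcM) k) x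
            calc x ^ (k + 1) * g * (x ^ (k + 1))⁻¹ = x * (x ^ k * g * (x ^ k)⁻¹) * x⁻¹ := by
                  rw [pow_succ']; group
              _ = x * (c ^ k * g) * x⁻¹ := by rw [ih]
              _ = (x * c ^ k) * g * x⁻¹ := by group
              _ = (c ^ k * x) * g * x⁻¹ := by rw [hcomm]
              _ = c ^ k * (x * g * x⁻¹ * g⁻¹) * g := by group
              _ = c ^ (k + 1) * g := by rw [← hc, pow_succ]
        have hcq : c ^ q = 1 := by
          have h5 := hpow q
          have hxq : x ^ q = 1 := by rw [← hx]; exact pow_orderOf_eq_one x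
          rw [hxq, one_mul, inv_one, mul_one] at h5
          exact (mul_eq_right.mp h5.symm)
        have hcr : c ^ r = 1 := hexp c hcM
        have hc1 : c = 1 :=
          (pow_eq_one_iff_of_coprime ((Nat.coprime_primes hq hr).mpr hne)).mp ⟨hcq, hcr⟩
        rw [hc1] at hc
        calc g * x = (x * g * x⁻¹ * g⁻¹) * (g * x) := by rw [← hc, one_mul]
          _ = x * g := by group
      have hzn : (Subgroup.zpowers x).Normal := ⟨by
        intro y hy g
        have hyc : y ∈ Subgroup.center Q := (Subgroup.zpowers_le.mpr hxc) hy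
        have h5 := Subgroup.mem_center_iff.mp hyc g
        rw [h5, mul_inv_cancel_right]
        exact hy⟩
      have hzne : Subgroup.zpowers x ≠ ⊥ := by
        intro h
        rw [Subgroup.zpowers_eq_bot] at h
        rw [h, orderOf_one] at hx
        exact hq.one_lt.ne hx
      have hle := hmin _ hzn hzne
      have h6 := Subgroup.card_dvd_of_le hle
      rw [ha, Nat.card_zpowers, hx] at h6
      have h7 : r ∣ q := (dvd_pow_self r ha0).trans h6
      exact hne ((Nat.prime_dvd_prime_iff_eq hr hq).mp h7).symm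
    have hcardQ := Nat.eq_prime_pow_of_unique_prime_dvd (Nat.card_pos (α := Q)).ne' hprimes
    exact IsPGroup.of_card hcardQ
  right
  refine ⟨hab, ⟨r, a, hr, ha0, ha⟩, ?_⟩
  obtain ⟨q, hq, hqd, hqr⟩ : ∃ q : ℕ, q.Prime ∧ q ∣ Nat.card Q ∧ q ≠ r := by
    by_contra hno
    push_neg at hno
    have hcardQ := Nat.eq_prime_pow_of_unique_prime_dvd (Nat.card_pos (α := Q)).ne'
      (fun {d} hd hdd => hno d hd hdd)
    have hQp : IsPGroup r Q := IsPGroup.of_card hcardQ
    obtain ⟨x, -, hx1⟩ : ∃ x ∈ commutator Q, x ≠ 1 := by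
      by_contra hno'
      push_neg at hno'
      exact hnab ((Subgroup.eq_bot_iff_forall _).mpr hno')
    haveI : Nontrivial Q := ⟨⟨x, 1, hx1⟩⟩
    have := hQp.center_nontrivial
    exact (Subgroup.nontrivial_iff_ne_bot _).mp this hZ
  haveI : Fact q.Prime := ⟨hq⟩
  obtain ⟨S⟩ : Nonempty (Sylow q Q) := inferInstance
  have hSne : (S : Subgroup Q) ≠ ⊥ := S.ne_bot_of_dvd_card hqd
  have hMS : (commutator Q ⊔ (S : Subgroup Q)).Normal :=
    Subgroup.Normal.of_commutator_le Q le_sup_left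
  have h1 := @Sylow.normalizer_sup_eq_top' Q _ q _ (commutator Q ⊔ (S : Subgroup Q)) hMS _ S
    le_sup_right
  obtain ⟨L, hL⟩ : ∃ L : Subgroup Q, L = Subgroup.normalizer ((S : Subgroup Q) : Set Q) :=
    ⟨_, rfl⟩
  have hfr : L ⊔ commutator Q = ⊤ := by
    have h1' : L ⊔ (commutator Q ⊔ (S : Subgroup Q)) = ⊤ := by rw [hL]; exact h1
    have h3 : (S : Subgroup Q) ≤ L := by rw [hL]; exact Subgroup.le_normalizer
    rw [eq_top_iff, ← h1']
    exact sup_le le_sup_left (sup_le le_sup_right (h3.trans le_sup_left))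
  have hconj : ∀ g : Q, ∀ y ∈ commutator Q, ∃ l ∈ L, g * y * g⁻¹ = l * y * l⁻¹ := by
    intro g y hy
    obtain ⟨l, hl, m', hm', rfl⟩ := exists_mul_of_sup_eq_top L (commutator Q) hfr g
    refine ⟨l, hl, ?_⟩
    have h5 : m' * y = y * m' := hab m' hm' y hy
    calc l * m' * y * (l * m')⁻¹ = l * (m' * y) * m'⁻¹ * l⁻¹ := by group
      _ = l * (y * m') * m'⁻¹ * l⁻¹ := by rw [h5]
      _ = l * y * l⁻¹ := by group
  have hMn : (commutator Q).Normal := inferInstance
  have hLMn : (L ⊓ commutator Q).Normal := ⟨by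
    intro y hy g
    obtain ⟨l, hl, h5⟩ := hconj g y hy.2
    rw [h5]
    exact ⟨L.mul_mem (L.mul_mem hl hy.1) (L.inv_mem hl), hMn.conj_mem y hy.2 l⟩⟩
  have hnotle : ¬ commutator Q ≤ L := by
    intro hle
    have hLtop : L = ⊤ := by rw [← hfr]; exact (sup_eq_left.mpr hle).symm
    have hSn : (S : Subgroup Q).Normal := by
      rw [← Subgroup.normalizer_eq_top_iff, ← hL, hLtop]
    have h5 := Subgroup.card_dvd_of_le (hmin _ hSn hSne)
    obtain ⟨b, hb⟩ := IsPGroup.iff_card.mp S.2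
    rw [ha, hb] at h5
    have h6 : r ∣ q ^ b := (dvd_pow_self r ha0).trans h5
    have h7 := hr.dvd_of_dvd_pow h6
    exact hqr ((Nat.prime_dvd_prime_iff_eq hr hq).mp h7).symm
  have hLM : L ⊓ commutator Q = ⊥ := by
    by_contra hne
    exact hnotle ((hmin _ hLMn hne).trans inf_le_left)
  have hLab : ∀ l₁ ∈ L, ∀ l₂ ∈ L, l₁ * l₂ = l₂ * l₁ := by
    intro l₁ h₁ l₂ h₂
    have h5 : l₁ * l₂ * l₁⁻¹ * l₂⁻¹ ∈ L ⊓ commutator Q :=
      ⟨L.mul_mem (L.mul_mem (L.mul_mem h₁ h₂) (L.inv_mem h₁)) (L.inv_mem h₂),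
        comm_elt_mem_commutator l₁ l₂⟩
    rw [hLM, Subgroup.mem_bot] at h5
    calc l₁ * l₂ = (l₁ * l₂ * l₁⁻¹ * l₂⁻¹) * (l₂ * l₁) := by group
      _ = l₂ * l₁ := by rw [h5, one_mul]
  intro x hx n hn hxn
  obtain ⟨l, hl, m₀, hm₀, rfl⟩ := exists_mul_of_sup_eq_top L (commutator Q) hfr x
  have hln : l * n = n * l := by
    have h5 : m₀ * n = n * m₀ := hab m₀ hm₀ n hn
    have h6 : l * n * m₀ = n * l * m₀ := by
      calc l * n * m₀ = l * (n * m₀) := by group
        _ = l * (m₀ * n) := by rw [h5]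
        _ = l * m₀ * n := by group
        _ = n * (l * m₀) := hxn
        _ = n * l * m₀ := by group
    exact mul_right_cancel h6
  obtain ⟨C, hC⟩ : ∃ C : Subgroup Q,
      C = commutator Q ⊓ Subgroup.centralizer ({l} : Set Q) := ⟨_, rfl⟩
  have hCn : C.Normal := ⟨by
    intro y hy g
    rw [hC] at hy ⊢
    obtain ⟨l', hl', h5⟩ := hconj g y hy.1
    rw [h5]
    refine Subgroup.mem_inf.mpr ⟨hMn.conj_mem y hy.1 l', ?_⟩
    rw [Subgroup.mem_centralizer_iff]
    intro z hz
    rw [Set.mem_singleton_iff] at hz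
    rw [hz]
    have h6 : l * y = y * l := (Subgroup.mem_centralizer_iff.mp hy.2) l rfl
    have h7 : l * l' = l' * l := hLab l hl l' hl'
    have h8 : l * l'⁻¹ = l'⁻¹ * l := by
      calc l * l'⁻¹ = l'⁻¹ * (l' * l) * l'⁻¹ := by group
        _ = l'⁻¹ * (l * l') * l'⁻¹ := by rw [h7]
        _ = l'⁻¹ * l := by group
    calc l * (l' * y * l'⁻¹) = (l * l') * y * l'⁻¹ := by group
      _ = (l' * l) * y * l'⁻¹ := by rw [h7]
      _ = l' * (l * y) * l'⁻¹ := by group
      _ = l' * (y * l) * l'⁻¹ := by rw [h6]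
      _ = l' * y * (l * l'⁻¹) := by group
      _ = l' * y * (l'⁻¹ * l) := by rw [h8]
      _ = l' * y * l'⁻¹ * l := by group⟩
  have hCbot : C = ⊥ := by
    by_contra hne
    have hle := hmin C hCn hne
    have hlc : l ∈ Subgroup.center Q := by
      rw [Subgroup.mem_center_iff]
      intro g
      obtain ⟨l', hl', m', hm', rfl⟩ := exists_mul_of_sup_eq_top L (commutator Q) hfr g
      have h5 : l * m' = m' * l := by
        have := hle hm'
        rw [hC] at this
        exact (Subgroup.mem_centralizer_iff.mp this.2) l rfl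
      have h6 : l * l' = l' * l := hLab l hl l' hl'
      calc l' * m' * l = l' * (m' * l) := by group
        _ = l' * (l * m') := by rw [h5]
        _ = (l' * l) * m' := by group
        _ = (l * l') * m' := by rw [h6]
        _ = l * (l' * m') := by group
    rw [hZ, Subgroup.mem_bot] at hlc
    apply hx
    rw [hlc, one_mul]
    exact hm₀
  have hnC : n ∈ C := by
    rw [hC]
    refine Subgroup.mem_inf.mpr ⟨hn, ?_⟩
    rw [Subgroup.mem_centralizer_iff]
    intro z hz
    rw [Set.mem_singleton_iff] at hz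
    rw [hz]
    exact hln
  rw [hCbot, Subgroup.mem_bot] at hnC
  exact hnC

end TwoDegB

end Cfsg.Agent.Helper2
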