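import Mathlib
import Cfsg.Agent.Helper2.TwoDegB

/-!
# Groups with two character degrees: quotients of Frobenius type (helper2)
-/

set_option autoImplicit false

namespace Cfsg.Agent.Helper2

open Cfsg
open scoped ComplexConjugate

universe u

section TwoDegC

variable {G : Type u} [Group G]

theorem charDegree_hom {H : Type u} [Group H] (f : H →* ℂˣ) :
    charDegree (fun g : H => ((f g : ℂˣ) : ℂ)) = 1 := by
  unfold charDegree
  simp

/-- The endomorphism `n ↦ [x, n]` of the abelian section `N / K`. -/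
theorem exists_comm_endo [Finite G] (N K : Subgroup G) [hN : N.Normal] [hK : K.Normal]
    (hab : ∀ a ∈ N, ∀ b ∈ N, a * b * a⁻¹ * b⁻¹ ∈ K) (x : G) :
    ∃ φ : (N ⧸ K.subgroupOf N) →* (N ⧸ K.subgroupOf N),
      (∀ n : N, φ (QuotientGroup.mk' (K.subgroupOf N) n)
        = QuotientGroup.mk' (K.subgroupOf N) (⟨x * n * x⁻¹, hN.conj_mem n n.2 x⟩ : N)
          * (QuotientGroup.mk' (K.subgroupOf N) n)⁻¹) ∧
      ((∀ n ∈ N, x * n * x⁻¹ * n⁻¹ ∈ K → n ∈ K) → Function.Surjective φ) := by
  classical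
  have habq := quot_comm_of_comm_mem (K.subgroupOf N) (fun a b => by
    rw [Subgroup.mem_subgroupOf]; exact hab a a.2 b b.2)
  obtain ⟨f, hf⟩ : ∃ f : N →* N ⧸ K.subgroupOf N, ∀ n : N,
      f n = QuotientGroup.mk' (K.subgroupOf N) (⟨x * n * x⁻¹, hN.conj_mem n n.2 x⟩ : N)
        * (QuotientGroup.mk' (K.subgroupOf N) n)⁻¹ := by
    refine ⟨MonoidHom.mk' (fun n =>
      QuotientGroup.mk' (K.subgroupOf N) (⟨x * n * x⁻¹, hN.conj_mem n n.2 x⟩ : N)
        * (QuotientGroup.mk' (K.subgroupOf N) n)⁻¹) ?_, fun n => rfl⟩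
    intro n n'
    have e : (⟨x * ((n * n' : N) : G) * x⁻¹, hN.conj_mem _ (n * n').2 x⟩ : N)
        = ⟨x * n * x⁻¹, hN.conj_mem n n.2 x⟩ * ⟨x * n' * x⁻¹, hN.conj_mem n' n'.2 x⟩ := by
      apply Subtype.ext
      simp only [Subgroup.coe_mul]
      group
    show QuotientGroup.mk' (K.subgroupOf N)
          (⟨x * ((n * n' : N) : G) * x⁻¹, hN.conj_mem _ (n * n').2 x⟩ : N)
        * (QuotientGroup.mk' (K.subgroupOf N) (n * n'))⁻¹ = _
    rw [e, map_mul, map_mul, mul_inv_rev]
    obtain ⟨A, hA⟩ : ∃ A, A = QuotientGroup.mk' (K.subgroupOf N)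
      (⟨x * n * x⁻¹, hN.conj_mem n n.2 x⟩ : N) := ⟨_, rfl⟩
    obtain ⟨A', hA'⟩ : ∃ A', A' = QuotientGroup.mk' (K.subgroupOf N)
      (⟨x * n' * x⁻¹, hN.conj_mem n' n'.2 x⟩ : N) := ⟨_, rfl⟩
    obtain ⟨B, hB⟩ : ∃ B, B = QuotientGroup.mk' (K.subgroupOf N) n := ⟨_, rfl⟩
    obtain ⟨B', hB'⟩ : ∃ B', B' = QuotientGroup.mk' (K.subgroupOf N) n' := ⟨_, rfl⟩
    rw [← hA, ← hA', ← hB, ← hB']
    calc A * A' * (B'⁻¹ * B⁻¹) = A * ((A' * B'⁻¹) * B⁻¹) := by group
      _ = A * (B⁻¹ * (A' * B'⁻¹)) := by rw [habq (A' * B'⁻¹) B⁻¹]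
      _ = A * B⁻¹ * (A' * B'⁻¹) := by group
  have hle : K.subgroupOf N ≤ f.ker := by
    intro n hn
    rw [MonoidHom.mem_ker, hf]
    have h1 : QuotientGroup.mk' (K.subgroupOf N) n = 1 := (QuotientGroup.eq_one_iff n).mpr hn
    have h2 : QuotientGroup.mk' (K.subgroupOf N) (⟨x * n * x⁻¹, hN.conj_mem n n.2 x⟩ : N) = 1 :=
      (QuotientGroup.eq_one_iff _).mpr (by
        rw [Subgroup.mem_subgroupOf]
        exact hK.conj_mem _ (Subgroup.mem_subgroupOf.mp hn) x)
    rw [h1, h2, inv_one, mul_one]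
  refine ⟨QuotientGroup.lift (K.subgroupOf N) f hle, fun n => hf n, fun hx => ?_⟩
  apply Finite.injective_iff_surjective.mp
  rw [injective_iff_map_eq_one]
  intro y hy
  obtain ⟨n, rfl⟩ := QuotientGroup.mk_surjective y
  have h1 : f n = 1 := hy
  rw [hf, mul_inv_eq_one] at h1
  have h2 : QuotientGroup.mk' (K.subgroupOf N)
      ((⟨x * n * x⁻¹, hN.conj_mem n n.2 x⟩ : N) * n⁻¹) = 1 := by
    rw [map_mul, map_inv, h1, mul_inv_cancel]
  have h3 := (QuotientGroup.eq_one_iff _).mp h2
  rw [Subgroup.mem_subgroupOf] at h3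
  exact (QuotientGroup.eq_one_iff n).mpr (Subgroup.mem_subgroupOf.mpr (hx n n.2 h3))

/-- If a normal section `N / K` of `G` behaves like the kernel of a Frobenius group and `G` has
only two character degrees `1, m`, then `N` is abelian of index `m`. -/
theorem abelian_of_frob_type [Finite G] {m : ℕ} (h2 : TwoDeg G m)
    (N K : Subgroup G) [hN : N.Normal] [hK : K.Normal] (hNtop : N ≠ ⊤)
    (hab : ∀ a ∈ N, ∀ b ∈ N, a * b * a⁻¹ * b⁻¹ ∈ K)
    (r a : ℕ) (hr : r.Prime) (ha : a ≠ 0) (hidx : K.relIndex N = r ^ a)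
    (hfpf : ∀ x : G, x ∉ N → ∀ n ∈ N, x * n * x⁻¹ * n⁻¹ ∈ K → n ∈ K)
    (hcop : ¬ r ∣ N.index) (hle : N.index ≤ r ^ a) :
    (∀ a ∈ N, ∀ b ∈ N, a * b = b * a) ∧ N.index = m := by
  classical
  haveI := Fintype.ofFinite G
  haveI : Fintype N := Fintype.ofFinite _
  haveI : Fintype (K.subgroupOf N) := Fintype.ofFinite _
  have habH : ∀ a b : N, a * b * a⁻¹ * b⁻¹ ∈ K.subgroupOf N := fun a b => by
    rw [Subgroup.mem_subgroupOf]; exact hab a a.2 b b.2
  have hidx' : (K.subgroupOf N).index = r ^ a := hidx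
  have hB : Nat.card ((N ⧸ K.subgroupOf N) →* ℂˣ) = r ^ a := by
    rw [card_hom_of_comm (quot_comm_of_comm_mem (K.subgroupOf N) habH), ← hidx',
      Subgroup.index_eq_card]
  -- invariance forces triviality
  have htriv : ∀ x : G, x ∉ N → ∀ β : (N ⧸ K.subgroupOf N) →* ℂˣ,
      (∀ n : N, β (QuotientGroup.mk' (K.subgroupOf N)
          (⟨x * n * x⁻¹, hN.conj_mem n n.2 x⟩ : N))
        = β (QuotientGroup.mk' (K.subgroupOf N) n)) → β = 1 := by
    intro x hx β hβ
    obtain ⟨φ, hφ, hsurj⟩ := exists_comm_endo N K hab x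
    have hs := hsurj (hfpf x hx)
    refine MonoidHom.ext fun y => ?_
    obtain ⟨z, rfl⟩ := hs y
    obtain ⟨n, rfl⟩ := QuotientGroup.mk_surjective z
    have h1 := hφ n
    have h2 : (QuotientGroup.mk n : N ⧸ K.subgroupOf N)
        = QuotientGroup.mk' (K.subgroupOf N) n := rfl
    rw [h2, h1, map_mul, map_inv, hβ n, mul_inv_cancel, MonoidHom.one_apply]
  have hNpos : 0 < N.index := Nat.pos_of_ne_zero Subgroup.index_ne_zero_of_finite
  -- the index is `m`
  have hindex : N.index = m := by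
    haveI : Nontrivial ((N ⧸ K.subgroupOf N) →* ℂˣ) := by
      haveI : Finite ((N ⧸ K.subgroupOf N) →* ℂˣ) :=
        Nat.finite_of_card_ne_zero (by rw [hB]; exact (pow_pos hr.pos a).ne')
      rw [← Finite.one_lt_card_iff_nontrivial, hB]
      exact Nat.one_lt_pow ha hr.one_lt
    obtain ⟨β₀, hβ₀⟩ := exists_ne (1 : (N ⧸ K.subgroupOf N) →* ℂˣ)
    obtain ⟨θ₀, hθ₀⟩ : ∃ θ₀ : IrrCharacter N, (θ₀ : N → ℂ)
        = fun n => ((β₀ (QuotientGroup.mk' (K.subgroupOf N) n) : ℂˣ) : ℂ) :=
      ⟨⟨_, Helper25.isIrrCharacter_of_monoidHom (β₀.comp (QuotientGroup.mk' (K.subgroupOf N)))⟩,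
        rfl⟩
    have hstab : N = stabChar N (θ₀ : N → ℂ) := by
      apply le_antisymm
      · exact le_stabChar N _ (isClassFunction_of_isCharacter (isCharacter_of_isIrrCharacter θ₀.2))
      · intro x hx
        by_contra hxN
        apply hβ₀
        apply htriv x hxN
        intro n
        have h1 := congrFun ((mem_stabChar N _ x).mp hx) n
        rw [conjChar_apply, hθ₀] at h1
        exact Units.ext h1
    obtain ⟨χ, -, hχdeg⟩ := exists_irr_of_induced N θ₀ N hstab le_rfl θ₀ 1 one_ne_zero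
      (fun n => by rw [Nat.cast_one, one_mul])
    have hd1 : charDegree (θ₀ : N → ℂ) = 1 := by
      rw [hθ₀]
      exact charDegree_hom (β₀.comp (QuotientGroup.mk' (K.subgroupOf N)))
    rw [hd1, mul_one] at hχdeg
    rcases h2 χ with h3 | h3
    · rw [hχdeg] at h3
      exact absurd (Subgroup.index_eq_one.mp h3) hNtop
    · rw [← h3, hχdeg]
  refine ⟨?_, hindex⟩
  -- every irreducible character of `N` is linear
  have hlin : ∀ ψ : IrrCharacter N, charDegree (ψ : N → ℂ) = 1 := by
    intro ψ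
    obtain ⟨χ, hχ⟩ := exists_irr_above_h2 N ψ
    have hdvd := irr_degree_dvd_of_over N χ ψ hχ
    rcases h2 χ with h3 | h3
    · rw [h3] at hdvd
      exact Nat.dvd_one.mp hdvd
    rw [h3, ← hindex] at hdvd
    have hψr : ¬ r ∣ charDegree (ψ : N → ℂ) := fun h => hcop (h.trans hdvd)
    have hfix := gallagher_free (K.subgroupOf N) habH r hr a hidx' ψ hψr
    obtain ⟨ψβ, hψβ⟩ : ∃ ψβ : ((N ⧸ K.subgroupOf N) →* ℂˣ) → IrrCharacter N,
        ∀ β, (ψβ β : N → ℂ)
          = fun n => ((β (QuotientGroup.mk' (K.subgroupOf N) n) : ℂˣ) : ℂ) * (ψ : N → ℂ) n :=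
      ⟨fun β => ⟨_, Helper7.isIrrCharacter_hom_mul
        (β.comp (QuotientGroup.mk' (K.subgroupOf N))) (ψ : N → ℂ) ψ.2⟩, fun β => rfl⟩
    have hex : ∃ β, stabChar N (ψβ β : N → ℂ) ≤ N := by
      by_contra hno
      push_neg at hno
      have hxs : ∀ β, ∃ x : G, x ∈ stabChar N (ψβ β : N → ℂ) ∧ x ∉ N := by
        intro β
        have := hno β
        rw [SetLike.not_le_iff_exists] at this
        exact this
      choose xs hxs1 hxs2 using hxs
      obtain ⟨F, hF⟩ : ∃ F : Option ((N ⧸ K.subgroupOf N) →* ℂˣ) → G ⧸ N,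
          F none = 1 ∧ ∀ β, F (some β) = QuotientGroup.mk (xs β) :=
        ⟨fun o => o.elim 1 (fun β => QuotientGroup.mk (xs β)), rfl, fun β => rfl⟩
      have hFinj : Function.Injective F := by
        intro o o' hoo
        cases o with
        | none =>
          cases o' with
          | none => rfl
          | some β' =>
            exfalso
            rw [hF.1, hF.2] at hoo
            exact hxs2 β' ((QuotientGroup.eq_one_iff _).mp hoo.symm)
        | some β =>
          cases o' with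
          | none =>
            exfalso
            rw [hF.1, hF.2] at hoo
            exact hxs2 β ((QuotientGroup.eq_one_iff _).mp hoo)
          | some β' =>
            rw [hF.2, hF.2] at hoo
            have hn : (xs β)⁻¹ * xs β' ∈ N := QuotientGroup.eq.mp hoo
            have hx' : xs β ∈ stabChar N (ψβ β' : N → ℂ) := by
              have h5 : xs β = xs β' * ((xs β)⁻¹ * xs β')⁻¹ := by group
              rw [h5]
              exact Subgroup.mul_mem _ (hxs1 β') (Subgroup.inv_mem _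
                (le_stabChar N _ (isClassFunction_of_isCharacter
                  (isCharacter_of_isIrrCharacter (ψβ β').2)) hn))
            obtain ⟨φ, hφ, hsurj⟩ := exists_comm_endo N K hab (xs β)
            have hs := hsurj (hfpf (xs β) (hxs2 β))
            have hγ : (β' * β⁻¹).comp φ ∈ fixHom (K.subgroupOf N) (ψ : N → ℂ) := by
              rw [mem_fixHom]
              intro n
              have e1 := congrFun ((mem_stabChar N _ _).mp (hxs1 β)) n
              have e2 := congrFun ((mem_stabChar N _ _).mp hx') n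
              rw [conjChar_apply, hψβ] at e1 e2
              beta_reduce at e1 e2
              rw [MonoidHom.comp_apply, hφ n, map_mul, map_inv, MonoidHom.mul_apply,
                MonoidHom.mul_apply, MonoidHom.inv_apply, MonoidHom.inv_apply]
              obtain ⟨u, hu⟩ : ∃ u : ℂˣ, u = β (QuotientGroup.mk' (K.subgroupOf N)
                (⟨xs β * n * (xs β)⁻¹, hN.conj_mem n n.2 (xs β)⟩ : N)) := ⟨_, rfl⟩
              obtain ⟨u', hu'⟩ : ∃ u' : ℂˣ, u' = β' (QuotientGroup.mk' (K.subgroupOf N)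
                (⟨xs β * n * (xs β)⁻¹, hN.conj_mem n n.2 (xs β)⟩ : N)) := ⟨_, rfl⟩
              obtain ⟨v, hv⟩ : ∃ v : ℂˣ, v = β (QuotientGroup.mk' (K.subgroupOf N) n) :=
                ⟨_, rfl⟩
              obtain ⟨v', hv'⟩ : ∃ v' : ℂˣ, v' = β' (QuotientGroup.mk' (K.subgroupOf N) n) :=
                ⟨_, rfl⟩
              rw [← hu, ← hv] at e1
              rw [← hu', ← hv'] at e2
              rw [← hu, ← hu', ← hv, ← hv']
              have hu0 : (u : ℂ) ≠ 0 := u.ne_zero
              have hv0 : (v : ℂ) ≠ 0 := v.ne_zero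
              have hv'0 : (v' : ℂ) ≠ 0 := v'.ne_zero
              have key : (u' : ℂ) * v * (ψ : N → ℂ) n = v' * u * (ψ : N → ℂ) n := by
                linear_combination (u : ℂ) * e2 - (u' : ℂ) * e1
              push_cast
              field_simp
              linear_combination key
            rw [hfix, Subgroup.mem_bot] at hγ
            have h7 : β' = β := by
              refine MonoidHom.ext fun y => ?_
              obtain ⟨z, rfl⟩ := hs y
              have h8 := congrArg (fun g : (N ⧸ K.subgroupOf N) →* ℂˣ => g z) hγ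
              simp only [MonoidHom.comp_apply, MonoidHom.mul_apply, MonoidHom.inv_apply,
                MonoidHom.one_apply] at h8
              exact mul_inv_eq_one.mp h8
            rw [h7]
      have hcard := Nat.card_le_card_of_injective F hFinj
      haveI : Finite ((N ⧸ K.subgroupOf N) →* ℂˣ) :=
        Nat.finite_of_card_ne_zero (by rw [hB]; exact (pow_pos hr.pos a).ne')
      rw [Finite.card_option, hB, ← Subgroup.index_eq_card] at hcard
      omega
    obtain ⟨β, hβ⟩ := hex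
    have hstab : N = stabChar N (ψβ β : N → ℂ) :=
      le_antisymm (le_stabChar N _ (isClassFunction_of_isCharacter
        (isCharacter_of_isIrrCharacter (ψβ β).2))) hβ
    obtain ⟨χ', -, hχ'deg⟩ := exists_irr_of_induced N (ψβ β) N hstab le_rfl (ψβ β) 1 one_ne_zero
      (fun n => by rw [Nat.cast_one, one_mul])
    have hdeg : charDegree (ψβ β : N → ℂ) = charDegree (ψ : N → ℂ) := by
      unfold charDegree
      rw [hψβ]
      simp
    rw [hdeg, hindex] at hχ'deg
    have hdpos := Helper25.irr_degree_pos ψ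
    have hmpos : 0 < m := by rw [← hindex]; exact hNpos
    rcases h2 χ' with h3 | h3
    · rw [hχ'deg] at h3
      exact Nat.eq_one_of_mul_eq_one_left h3
    · rw [hχ'deg] at h3
      have : m * charDegree (ψ : N → ℂ) = m * 1 := by rw [h3, mul_one]
      exact Nat.eq_of_mul_eq_mul_left hmpos this
  intro a ha b hb
  have := comm_of_all_linear hlin ⟨a, ha⟩ ⟨b, hb⟩
  exact congrArg Subtype.val this

/-- A quotient of Frobenius type yields an abelian normal subgroup of index `m`. -/
theorem abelian_normal_of_quot_frob [Finite G] {m : ℕ} (h2 : TwoDeg G m)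
    (K : Subgroup G) [hK : K.Normal] (M : Subgroup (G ⧸ K)) [hM : M.Normal]
    (hMab : ∀ a ∈ M, ∀ b ∈ M, a * b = b * a) (hMtop : M ≠ ⊤)
    (r a : ℕ) (hr : r.Prime) (ha : a ≠ 0) (hcard : Nat.card M = r ^ a)
    (hfpf : ∀ x : G ⧸ K, x ∉ M → ∀ n ∈ M, x * n = n * x → n = 1) :
    ∃ A : Subgroup G, A.Normal ∧ (∀ a ∈ A, ∀ b ∈ A, a * b = b * a) ∧ A.index = m := by
  classical
  have hNn : (M.comap (QuotientGroup.mk' K)).Normal := hM.comap _
  have hsurj : Function.Surjective (QuotientGroup.mk' K) := QuotientGroup.mk'_surjective K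
  have hKN : K ≤ M.comap (QuotientGroup.mk' K) := by
    intro k hk
    rw [Subgroup.mem_comap]
    have : (QuotientGroup.mk' K) k = 1 := (QuotientGroup.eq_one_iff k).mpr hk
    rw [this]
    exact M.one_mem
  have hNtop : M.comap (QuotientGroup.mk' K) ≠ ⊤ := by
    intro h
    apply hMtop
    rw [eq_top_iff]
    intro y _
    obtain ⟨g, rfl⟩ := hsurj y
    have : g ∈ M.comap (QuotientGroup.mk' K) := by rw [h]; trivial
    exact this
  have hMbot : M ≠ ⊥ := by
    intro h
    rw [h, Subgroup.card_bot] at hcard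
    exact (Nat.one_lt_pow ha hr.one_lt).ne hcard
  have hidxN : (M.comap (QuotientGroup.mk' K)).index = M.index :=
    Subgroup.index_comap_of_surjective M hsurj
  have hrel : K.relIndex (M.comap (QuotientGroup.mk' K)) = r ^ a := by
    have h1 := Subgroup.relIndex_mul_index hKN
    rw [hidxN, Subgroup.index_eq_card K, ← Subgroup.card_mul_index M, hcard] at h1
    have hpos : 0 < M.index := Nat.pos_of_ne_zero Subgroup.index_ne_zero_of_finite
    exact Nat.eq_of_mul_eq_mul_right hpos h1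
  have hab : ∀ a ∈ M.comap (QuotientGroup.mk' K), ∀ b ∈ M.comap (QuotientGroup.mk' K),
      a * b * a⁻¹ * b⁻¹ ∈ K := by
    intro a ha b hb
    rw [← QuotientGroup.eq_one_iff]
    have h1 := hMab _ (Subgroup.mem_comap.mp ha) _ (Subgroup.mem_comap.mp hb)
    have h2 : ((a * b * a⁻¹ * b⁻¹ : G) : G ⧸ K)
        = (QuotientGroup.mk' K a) * (QuotientGroup.mk' K b) * (QuotientGroup.mk' K a)⁻¹
          * (QuotientGroup.mk' K b)⁻¹ := rfl
    rw [h2, h1]
    group
  have hfpf' : ∀ x : G, x ∉ M.comap (QuotientGroup.mk' K) →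
      ∀ n ∈ M.comap (QuotientGroup.mk' K), x * n * x⁻¹ * n⁻¹ ∈ K → n ∈ K := by
    intro x hx n hn hxn
    rw [← QuotientGroup.eq_one_iff] at hxn ⊢
    have h2 : ((x * n * x⁻¹ * n⁻¹ : G) : G ⧸ K)
        = (QuotientGroup.mk' K x) * (QuotientGroup.mk' K n) * (QuotientGroup.mk' K x)⁻¹
          * (QuotientGroup.mk' K n)⁻¹ := rfl
    rw [h2] at hxn
    have h3 : (QuotientGroup.mk' K x) * (QuotientGroup.mk' K n)
        = (QuotientGroup.mk' K n) * (QuotientGroup.mk' K x) := by
      calc (QuotientGroup.mk' K x) * (QuotientGroup.mk' K n)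
          = ((QuotientGroup.mk' K x) * (QuotientGroup.mk' K n) * (QuotientGroup.mk' K x)⁻¹
            * (QuotientGroup.mk' K n)⁻¹) * ((QuotientGroup.mk' K n) * (QuotientGroup.mk' K x)) := by
            group
        _ = (QuotientGroup.mk' K n) * (QuotientGroup.mk' K x) := by rw [hxn, one_mul]
    exact hfpf _ (fun h => hx (Subgroup.mem_comap.mpr h)) _ (Subgroup.mem_comap.mp hn) h3
  have hcop : ¬ r ∣ (M.comap (QuotientGroup.mk' K)).index := by
    rw [hidxN]
    exact frob_not_dvd_index M r a hr hcard ha hfpf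
  have hle : (M.comap (QuotientGroup.mk' K)).index ≤ r ^ a := by
    rw [hidxN, ← hcard]
    exact frob_index_le M hMab hMbot hfpf
  obtain ⟨h5, h6⟩ := abelian_of_frob_type h2 (M.comap (QuotientGroup.mk' K)) K hNtop hab r a hr ha
    hrel hfpf' hcop hle
  exact ⟨_, hNn, h5, h6⟩

end TwoDegC

end Cfsg.Agent.Helper2
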