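import Mathlib
import Cfsg.Agent.Helper2.TwoDegC

/-!
# Groups with two character degrees: the normal `p`-complement case and the structure
theorem (Isaacs 12.5) (helper2)
-/

set_option autoImplicit false

namespace Cfsg.Agent.Helper2

open Cfsg
open scoped ComplexConjugate

universe u

section TwoDegD

variable {Q : Type u} [Group Q]

theorem conj_pow_eq_of_comm {Γ : Type*} [Group Γ] (x g c : Γ) (hc : c = x * g * x⁻¹ * g⁻¹)
    (hcomm : x * c = c * x) (k : ℕ) : x ^ k * g * (x ^ k)⁻¹ = c ^ k * g := by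
  induction k with
  | zero => simp
  | succ k ih =>
    have hcomm' : x * c ^ k = c ^ k * x := Commute.pow_right (show Commute x c from hcomm) k
    calc x ^ (k + 1) * g * (x ^ (k + 1))⁻¹ = x * (x ^ k * g * (x ^ k)⁻¹) * x⁻¹ := by
          rw [pow_succ']; group
      _ = x * (c ^ k * g) * x⁻¹ := by rw [ih]
      _ = (x * c ^ k) * g * x⁻¹ := by group
      _ = (c ^ k * x) * g * x⁻¹ := by rw [hcomm']
      _ = c ^ k * (x * g * x⁻¹ * g⁻¹) * g := by group
      _ = c ^ (k + 1) * g := by rw [← hc, pow_succ]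

theorem exists_sylow_complement [Finite Q] (p : ℕ) [Fact p.Prime] (N : Subgroup Q)
    [hN : N.Normal] (h1 : (Nat.card N).Coprime p) (h2 : ∃ b, N.index = p ^ b) :
    ∃ S : Sylow p Q, N.IsComplement' (S : Subgroup Q) := by
  have hp : p.Prime := Fact.out
  obtain ⟨P⟩ : Nonempty (Sylow p Q) := inferInstance
  obtain ⟨k, hk⟩ := h2
  obtain ⟨n, hn⟩ := IsPGroup.iff_card.mp P.2
  have hcard : Nat.card N * p ^ k = Nat.card Q := by rw [← hk]; exact N.card_mul_index
  have hPidx := P.not_dvd_index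
  have hPcard := (P : Subgroup Q).card_mul_index
  have h3 : Nat.Coprime (Nat.card N) (Nat.card (P : Subgroup Q)) := by
    rw [hn]; exact Nat.Coprime.pow_right n h1
  refine ⟨P, Subgroup.isComplement'_of_coprime ?_ h3⟩
  have hd1 : Nat.card (P : Subgroup Q) ∣ p ^ k := by
    have : Nat.card (P : Subgroup Q) ∣ Nat.card N * p ^ k := by
      rw [hcard]; exact Subgroup.card_subgroup_dvd_card _
    exact (Nat.Coprime.dvd_mul_left h3.symm).mp this
  have hd2 : p ^ k ∣ Nat.card (P : Subgroup Q) := by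
    have : p ^ k ∣ Nat.card (P : Subgroup Q) * (P : Subgroup Q).index := by
      rw [hPcard, ← hcard]; exact dvd_mul_left _ _
    exact (Nat.Coprime.dvd_mul_right
      (Nat.Coprime.pow_left k ((Nat.Prime.coprime_iff_not_dvd hp).mpr hPidx))).mp this
  rw [Nat.dvd_antisymm hd1 hd2]; exact hcard

theorem sum_complement [Fintype Q] (N S : Subgroup Q) [Fintype N] [Fintype S]
    (hc : N.IsComplement' S) (F : Q → ℂ) (hF : ∀ (n : N) (s : S), F (n * s) = F s) :
    ∑ g : Q, F g = (Nat.card N : ℂ) * ∑ s : S, F s := by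
  have hbij : Function.Bijective (fun x : N × S => (x.1 : Q) * (x.2 : Q)) := hc
  rw [← Fintype.sum_bijective _ hbij (fun x => F ((x.1 : Q) * (x.2 : Q))) F (fun x => rfl),
    Fintype.sum_prod_type]
  simp only [hF]
  rw [Finset.sum_const, Finset.card_univ, nsmul_eq_mul, Nat.card_eq_fintype_card]

theorem constituent_degree_le {G : Type u} [Group G] [Fintype G] {Ψ : G → ℂ}
    (hΨ : IsCharacter G Ψ) (φ : IrrCharacter G) (h : classInner Ψ (φ : G → ℂ) ≠ 0) (d : ℕ)
    (hd : Ψ 1 = d) : charDegree (φ : G → ℂ) ≤ d := by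
  classical
  have hc : ∀ ζ : IrrCharacter G, ∃ c : ℕ, classInner Ψ (ζ : G → ℂ) = c :=
    fun ζ => classInner_char_nat hΨ (isCharacter_of_isIrrCharacter ζ.2)
  choose c hc using hc
  have hdec : Ψ = ∑ ζ : IrrCharacter G, (c ζ : ℂ) • (ζ : G → ℂ) := by
    conv_lhs => rw [classFun_eq_sum_classInner (isClassFunction_of_isCharacter hΨ)]
    exact Finset.sum_congr rfl (fun ζ _ => by rw [hc ζ])
  have hsum : d = ∑ ζ : IrrCharacter G, c ζ * charDegree (ζ : G → ℂ) := by
    have h1 := congrFun hdec 1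
    rw [hd] at h1
    simp only [Finset.sum_apply, Pi.smul_apply, smul_eq_mul] at h1
    rw [Finset.sum_congr rfl (fun ζ _ => by rw [Helper25.irr_one_eq_degree ζ])] at h1
    exact_mod_cast h1
  have hcφ : c φ ≠ 0 := by
    intro h0
    apply h
    rw [hc φ, h0, Nat.cast_zero]
  have hsingle : c φ * charDegree (φ : G → ℂ)
      ≤ ∑ ζ : IrrCharacter G, c ζ * charDegree (ζ : G → ℂ) :=
    Finset.single_le_sum (f := fun ζ => c ζ * charDegree (ζ : G → ℂ)) (fun _ _ => Nat.zero_le _)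
      (Finset.mem_univ φ)
  rw [hsum]
  calc charDegree (φ : G → ℂ) ≤ c φ * charDegree (φ : G → ℂ) :=
        Nat.le_mul_of_pos_left _ (Nat.pos_of_ne_zero hcφ)
    _ ≤ _ := hsingle

/-- In the normal `p`-complement situation with a unique minimal normal subgroup `U ≤ N`,
the quotient by the `p`-complement is abelian. -/
theorem npc_comm_le [Finite Q] {m : ℕ} (h2 : TwoDeg Q m) (p : ℕ) [hp : Fact p.Prime]
    (N : Subgroup Q) [hN : N.Normal] (hNab : ∀ a ∈ N, ∀ b ∈ N, a * b = b * a)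
    (hcop : (Nat.card N).Coprime p) (hidx : ∃ b, N.index = p ^ b)
    (U : Subgroup Q) (hUN : U ≤ N) (hU : U ≠ ⊥)
    (hmin : ∀ X : Subgroup Q, X.Normal → X ≠ ⊥ → U ≤ X) :
    commutator Q ≤ N := by
  classical
  haveI := Fintype.ofFinite Q
  haveI : Fintype N := Fintype.ofFinite _
  by_contra hnot
  obtain ⟨φ₀, hφ₀⟩ : ∃ φ₀ : IrrCharacter (Q ⧸ N), charDegree (φ₀ : Q ⧸ N → ℂ) ≠ 1 := by
    by_contra hno
    push_neg at hno
    apply hnot
    rw [commutator_def, Subgroup.commutator_le]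
    intro g _ h _
    rw [commutatorElement_def, ← QuotientGroup.eq_one_iff]
    have h1 := comm_of_all_linear hno (QuotientGroup.mk' N g) (QuotientGroup.mk' N h)
    have h3 : ((g * h * g⁻¹ * h⁻¹ : Q) : Q ⧸ N)
        = (QuotientGroup.mk' N g) * (QuotientGroup.mk' N h) * (QuotientGroup.mk' N g)⁻¹
          * (QuotientGroup.mk' N h)⁻¹ := rfl
    rw [h3, h1]
    group
  obtain ⟨φ, hφ⟩ : ∃ φ : IrrCharacter Q,
      ∀ g, (φ : Q → ℂ) g = (φ₀ : Q ⧸ N → ℂ) (QuotientGroup.mk' N g) :=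
    ⟨Helper25.irrComp φ₀ (QuotientGroup.mk' N) (QuotientGroup.mk'_surjective N), fun g => rfl⟩
  have hφφ₀ : charDegree (φ : Q → ℂ) = charDegree (φ₀ : Q ⧸ N → ℂ) := by
    unfold charDegree
    rw [hφ, map_one]
  have hφdeg : charDegree (φ : Q → ℂ) = m := by
    rcases h2 φ with h3 | h3
    · rw [hφφ₀] at h3; exact absurd h3 hφ₀
    · exact h3
  have hm1 : m ≠ 1 := fun h => hφ₀ (by rw [← hφφ₀, hφdeg, h])
  have hm0 : m ≠ 0 := by
    have := Helper25.irr_degree_pos φ
    omega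
  obtain ⟨b, hb⟩ := hidx
  have hQNp : IsPGroup p (Q ⧸ N) :=
    IsPGroup.of_card (by rw [← Subgroup.index_eq_card]; exact hb)
  haveI : Nontrivial (Q ⧸ N) := by
    by_contra hnt
    rw [not_nontrivial_iff_subsingleton] at hnt
    apply hnot
    intro g _
    exact (QuotientGroup.eq_one_iff g).mp (Subsingleton.elim _ _)
  obtain ⟨zb, hzb, hzb1⟩ : ∃ zb ∈ Subgroup.center (Q ⧸ N), zb ≠ 1 := by
    haveI := hQNp.center_nontrivial
    obtain ⟨⟨z, hz⟩, hz1⟩ := exists_ne (1 : Subgroup.center (Q ⧸ N))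
    exact ⟨z, hz, fun h => hz1 (Subtype.ext h)⟩
  obtain ⟨S, hcompl⟩ := exists_sylow_complement p N hcop ⟨b, hb⟩
  haveI : Fintype (S : Subgroup Q) := Fintype.ofFinite _
  have hdisj : ∀ s ∈ (S : Subgroup Q), s ∈ N → s = 1 := by
    intro s hs hsN
    have h1 : s ∈ N ⊓ (S : Subgroup Q) := ⟨hsN, hs⟩
    rw [disjoint_iff.mp hcompl.disjoint, Subgroup.mem_bot] at h1
    exact h1
  obtain ⟨s₀, hs₀S, hs₀z⟩ : ∃ s₀ ∈ (S : Subgroup Q), QuotientGroup.mk' N s₀ = zb := by
    obtain ⟨g, rfl⟩ := QuotientGroup.mk'_surjective N zb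
    obtain ⟨⟨n, s⟩, hns⟩ := hcompl.2 g
    have hns' : (n : Q) * (s : Q) = g := hns
    refine ⟨s, s.2, ?_⟩
    rw [← hns']
    have e1 : QuotientGroup.mk' N (n : Q) = 1 := (QuotientGroup.eq_one_iff (n : Q)).mpr n.2
    rw [map_mul, e1, one_mul]
  have hs₀N : s₀ ∉ N := by
    intro h
    apply hzb1
    rw [← hs₀z]
    exact (QuotientGroup.eq_one_iff s₀).mpr h
  have hcentral : ∀ g : Q, g * s₀ * g⁻¹ * s₀⁻¹ ∈ N := by
    intro g
    rw [← QuotientGroup.eq_one_iff]
    have h3 : ((g * s₀ * g⁻¹ * s₀⁻¹ : Q) : Q ⧸ N)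
        = (QuotientGroup.mk' N g) * (QuotientGroup.mk' N s₀) * (QuotientGroup.mk' N g)⁻¹
          * (QuotientGroup.mk' N s₀)⁻¹ := rfl
    rw [h3, hs₀z, Subgroup.mem_center_iff.mp hzb (QuotientGroup.mk' N g)]
    group
  -- `s₀` does not centralize `N`
  obtain ⟨n₀, hn₀, hn₀s⟩ : ∃ n₀ ∈ N, s₀ * n₀ * s₀⁻¹ ≠ n₀ := by
    by_contra hno
    push_neg at hno
    obtain ⟨y, hy⟩ : ∃ y, y = s₀ ^ Nat.card N := ⟨_, rfl⟩
    have hyc : y ∈ Subgroup.center Q := by
      rw [Subgroup.mem_center_iff]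
      intro g
      obtain ⟨c, hc⟩ : ∃ c, c = g * s₀ * g⁻¹ * s₀⁻¹ := ⟨_, rfl⟩
      have hcN : c ∈ N := by rw [hc]; exact hcentral g
      have hcs : Commute c s₀ := by
        have h5 := hno c hcN
        show c * s₀ = s₀ * c
        calc c * s₀ = (s₀ * c * s₀⁻¹) * s₀ := by rw [h5]
          _ = s₀ * c := by group
      have hcpow : c ^ Nat.card N = 1 := by
        have h5 : (⟨c, hcN⟩ : N) ^ Nat.card N = 1 := pow_card_eq_one'
        have h6 := congrArg Subtype.val h5
        rw [Subgroup.coe_pow] at h6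
        exact h6
      have h7 : g * y * g⁻¹ = y := by
        rw [hy, ← conj_pow]
        have h8 : g * s₀ * g⁻¹ = c * s₀ := by rw [hc]; group
        rw [h8, hcs.mul_pow, hcpow, one_mul]
      calc g * y = (g * y * g⁻¹) * g := by group
        _ = y * g := by rw [h7]
    have hy1 : y ≠ 1 := by
      intro h
      apply hs₀N
      obtain ⟨k, hk⟩ := S.2 ⟨s₀, hs₀S⟩
      have hk' : s₀ ^ p ^ k = 1 := by
        have h5 := congrArg Subtype.val hk
        rw [Subgroup.coe_pow] at h5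
        exact h5
      have h9 : s₀ = 1 :=
        (pow_eq_one_iff_of_coprime (Nat.Coprime.pow_right k hcop)).mp
          ⟨by rw [← hy]; exact h, hk'⟩
      rw [h9]; exact N.one_mem
    have hzn : (Subgroup.zpowers y).Normal := ⟨by
      intro w hw g
      have hwc : w ∈ Subgroup.center Q := (Subgroup.zpowers_le.mpr hyc) hw
      have h5 := Subgroup.mem_center_iff.mp hwc g
      rw [h5, mul_inv_cancel_right]
      exact hw⟩
    have hzne : Subgroup.zpowers y ≠ ⊥ := fun h => hy1 (Subgroup.zpowers_eq_bot.mp h)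
    have hle := hmin _ hzn hzne
    apply hU
    rw [Subgroup.eq_bot_iff_forall]
    intro u hu
    have huS : u ∈ (S : Subgroup Q) := by
      have h5 : Subgroup.zpowers y ≤ (S : Subgroup Q) := by
        rw [Subgroup.zpowers_le, hy]
        exact Subgroup.pow_mem _ hs₀S _
      exact h5 (hle hu)
    exact hdisj u huS (hUN hu)
  -- a linear character of `N` not fixed by `s₀`
  obtain ⟨t, ht⟩ : ∃ t : N, (t : Q) = s₀ * n₀ * s₀⁻¹ * n₀⁻¹ :=
    ⟨⟨s₀ * n₀ * s₀⁻¹ * n₀⁻¹, N.mul_mem (hN.conj_mem n₀ hn₀ s₀) (N.inv_mem hn₀)⟩, rfl⟩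
  have ht1 : t ≠ 1 := by
    intro h
    apply hn₀s
    have h5 := congrArg Subtype.val h
    rw [ht, Subgroup.coe_one] at h5
    calc s₀ * n₀ * s₀⁻¹ = (s₀ * n₀ * s₀⁻¹ * n₀⁻¹) * n₀ := by group
      _ = n₀ := by rw [h5, one_mul]
  have hcommN : commutator N = ⊥ := by
    rw [eq_bot_iff, commutator_def, Subgroup.commutator_le]
    intro x _ y _
    rw [Subgroup.mem_bot, commutatorElement_def]
    have h5 : x * y = y * x := Subtype.ext (hNab x x.2 y y.2)
    rw [h5]; group
  have htc : t ∉ commutator N := by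
    rw [hcommN, Subgroup.mem_bot]; exact ht1
  obtain ⟨lam, hlam1, hlamt⟩ := Cfsg.Agent.S4762.exists_linear_ne_one htc
  have hNT : N ≤ stabChar N (lam : N → ℂ) :=
    le_stabChar N _ (isClassFunction_of_isCharacter (isCharacter_of_isIrrCharacter lam.2))
  have hs₀T : s₀ ∉ stabChar N (lam : N → ℂ) := by
    intro h
    have h5 : (lam : N → ℂ) ⟨s₀ * n₀ * s₀⁻¹, hN.conj_mem n₀ hn₀ s₀⟩ = (lam : N → ℂ) ⟨n₀, hn₀⟩ :=
      congrFun ((mem_stabChar N _ s₀).mp h) ⟨n₀, hn₀⟩
    have h6 : (⟨s₀ * n₀ * s₀⁻¹, hN.conj_mem n₀ hn₀ s₀⟩ : N) = t * ⟨n₀, hn₀⟩ := by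
      apply Subtype.ext
      rw [Subgroup.coe_mul, ht]
      group
    rw [h6, Helper25.irr_linear_mul lam hlam1] at h5
    have h7 : (lam : N → ℂ) ⟨n₀, hn₀⟩ ≠ 0 := by
      have h8 := Cfsg.Agent.S4762.linear_norm lam hlam1 ⟨n₀, hn₀⟩
      intro h0
      rw [h0, norm_zero] at h8
      exact zero_ne_one h8
    exact hlamt (mul_right_cancel₀ h7 (by rw [h5, one_mul]))
  -- an irreducible character over `lam` whose restriction to `S` contains `φ`
  haveI : Fintype (stabChar N (lam : N → ℂ)) := Fintype.ofFinite _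
  have hΨ : IsCharacter Q (indFun N (lam : N → ℂ)) :=
    isCharacter_indFun N (isCharacter_of_isIrrCharacter lam.2)
  have hc : ∀ ζ : IrrCharacter Q, ∃ c : ℕ,
      classInner (indFun N (lam : N → ℂ)) (ζ : Q → ℂ) = c :=
    fun ζ => classInner_char_nat hΨ (isCharacter_of_isIrrCharacter ζ.2)
  choose c hc using hc
  have hdec : indFun N (lam : N → ℂ) = ∑ ζ : IrrCharacter Q, (c ζ : ℂ) • (ζ : Q → ℂ) := by
    conv_lhs => rw [classFun_eq_sum_classInner (isClassFunction_of_isCharacter hΨ)]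
    exact Finset.sum_congr rfl (fun ζ _ => by rw [hc ζ])
  have hcardS : Nat.card (S : Subgroup Q) = N.index := hcompl.symm.index_eq_card.symm
  have hLHS : classInner (fun s : (S : Subgroup Q) => indFun N (lam : N → ℂ) s)
      (fun s : (S : Subgroup Q) => (φ : Q → ℂ) s) = m := by
    unfold classInner
    beta_reduce
    rw [Finset.sum_eq_single (1 : (S : Subgroup Q))]
    · rw [Subgroup.coe_one, indFun_one_apply, hlam1, mul_one, Helper25.irr_one_eq_degree φ,
        hφdeg, Complex.conj_natCast, hcardS]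
      have h0 : (N.index : ℂ) ≠ 0 := Nat.cast_ne_zero.mpr Subgroup.index_ne_zero_of_finite
      field_simp
    · intro s _ hs1
      have hsN : (s : Q) ∉ N := fun h => hs1 (Subtype.ext (hdisj s s.2 h))
      rw [Helper7.indFun_apply_of_not_mem_normal N _ _ hsN, zero_mul]
    · intro h; exact absurd (Finset.mem_univ _) h
  have hRHS : classInner (fun s : (S : Subgroup Q) => indFun N (lam : N → ℂ) s)
      (fun s : (S : Subgroup Q) => (φ : Q → ℂ) s)
      = ∑ ζ : IrrCharacter Q, (c ζ : ℂ) *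
          classInner (fun s : (S : Subgroup Q) => (ζ : Q → ℂ) s)
            (fun s : (S : Subgroup Q) => (φ : Q → ℂ) s) := by
    have h5 : (fun s : (S : Subgroup Q) => indFun N (lam : N → ℂ) s)
        = ∑ ζ : IrrCharacter Q, (c ζ : ℂ) • (fun s : (S : Subgroup Q) => (ζ : Q → ℂ) s) := by
      funext s
      have h6 := congrFun hdec s
      simp only [Finset.sum_apply, Pi.smul_apply, smul_eq_mul] at h6 ⊢
      exact h6
    rw [h5, classInner_sum_left]
    exact Finset.sum_congr rfl (fun ζ _ => by rw [classInner_smul_left])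
  obtain ⟨χ, -, hχ⟩ := Finset.exists_ne_zero_of_sum_ne_zero (by
    rw [← hRHS, hLHS]; exact Nat.cast_ne_zero.mpr hm0)
  have hcχ : c χ ≠ 0 := by
    intro h0; apply hχ; rw [h0, Nat.cast_zero, zero_mul]
  have hχS : classInner (fun s : (S : Subgroup Q) => (χ : Q → ℂ) s)
      (fun s : (S : Subgroup Q) => (φ : Q → ℂ) s) ≠ 0 := by
    intro h0; apply hχ; rw [h0, mul_zero]
  have hχN : classInner (fun n : N => (χ : Q → ℂ) n) (lam : N → ℂ) ≠ 0 := by
    have h5 := frobenius_reciprocity N (lam : N → ℂ) (χ : Q → ℂ)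
      (isClassFunction_of_isCharacter (isCharacter_of_isIrrCharacter χ.2))
    rw [hc χ] at h5
    rw [classInner_conj_symm (lam : N → ℂ), ← h5, Complex.conj_natCast]
    exact Nat.cast_ne_zero.mpr hcχ
  -- `φ` restricts irreducibly to `S`
  have hφS : IsIrrCharacter (S : Subgroup Q) (fun s : (S : Subgroup Q) => (φ : Q → ℂ) s) := by
    apply isIrrCharacter_of_classInner_self
      (isCharacter_restrict _ (isCharacter_of_isIrrCharacter φ.2))
    have h5 := classInner_irr_irr φ φ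
    rw [if_pos rfl] at h5
    unfold classInner at h5 ⊢
    beta_reduce at h5 ⊢
    have h7 : ∑ g : Q, (φ : Q → ℂ) g * conj ((φ : Q → ℂ) g)
        = (Nat.card N : ℂ) * ∑ s : (S : Subgroup Q), (φ : Q → ℂ) s * conj ((φ : Q → ℂ) s) :=
      sum_complement N (S : Subgroup Q) hcompl (fun g => (φ : Q → ℂ) g * conj ((φ : Q → ℂ) g))
        (fun n s => by
          have e1 : QuotientGroup.mk' N (n : Q) = 1 := (QuotientGroup.eq_one_iff (n : Q)).mpr n.2
          have h6 : (φ : Q → ℂ) ((n : Q) * (s : Q)) = (φ : Q → ℂ) s := by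
            rw [hφ, hφ, map_mul, e1, one_mul]
          simp only [h6])
    rw [h7, ← hcompl.card_mul_card] at h5
    have hN0 : (Nat.card N : ℂ) ≠ 0 := Nat.cast_ne_zero.mpr Nat.card_pos.ne'
    have hS0 : (Nat.card (S : Subgroup Q) : ℂ) ≠ 0 := Nat.cast_ne_zero.mpr Nat.card_pos.ne'
    rw [← h5]
    push_cast
    field_simp
  have hχdeg : charDegree (χ : Q → ℂ) = m := by
    have h5 := constituent_degree_le
      (isCharacter_restrict (S : Subgroup Q) (isCharacter_of_isIrrCharacter χ.2))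
      (⟨_, hφS⟩ : IrrCharacter (S : Subgroup Q)) hχS (charDegree (χ : Q → ℂ))
      (Helper25.irr_one_eq_degree χ)
    have h6 : charDegree (fun s : (S : Subgroup Q) => (φ : Q → ℂ) s) = m := by
      rw [← hφdeg]; rfl
    have h5' : m ≤ charDegree (χ : Q → ℂ) := by
      rw [← h6]; exact h5
    rcases h2 χ with h7 | h7
    · rw [h7] at h5'
      omega
    · exact h7
  have hχSeq : (fun s : (S : Subgroup Q) => (χ : Q → ℂ) s)
      = (fun s : (S : Subgroup Q) => (φ : Q → ℂ) s) :=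
    char_eq_irr_of_degree
      (isCharacter_restrict (S : Subgroup Q) (isCharacter_of_isIrrCharacter χ.2))
      (⟨_, hφS⟩ : IrrCharacter (S : Subgroup Q)) hχS (by
        show (χ : Q → ℂ) 1 = (φ : Q → ℂ) 1
        rw [Helper25.irr_one_eq_degree χ, Helper25.irr_one_eq_degree φ, hχdeg, hφdeg])
  have hval : (χ : Q → ℂ) s₀ = (φ : Q → ℂ) s₀ := congrFun hχSeq ⟨s₀, hs₀S⟩
  have hφs₀ : (φ : Q → ℂ) s₀ ≠ 0 := by
    obtain ⟨cc, hcc, hccz⟩ := irr_central_mul φ₀ zb hzb
    have h5 := hccz 1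
    rw [mul_one] at h5
    rw [hφ, hs₀z, h5]
    refine mul_ne_zero ?_ (Helper25.irr_one_ne_zero φ₀)
    intro h0
    rw [h0, norm_zero] at hcc
    exact zero_ne_one hcc
  obtain ⟨ψ, f, -, -, hind⟩ := clifford_corr N χ lam hχN (stabChar N (lam : N → ℂ)) rfl hNT
  have hzero : (χ : Q → ℂ) s₀ = 0 := by
    rw [← hind]
    apply indFun_eq_zero_of_conj_not_mem
    intro x hx
    apply hs₀T
    have h5 : x⁻¹ * s₀ * x * s₀⁻¹ ∈ N := by
      have := hcentral x⁻¹
      rw [inv_inv] at this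
      exact this
    have h6 : s₀ = (x⁻¹ * s₀ * x * s₀⁻¹)⁻¹ * (x⁻¹ * s₀ * x) := by group
    rw [h6]
    exact Subgroup.mul_mem _ (Subgroup.inv_mem _ (hNT h5)) hx
  exact hφs₀ (by rw [← hval, hzero])

/-- In the normal `p`-complement situation with unique minimal normal subgroup `U = [N, Q]`,
the group is of Frobenius type with kernel its derived subgroup. -/
theorem npc_quot_frob [Finite Q] {m : ℕ} (h2 : TwoDeg Q m) (p : ℕ) [hp : Fact p.Prime]
    (N : Subgroup Q) [hN : N.Normal] (hNab : ∀ a ∈ N, ∀ b ∈ N, a * b = b * a)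
    (hcop : (Nat.card N).Coprime p) (hidx : ∃ b, N.index = p ^ b)
    (U : Subgroup Q) [hUn : U.Normal] (hUN : U ≤ N) (hU : U ≠ ⊥) (hUcomm : U ≤ commutator Q)
    (hUc : ∀ n ∈ N, ∀ g : Q, g * n * g⁻¹ * n⁻¹ ∈ U)
    (hmin : ∀ X : Subgroup Q, X.Normal → X ≠ ⊥ → U ≤ X) :
    (∀ a ∈ commutator Q, ∀ b ∈ commutator Q, a * b = b * a) ∧ commutator Q ≠ ⊤ ∧
      (∃ r a : ℕ, r.Prime ∧ a ≠ 0 ∧ Nat.card (commutator Q) = r ^ a) ∧
      ∀ x : Q, x ∉ commutator Q → ∀ n ∈ commutator Q, x * n = n * x → n = 1 := by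
  classical
  have hp' : p.Prime := hp.out
  have hcomN := npc_comm_le h2 p N hNab hcop hidx U hUN hU hmin
  obtain ⟨b, hb⟩ := hidx
  have hcomU : commutator Q ≤ U := by
    rw [commutator_def, Subgroup.commutator_le]
    intro g _ h _
    rw [commutatorElement_def]
    obtain ⟨c, hc⟩ : ∃ c, c = g * h * g⁻¹ * h⁻¹ := ⟨_, rfl⟩
    rw [← hc]
    have hcN : c ∈ N := by rw [hc]; exact hcomN (comm_elt_mem_commutator g h)
    have hcomm : QuotientGroup.mk' U g * QuotientGroup.mk' U c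
        = QuotientGroup.mk' U c * QuotientGroup.mk' U g := by
      have h5 := (QuotientGroup.eq_one_iff _).mpr (hUc c hcN g)
      have h6 : ((g * c * g⁻¹ * c⁻¹ : Q) : Q ⧸ U)
          = QuotientGroup.mk' U g * QuotientGroup.mk' U c * (QuotientGroup.mk' U g)⁻¹
            * (QuotientGroup.mk' U c)⁻¹ := rfl
      rw [h6] at h5
      calc QuotientGroup.mk' U g * QuotientGroup.mk' U c
          = (QuotientGroup.mk' U g * QuotientGroup.mk' U c * (QuotientGroup.mk' U g)⁻¹
              * (QuotientGroup.mk' U c)⁻¹) * (QuotientGroup.mk' U c * QuotientGroup.mk' U g) := by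
            group
        _ = QuotientGroup.mk' U c * QuotientGroup.mk' U g := by rw [h5, one_mul]
    have hpow := conj_pow_eq_of_comm (QuotientGroup.mk' U g) (QuotientGroup.mk' U h)
      (QuotientGroup.mk' U c) (by rw [hc]; simp only [map_mul, map_inv]) hcomm (p ^ b)
    have hgN : g ^ (p ^ b) ∈ N := by
      rw [← QuotientGroup.eq_one_iff, QuotientGroup.mk_pow, ← hb, Subgroup.index_eq_card]
      exact pow_card_eq_one'
    have hcomm2 : QuotientGroup.mk' U (g ^ (p ^ b)) * QuotientGroup.mk' U h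
        = QuotientGroup.mk' U h * QuotientGroup.mk' U (g ^ (p ^ b)) := by
      have h5 := (QuotientGroup.eq_one_iff _).mpr (hUc _ hgN h)
      have h6 : ((h * g ^ (p ^ b) * h⁻¹ * (g ^ (p ^ b))⁻¹ : Q) : Q ⧸ U)
          = QuotientGroup.mk' U h * QuotientGroup.mk' U (g ^ (p ^ b)) * (QuotientGroup.mk' U h)⁻¹
            * (QuotientGroup.mk' U (g ^ (p ^ b)))⁻¹ := rfl
      rw [h6] at h5
      calc QuotientGroup.mk' U (g ^ (p ^ b)) * QuotientGroup.mk' U h
          = (QuotientGroup.mk' U h * QuotientGroup.mk' U (g ^ (p ^ b)) * (QuotientGroup.mk' U h)⁻¹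
              * (QuotientGroup.mk' U (g ^ (p ^ b)))⁻¹)⁻¹
              * (QuotientGroup.mk' U h * QuotientGroup.mk' U (g ^ (p ^ b))) := by group
        _ = QuotientGroup.mk' U h * QuotientGroup.mk' U (g ^ (p ^ b)) := by
            rw [h5, inv_one, one_mul]
    have hc1 : (QuotientGroup.mk' U c) ^ (p ^ b) = 1 := by
      have hpow' : QuotientGroup.mk' U (g ^ (p ^ b)) * QuotientGroup.mk' U h
          * (QuotientGroup.mk' U (g ^ (p ^ b)))⁻¹
          = (QuotientGroup.mk' U c) ^ (p ^ b) * QuotientGroup.mk' U h := by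
        rw [map_pow]; exact hpow
      rw [hcomm2, mul_inv_cancel_right] at hpow'
      exact mul_eq_right.mp hpow'.symm
    have hc2 : (QuotientGroup.mk' U c) ^ (Nat.card N) = 1 := by
      rw [← map_pow]
      have h5 : (⟨c, hcN⟩ : N) ^ Nat.card N = 1 := pow_card_eq_one'
      have h6 := congrArg Subtype.val h5
      rw [Subgroup.coe_pow] at h6
      have h6' : c ^ Nat.card N = 1 := h6
      rw [h6', map_one]
    have hc3 : QuotientGroup.mk' U c = 1 :=
      (pow_eq_one_iff_of_coprime (Nat.Coprime.pow_left b hcop.symm)).mp ⟨hc1, hc2⟩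
    exact (QuotientGroup.eq_one_iff c).mp hc3
  have hcomne : commutator Q ≠ ⊥ := by
    intro h
    rw [h] at hUcomm
    exact hU (le_bot_iff.mp hUcomm)
  have hNtop : N ≠ ⊤ := by
    intro hNtop
    apply hcomne
    rw [eq_bot_iff, commutator_def, Subgroup.commutator_le]
    intro x _ y _
    rw [Subgroup.mem_bot, commutatorElement_def]
    have h5 : x * y = y * x := hNab x (by rw [hNtop]; trivial) y (by rw [hNtop]; trivial)
    rw [h5]; group
  have hmin' : ∀ X : Subgroup Q, X.Normal → X ≠ ⊥ → commutator Q ≤ X :=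
    fun X hX hXne => hcomU.trans (hmin X hX hXne)
  rcases frob_type_or_pgroup h2 hcomne hmin' with ⟨r, hr, hQr⟩ | ⟨hab, hra, hfpf⟩
  · exfalso
    haveI : Fact r.Prime := ⟨hr⟩
    obtain ⟨k, hk⟩ := IsPGroup.iff_card.mp hQr
    have hNcard : Nat.card N ∣ r ^ k := by rw [← hk]; exact Subgroup.card_subgroup_dvd_card N
    have hNne : Nat.card N ≠ 1 := by
      intro h
      rw [Subgroup.card_eq_one] at h
      rw [h] at hUN
      exact hU (le_bot_iff.mp hUN)
    have hrN : r ∣ Nat.card N := by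
      obtain ⟨j, -, hj⟩ := (Nat.dvd_prime_pow hr).mp hNcard
      rw [hj]
      have hj0 : j ≠ 0 := by rintro rfl; rw [pow_zero] at hj; exact hNne hj
      exact dvd_pow_self r hj0
    have hrp : r ≠ p := by
      intro hrp
      rw [hrp] at hrN
      exact (Nat.Prime.coprime_iff_not_dvd hp').mp hcop.symm hrN
    have hidxd : N.index ∣ r ^ k := by rw [← hk]; exact Subgroup.index_dvd_card N
    rw [hb] at hidxd
    have hb0 : b = 0 := by
      by_contra hb0
      have h5 : p ∣ r ^ k := (dvd_pow_self p hb0).trans hidxd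
      have h6 := hp'.dvd_of_dvd_pow h5
      exact hrp ((Nat.prime_dvd_prime_iff_eq hp' hr).mp h6).symm
    rw [hb0, pow_zero] at hb
    exact hNtop (Subgroup.index_eq_one.mp hb)
  · refine ⟨hab, ?_, hra, hfpf⟩
    intro htop
    rw [htop] at hcomN
    exact hNtop (top_le_iff.mp hcomN)

end TwoDegD

end Cfsg.Agent.Helper2
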