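import Mathlib
import Cfsg.Agent.Helper2.TwoDegD

/-!
# Groups with two character degrees: the structure theorem (Isaacs 12.5) (helper2)
-/

set_option autoImplicit false

namespace Cfsg.Agent.Helper2

open Cfsg
open scoped ComplexConjugate

universe u

section TwoDegE

variable {G : Type u} [Group G]

/-- The normal `p`-complement case of the two-degree theorem. -/
theorem two_deg_of_npc [Finite G] {m : ℕ} (h2 : TwoDeg G m) (p e : ℕ) [hp : Fact p.Prime]
    (hm : m = p ^ e) (hnpc : HasNormalPComplement p G) :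
    (∃ A : Subgroup G, A.Normal ∧ (∀ a ∈ A, ∀ b ∈ A, a * b = b * a) ∧ A.index = m) ∨
    ∃ P A : Subgroup G, P.Normal ∧ A.Normal ∧ IsPGroup p P ∧
      (∀ a ∈ A, ∀ b ∈ A, a * b = b * a) ∧ P ⊓ A = ⊥ ∧ P ⊔ A = ⊤ := by
  classical
  haveI := Fintype.ofFinite G
  have hp' : p.Prime := hp.out
  obtain ⟨P, N, hNn, hcompl⟩ := hnpc
  haveI : N.Normal := hNn
  haveI : Fintype N := Fintype.ofFinite _
  have hNcop : (Nat.card N).Coprime p := by
    have h1 := P.not_dvd_index
    rw [hcompl.index_eq_card] at h1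
    exact ((Nat.Prime.coprime_iff_not_dvd hp').mpr h1).symm
  have hNidx : ∃ b, N.index = p ^ b := by
    obtain ⟨k, hk⟩ := IsPGroup.iff_card.mp P.2
    exact ⟨k, by rw [hcompl.symm.index_eq_card, hk]⟩
  have hNab : ∀ a ∈ N, ∀ b ∈ N, a * b = b * a := by
    have hlin : ∀ θ : IrrCharacter N, charDegree (θ : N → ℂ) = 1 := by
      intro θ
      obtain ⟨χ, hχ⟩ := exists_irr_above_h2 N θ
      have hdvd := irr_degree_dvd_of_over N χ θ hχ
      have hdm : charDegree (θ : N → ℂ) ∣ p ^ e := by
        rcases h2 χ with h3 | h3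
        · rw [h3] at hdvd; exact hdvd.trans (one_dvd _)
        · rw [h3, hm] at hdvd; exact hdvd
      exact Nat.eq_one_of_dvd_coprimes (Nat.Coprime.pow_right e hNcop)
        (Helper25.irr_degree_dvd_card θ) hdm
    intro a ha b hb
    exact congrArg Subtype.val (comm_of_all_linear hlin ⟨a, ha⟩ ⟨b, hb⟩)
  by_cases hcen : N ≤ Subgroup.center G
  · right
    refine ⟨P, N, ?_, hNn, P.2, hNab, ?_, ?_⟩
    · constructor
      intro x hx g
      obtain ⟨⟨n, s⟩, hns⟩ := hcompl.2 g
      have hns' : (n : G) * (s : G) = g := hns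
      have hnc := Subgroup.mem_center_iff.mp (hcen n.2)
      rw [← hns']
      have h5 : (n : G) * (s : G) * x * ((n : G) * (s : G))⁻¹ = (s : G) * x * (s : G)⁻¹ := by
        have h6 := hnc ((s : G) * x * (s : G)⁻¹)
        calc (n : G) * (s : G) * x * ((n : G) * (s : G))⁻¹
            = ((n : G) * ((s : G) * x * (s : G)⁻¹)) * (n : G)⁻¹ := by group
          _ = (((s : G) * x * (s : G)⁻¹) * (n : G)) * (n : G)⁻¹ := by rw [h6]
          _ = (s : G) * x * (s : G)⁻¹ := by group
      rw [h5]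
      exact Subgroup.mul_mem _ (Subgroup.mul_mem _ s.2 hx) (Subgroup.inv_mem _ s.2)
    · rw [inf_comm]; exact disjoint_iff.mp hcompl.disjoint
    · rw [sup_comm]; exact hcompl.sup_eq_top
  · left
    obtain ⟨U₀, hU₀⟩ : ∃ U₀ : Subgroup G, U₀ = ⁅(⊤ : Subgroup G), N⁆ := ⟨_, rfl⟩
    have hU₀n : U₀.Normal := by rw [hU₀]; infer_instance
    have hU₀N : U₀ ≤ N := by rw [hU₀]; exact Subgroup.commutator_le_right ⊤ N
    have hU₀c : ∀ n ∈ N, ∀ g : G, g * n * g⁻¹ * n⁻¹ ∈ U₀ := by
      intro n hn g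
      rw [hU₀, ← commutatorElement_def]
      exact Subgroup.commutator_mem_commutator (Subgroup.mem_top g) hn
    have hU₀ne : U₀ ≠ ⊥ := by
      intro h
      apply hcen
      intro n hn
      rw [Subgroup.mem_center_iff]
      intro g
      have h5 := hU₀c n hn g
      rw [h, Subgroup.mem_bot] at h5
      calc g * n = (g * n * g⁻¹ * n⁻¹) * (n * g) := by group
        _ = n * g := by rw [h5, one_mul]
    obtain ⟨K, hKn, hKU, hKmax⟩ := exists_max_normal_not_le U₀ hU₀ne
    haveI : K.Normal := hKn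
    have hsurj : Function.Surjective (QuotientGroup.mk' K) := QuotientGroup.mk'_surjective K
    haveI hNbn : (N.map (QuotientGroup.mk' K)).Normal := hNn.map _ hsurj
    haveI hUbn : (U₀.map (QuotientGroup.mk' K)).Normal := hU₀n.map _ hsurj
    have hfrob := npc_quot_frob (twoDeg_quot K h2) p (N.map (QuotientGroup.mk' K))
      (by
        rintro _ ⟨a, ha, rfl⟩ _ ⟨b, hb, rfl⟩
        rw [← map_mul, ← map_mul, hNab a ha b hb])
      (Nat.Coprime.coprime_dvd_left (Subgroup.card_map_dvd _ _) hNcop)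
      (by
        obtain ⟨b, hb⟩ := hNidx
        have h5 := Subgroup.index_map_dvd N hsurj
        rw [hb] at h5
        obtain ⟨j, -, hj⟩ := (Nat.dvd_prime_pow hp').mp h5
        exact ⟨j, hj⟩)
      (U₀.map (QuotientGroup.mk' K)) (Subgroup.map_mono hU₀N)
      (by
        intro h
        rw [Subgroup.map_eq_bot_iff, QuotientGroup.ker_mk'] at h
        exact hKU h)
      (by
        rw [hU₀, Subgroup.map_commutator, commutator_def]
        exact Subgroup.commutator_mono le_top le_top)
      (by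
        rintro _ ⟨n, hn, rfl⟩ gb
        obtain ⟨g, rfl⟩ := hsurj gb
        exact ⟨g * n * g⁻¹ * n⁻¹, hU₀c n hn g, by simp only [map_mul, map_inv]⟩)
      (fun X hX hXne => by haveI := hX; exact quot_min_normal U₀ K hKmax X hXne)
    obtain ⟨hab, htop, ⟨r, a, hr, ha, hcard⟩, hfpf⟩ := hfrob
    exact abelian_normal_of_quot_frob h2 K (commutator (G ⧸ K)) hab htop r a hr ha hcard hfpf

/-- **Isaacs, Theorem 12.5**: groups with exactly two character degrees `1, m`. -/
theorem two_deg_structure [Finite G] (m : ℕ) (h2 : TwoDeg G m)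
    (hm : ∃ χ : IrrCharacter G, charDegree (χ : G → ℂ) = m) (hm1 : m ≠ 1) :
    (∃ A : Subgroup G, A.Normal ∧ (∀ a ∈ A, ∀ b ∈ A, a * b = b * a) ∧ A.index = m) ∨
    ∃ p e : ℕ, p.Prime ∧ m = p ^ e ∧ ∃ P A : Subgroup G, P.Normal ∧ A.Normal ∧ IsPGroup p P ∧
      (∀ a ∈ A, ∀ b ∈ A, a * b = b * a) ∧ P ⊓ A = ⊥ ∧ P ⊔ A = ⊤ := by
  classical
  haveI := Fintype.ofFinite G
  have hcomne : commutator G ≠ ⊥ := by
    intro h
    obtain ⟨χ, hχ⟩ := hm
    have hcomm : ∀ a b : G, a * b = b * a := by
      intro a b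
      have h5 := comm_elt_mem_commutator a b
      rw [h, Subgroup.mem_bot] at h5
      calc a * b = (a * b * a⁻¹ * b⁻¹) * (b * a) := by group
        _ = b * a := by rw [h5, one_mul]
    exact hm1 (by rw [← hχ]; exact Cfsg.Agent.S4762.deg_one_of_comm hcomm χ)
  obtain ⟨K, hKn, hKU, hKmax⟩ := exists_max_normal_not_le (commutator G) hcomne
  haveI : K.Normal := hKn
  have hsurj : Function.Surjective (QuotientGroup.mk' K) := QuotientGroup.mk'_surjective K
  have hmap : (commutator G).map (QuotientGroup.mk' K) = commutator (G ⧸ K) := by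
    rw [commutator_def, commutator_def, Subgroup.map_commutator,
      Subgroup.map_top_of_surjective _ hsurj]
  have hcomneQ : commutator (G ⧸ K) ≠ ⊥ := by
    rw [← hmap]
    intro h
    rw [Subgroup.map_eq_bot_iff, QuotientGroup.ker_mk'] at h
    exact hKU h
  have hminQ : ∀ X : Subgroup (G ⧸ K), X.Normal → X ≠ ⊥ → commutator (G ⧸ K) ≤ X := by
    intro X hX hXne
    haveI := hX
    rw [← hmap]
    exact quot_min_normal (commutator G) K hKmax X hXne
  rcases frob_type_or_pgroup (twoDeg_quot K h2) hcomneQ hminQ with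
    ⟨r, hr, hQr⟩ | ⟨hab, ⟨r, a, hr, ha, hcard⟩, hfpf⟩
  · haveI : Fact r.Prime := ⟨hr⟩
    obtain ⟨e, he⟩ : ∃ e, m = r ^ e := by
      obtain ⟨χ₀, hχ₀⟩ : ∃ χ₀ : IrrCharacter (G ⧸ K), charDegree (χ₀ : G ⧸ K → ℂ) ≠ 1 := by
        by_contra hno
        push_neg at hno
        apply hcomneQ
        rw [eq_bot_iff, commutator_def, Subgroup.commutator_le]
        intro x _ y _
        rw [Subgroup.mem_bot, commutatorElement_def, comm_of_all_linear hno x y]
        group
      obtain ⟨k, hk⟩ := IsPGroup.iff_card.mp hQr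
      have hd := Helper25.irr_degree_dvd_card χ₀
      rw [hk] at hd
      rcases twoDeg_quot K h2 χ₀ with h3 | h3
      · exact absurd h3 hχ₀
      · rw [h3] at hd
        obtain ⟨j, -, hj⟩ := (Nat.dvd_prime_pow hr).mp hd
        exact ⟨j, hj⟩
    have he0 : e ≠ 0 := by rintro rfl; exact hm1 (by rw [he, pow_zero])
    have hth : ∀ χ : IrrCharacter G, charDegree (χ : G → ℂ) ≠ 1 →
        r ∣ charDegree (χ : G → ℂ) := by
      intro χ hχ
      rcases h2 χ with h3 | h3
      · exact absurd h3 hχ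
      · rw [h3, he]; exact dvd_pow_self r he0
    have hnpc := thompson_npc r hth
    rcases two_deg_of_npc h2 r e he hnpc with h | h
    · exact Or.inl h
    · exact Or.inr ⟨r, e, hr, he, h⟩
  · left
    have htop : commutator (G ⧸ K) ≠ ⊤ := by
      intro htop
      apply hcomneQ
      rw [eq_bot_iff, commutator_def, Subgroup.commutator_le]
      intro x _ y _
      rw [Subgroup.mem_bot, commutatorElement_def,
        hab x (by rw [htop]; trivial) y (by rw [htop]; trivial)]
      group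
    exact abelian_normal_of_quot_frob h2 K (commutator (G ⧸ K)) hab htop r a hr ha hcard hfpf

end TwoDegE

end Cfsg.Agent.Helper2
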