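import Mathlib
import Cfsg.Agent.Helper2.TwoDegE

/-!
# Monomial characters of nilpotent-type groups and Taketa's argument for two character
degrees (helper2)
-/

set_option autoImplicit false

namespace Cfsg.Agent.Helper2

open Cfsg
open scoped ComplexConjugate

universe u

section Monomial

theorem indFun_congr_subgroup {Γ : Type u} [Group Γ] [Fintype Γ] {H₁ H₂ : Subgroup Γ}
    (h : H₁ = H₂) (θ₁ : H₁ → ℂ) (θ₂ : H₂ → ℂ)
    (hθ : ∀ (x : Γ) (h₁ : x ∈ H₁) (h₂ : x ∈ H₂), θ₁ ⟨x, h₁⟩ = θ₂ ⟨x, h₂⟩) :
    indFun H₁ θ₁ = indFun H₂ θ₂ := by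
  subst h
  congr 1
  funext x
  exact hθ x.1 x.2 x.2

theorem monomial_transport {G : Type u} [Group G] [Fintype G] (T : Subgroup G) [Fintype T]
    (H' : Subgroup T) (lam' : IrrCharacter H') (h1 : charDegree (lam' : H' → ℂ) = 1) :
    ∃ (H : Subgroup G) (lam : IrrCharacter H), charDegree (lam : H → ℂ) = 1 ∧
      indFun H (lam : H → ℂ) = indFun T (indFun H' (lam' : H' → ℂ)) := by
  obtain ⟨e, he⟩ : ∃ e : H' ≃* H'.map T.subtype,
      ∀ y : H', ((e y : H'.map T.subtype) : G) = ((y : T) : G) :=
    ⟨H'.equivMapOfInjective T.subtype T.subtype_injective, fun y => rfl⟩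
  have hHT : H'.map T.subtype ≤ T := by
    rintro _ ⟨y, -, rfl⟩
    exact y.2
  refine ⟨H'.map T.subtype, ⟨fun x => (lam' : H' → ℂ) (e.symm x),
    isIrrCharacter_comp_of_surjective e.symm.toMonoidHom e.symm.surjective lam'.2⟩, ?_, ?_⟩
  · show charDegree (fun x => (lam' : H' → ℂ) (e.symm x)) = 1
    rw [← h1]
    unfold charDegree
    beta_reduce
    rw [map_one]
  · show indFun (H'.map T.subtype) (fun x => (lam' : H' → ℂ) (e.symm x)) = _
    rw [← indFun_trans (H'.map T.subtype) T hHT]
    refine congrArg (indFun T) ?_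
    apply indFun_congr_subgroup (Subgroup.comap_map_eq_self_of_injective T.subtype_injective H')
    intro x h₁ h₂
    show (lam' : H' → ℂ) (e.symm ⟨(x : G), _⟩) = (lam' : H' → ℂ) ⟨x, h₂⟩
    refine congrArg _ ?_
    rw [MulEquiv.symm_apply_eq]
    apply Subtype.ext
    rw [he]

/-- A nonlinear irreducible character of `p`-power degree of a group which is a `p`-group
modulo a central subgroup `Z` is induced from a proper subgroup containing `Z`. -/
theorem exists_proper_induced {G : Type u} [Group G] [Fintype G] (p : ℕ) [hp : Fact p.Prime]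
    (Z : Subgroup G) (hZc : Z ≤ Subgroup.center G) (hZ : ∀ g : G, ∃ k : ℕ, g ^ p ^ k ∈ Z)
    (χ : IrrCharacter G) (j : ℕ) (hdeg : charDegree (χ : G → ℂ) = p ^ j)
    (hnl : charDegree (χ : G → ℂ) ≠ 1) :
    ∃ T : Subgroup G, T ≠ ⊤ ∧ Z ≤ T ∧
      ∃ ψ : IrrCharacter T, indFun T (ψ : T → ℂ) = (χ : G → ℂ) := by
  classical
  have hp' := hp.out
  obtain ⟨d, hd⟩ : ∃ d, d = charDegree (χ : G → ℂ) := ⟨_, rfl⟩
  have hZn : Z.Normal := ⟨fun z hz g => by
    have h5 := Subgroup.mem_center_iff.mp (hZc hz) g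
    rw [h5, mul_inv_cancel_right]; exact hz⟩
  have hZnorm : ∀ z ∈ Z, ‖(χ : G → ℂ) z‖ = (d : ℝ) := by
    intro z hz
    obtain ⟨c, hc, hcz⟩ := irr_central_mul χ z (hZc hz)
    have h1 := hcz 1
    rw [mul_one] at h1
    rw [h1, norm_mul, hc, one_mul, Helper25.irr_one_eq_degree χ, ← hd, Complex.norm_natCast]
  obtain ⟨A, ⟨hAn, hZA, hAnorm⟩, hAmax⟩ := (wellFounded_gt (α := Subgroup G)).has_min
    {A : Subgroup G | A.Normal ∧ Z ≤ A ∧ ∀ a ∈ A, ‖(χ : G → ℂ) a‖ = (d : ℝ)}
    ⟨Z, hZn, le_rfl, hZnorm⟩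
  haveI : A.Normal := hAn
  have hd1 : d ≠ 1 := by rw [hd]; exact hnl
  have hdpos : 0 < d := by rw [hd]; exact Helper25.irr_degree_pos χ
  have hAtop : A ≠ ⊤ := by
    intro h
    have h1 := classInner_irr_irr χ χ
    rw [if_pos rfl] at h1
    unfold classInner at h1
    have h2 : ∀ g : G, (χ : G → ℂ) g * conj ((χ : G → ℂ) g) = ((d : ℂ)) ^ 2 := by
      intro g
      rw [Complex.mul_conj, Complex.normSq_eq_norm_sq, hAnorm g (by rw [h]; trivial)]
      push_cast; ring
    rw [Finset.sum_congr rfl (fun g _ => h2 g), Finset.sum_const, Finset.card_univ, nsmul_eq_mul,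
      Nat.card_eq_fintype_card] at h1
    have hG0 : (Fintype.card G : ℂ) ≠ 0 := Nat.cast_ne_zero.mpr Fintype.card_ne_zero
    rw [inv_mul_cancel_left₀ hG0] at h1
    have h4 : d * d = 1 := by
      rw [← sq]; exact_mod_cast h1
    exact hd1 (Nat.eq_one_of_mul_eq_one_left h4)
  have hQp : IsPGroup p (G ⧸ A) := by
    intro y
    obtain ⟨g, rfl⟩ := QuotientGroup.mk_surjective y
    obtain ⟨k, hk⟩ := hZ g
    refine ⟨k, ?_⟩
    rw [← QuotientGroup.mk_pow]
    exact (QuotientGroup.eq_one_iff _).mpr (hZA hk)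
  haveI : Nontrivial (G ⧸ A) := by
    by_contra hnt
    rw [not_nontrivial_iff_subsingleton] at hnt
    apply hAtop
    rw [eq_top_iff]
    intro g _
    exact (QuotientGroup.eq_one_iff g).mp (Subsingleton.elim _ _)
  obtain ⟨zb, hzb, hzb1⟩ : ∃ zb ∈ Subgroup.center (G ⧸ A), zb ≠ 1 := by
    haveI := hQp.center_nontrivial
    obtain ⟨⟨z, hz⟩, hz1⟩ := exists_ne (1 : Subgroup.center (G ⧸ A))
    exact ⟨z, hz, fun h => hz1 (Subtype.ext h)⟩
  obtain ⟨z', hz'c, hz'1, hz'p⟩ : ∃ z' ∈ Subgroup.center (G ⧸ A), z' ≠ 1 ∧ z' ^ p = 1 := by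
    have hex : ∃ k, zb ^ p ^ k = 1 := hQp zb
    have hk0 : Nat.find hex ≠ 0 := by
      intro h0
      have h5 := Nat.find_spec hex
      rw [h0, pow_zero, pow_one] at h5
      exact hzb1 h5
    obtain ⟨k', hk'⟩ := Nat.exists_eq_succ_of_ne_zero hk0
    refine ⟨zb ^ p ^ k', Subgroup.pow_mem _ hzb _, ?_, ?_⟩
    · intro h
      exact Nat.find_min hex (m := k') (by omega) h
    · rw [← pow_mul, ← pow_succ, ← Nat.succ_eq_add_one, ← hk']
      exact Nat.find_spec hex
  obtain ⟨B, hB⟩ : ∃ B : Subgroup G,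
      B = (Subgroup.zpowers z').comap (QuotientGroup.mk' A) := ⟨_, rfl⟩
  have hzn : (Subgroup.zpowers z').Normal := ⟨by
    intro w hw g
    have hwc : w ∈ Subgroup.center (G ⧸ A) := (Subgroup.zpowers_le.mpr hz'c) hw
    have h5 := Subgroup.mem_center_iff.mp hwc g
    rw [h5, mul_inv_cancel_right]
    exact hw⟩
  have hBn : B.Normal := by rw [hB]; exact hzn.comap _
  haveI : B.Normal := hBn
  have hAB : A ≤ B := by
    intro a ha
    rw [hB, Subgroup.mem_comap]
    have h5 : (QuotientGroup.mk' A) a = 1 := (QuotientGroup.eq_one_iff a).mpr ha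
    rw [h5]; exact Subgroup.one_mem _
  have hABne : A ≠ B := by
    intro heq
    obtain ⟨g, hg⟩ := QuotientGroup.mk'_surjective A z'
    have hgB : g ∈ B := by rw [hB, Subgroup.mem_comap, hg]; exact Subgroup.mem_zpowers z'
    rw [← heq] at hgB
    apply hz'1
    rw [← hg]; exact (QuotientGroup.eq_one_iff g).mpr hgB
  have hBnot : ∃ b ∈ B, ‖(χ : G → ℂ) b‖ ≠ (d : ℝ) := by
    by_contra hno
    push_neg at hno
    exact hAmax B ⟨hBn, hZA.trans hAB, hno⟩ (lt_of_le_of_ne hAB hABne)
  have hrel : A.relIndex B = p := by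
    have h1 : A = (⊥ : Subgroup (G ⧸ A)).comap (QuotientGroup.mk' A) := by
      rw [MonoidHom.comap_bot, QuotientGroup.ker_mk']
    have h2 := Subgroup.relIndex_comap (H := (⊥ : Subgroup (G ⧸ A))) (QuotientGroup.mk' A) B
    rw [← h1] at h2
    rw [h2, Subgroup.relIndex_bot_left, hB,
      Subgroup.map_comap_eq_self_of_surjective (QuotientGroup.mk'_surjective A), Nat.card_zpowers]
    exact orderOf_eq_prime hz'p hz'1
  haveI : Fintype B := Fintype.ofFinite _
  have hχB : IsCharacter B (fun b : B => (χ : G → ℂ) b) :=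
    isCharacter_restrict B (isCharacter_of_isIrrCharacter χ.2)
  obtain ⟨θ, hθ⟩ := Helper24.exists_constituent hχB (by
    show (χ : G → ℂ) ((1 : B) : G) ≠ 0
    rw [Subgroup.coe_one]; exact Helper25.irr_one_ne_zero χ)
  have hNT := le_stabChar B (θ : B → ℂ)
    (isClassFunction_of_isCharacter (isCharacter_of_isIrrCharacter θ.2))
  have hTtop : stabChar B (θ : B → ℂ) ≠ ⊤ := by
    intro htop
    have hinv : ∀ (g : G) (n : B),
        (θ : B → ℂ) ⟨g * n * g⁻¹, hBn.conj_mem (n : G) n.2 g⟩ = (θ : B → ℂ) n := by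
      intro g n
      have hg : g ∈ stabChar B (θ : B → ℂ) := by rw [htop]; trivial
      exact congrFun ((mem_stabChar B _ g).mp hg) n
    obtain ⟨e, he0, heq, -⟩ :=
      Helper7.clifford_invariant B (θ : B → ℂ) θ.2 hinv (χ : G → ℂ) χ.2 hθ
    have hdvd := irr_degree_dvd_of_over B χ θ hθ
    rw [hdeg] at hdvd
    obtain ⟨i, -, hi⟩ := (Nat.dvd_prime_pow hp').mp hdvd
    have hde : d = e * charDegree (θ : B → ℂ) := by
      have h1 := congrFun heq 1
      simp only [Pi.smul_apply, smul_eq_mul] at h1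
      rw [Subgroup.coe_one, Helper25.irr_one_eq_degree χ, Helper25.irr_one_eq_degree θ, ← hd] at h1
      exact_mod_cast h1
    have hθA : ∀ a : B, (a : G) ∈ A → ‖(θ : B → ℂ) a‖ = (charDegree (θ : B → ℂ) : ℝ) := by
      intro a ha
      have h1 := congrFun heq a
      simp only [Pi.smul_apply, smul_eq_mul] at h1
      have h2 := hAnorm a ha
      rw [h1, norm_mul, Complex.norm_natCast, hde] at h2
      push_cast at h2
      have he' : (e : ℝ) ≠ 0 := Nat.cast_ne_zero.mpr he0
      exact mul_left_cancel₀ he' h2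
    have hsum : ∑ b : B, ‖(θ : B → ℂ) b‖ ^ 2 = (Nat.card B : ℝ) := by
      have h1 := classInner_irr_irr θ θ
      rw [if_pos rfl] at h1
      unfold classInner at h1
      have h2 : ∑ b : B, (θ : B → ℂ) b * conj ((θ : B → ℂ) b)
          = ((∑ b : B, ‖(θ : B → ℂ) b‖ ^ 2 : ℝ) : ℂ) := by
        push_cast
        apply Finset.sum_congr rfl
        intro b _
        rw [Complex.mul_conj, Complex.normSq_eq_norm_sq]
        push_cast; ring
      rw [h2] at h1
      have hB0 : (Nat.card B : ℂ) ≠ 0 := Nat.cast_ne_zero.mpr Nat.card_pos.ne'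
      have h3 : ((∑ b : B, ‖(θ : B → ℂ) b‖ ^ 2 : ℝ) : ℂ) = (Nat.card B : ℂ) := by
        have h4 := congrArg (fun z : ℂ => (Nat.card B : ℂ) * z) h1
        simp only [mul_one] at h4
        rw [← h4, mul_inv_cancel_left₀ hB0]
      exact_mod_cast h3
    have hlow : (Nat.card A : ℝ) * (charDegree (θ : B → ℂ) : ℝ) ^ 2
        ≤ ∑ b : B, ‖(θ : B → ℂ) b‖ ^ 2 := by
      have h1 : ∑ b ∈ Finset.univ.filter (fun b : B => (b : G) ∈ A), ‖(θ : B → ℂ) b‖ ^ 2
          ≤ ∑ b : B, ‖(θ : B → ℂ) b‖ ^ 2 :=
        Finset.sum_le_sum_of_subset_of_nonneg (Finset.filter_subset _ _)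
          (fun _ _ _ => sq_nonneg _)
      have h2 : ∑ b ∈ Finset.univ.filter (fun b : B => (b : G) ∈ A), ‖(θ : B → ℂ) b‖ ^ 2
          = ((Finset.univ.filter (fun b : B => (b : G) ∈ A)).card : ℝ)
            * (charDegree (θ : B → ℂ) : ℝ) ^ 2 := by
        rw [Finset.sum_congr rfl (fun b hb => by rw [hθA b (Finset.mem_filter.mp hb).2]),
          Finset.sum_const, nsmul_eq_mul]
      have h3 : (Finset.univ.filter (fun b : B => (b : G) ∈ A)).card = Nat.card A := by
        rw [← Nat.card_congr (Subgroup.subgroupOfEquivOfLe hAB).toEquiv, Nat.card_eq_fintype_card,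
          Fintype.card_subtype]
        rfl
      rw [← h3, ← h2]
      exact h1
    have hcardB : Nat.card B = Nat.card A * p := by
      have h1 := (A.subgroupOf B).card_mul_index
      rw [Nat.card_congr (Subgroup.subgroupOfEquivOfLe hAB).toEquiv] at h1
      rw [← h1]
      congr 1
    have hApos : 0 < Nat.card A := Nat.card_pos
    have hnat : Nat.card A * charDegree (θ : B → ℂ) ^ 2 ≤ Nat.card A * p := by
      rw [hsum, hcardB] at hlow
      exact_mod_cast hlow
    have hsq : charDegree (θ : B → ℂ) ^ 2 ≤ p := Nat.le_of_mul_le_mul_left hnat hApos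
    have hi0 : i = 0 := by
      by_contra hi0
      have h1 : p ≤ p ^ i := Nat.le_self_pow hi0 p
      rw [hi] at hsq
      have h2 : 2 ≤ p := hp'.two_le
      nlinarith
    rw [hi0, pow_zero] at hi
    obtain ⟨b, hbB, hbne⟩ := hBnot
    apply hbne
    have h1 := congrFun heq ⟨b, hbB⟩
    simp only [Pi.smul_apply, smul_eq_mul] at h1
    have h2 : (θ : B → ℂ) 1 = 1 := by rw [Helper25.irr_one_eq_degree θ, hi, Nat.cast_one]
    have h3 : ‖(χ : G → ℂ) b‖ = ‖(e : ℂ) * (θ : B → ℂ) ⟨b, hbB⟩‖ := by rw [← h1]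
    rw [h3, norm_mul, Cfsg.Agent.S4762.linear_norm θ h2, mul_one,
      Complex.norm_natCast, hde, hi, mul_one]
  haveI : Fintype (stabChar B (θ : B → ℂ)) := Fintype.ofFinite _
  obtain ⟨ψ, f, -, -, hind⟩ := clifford_corr B χ θ hθ (stabChar B (θ : B → ℂ)) rfl hNT
  exact ⟨stabChar B (θ : B → ℂ), hTtop, (hZA.trans hAB).trans hNT, ψ, hind⟩

/-- Nonlinear irreducible characters of `p`-power degree of a group which is a `p`-group
modulo a central subgroup are monomial. -/
theorem monomial_aux (p : ℕ) [hp : Fact p.Prime] : ∀ n : ℕ, ∀ (G : Type u) [Group G] [Fintype G],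
    Nat.card G ≤ n → ∀ Z : Subgroup G, Z ≤ Subgroup.center G →
    (∀ g : G, ∃ k : ℕ, g ^ p ^ k ∈ Z) →
    ∀ χ : IrrCharacter G, (∃ j, charDegree (χ : G → ℂ) = p ^ j) →
    charDegree (χ : G → ℂ) ≠ 1 →
    ∃ (H : Subgroup G) (lam : IrrCharacter H), charDegree (lam : H → ℂ) = 1 ∧
      indFun H (lam : H → ℂ) = (χ : G → ℂ) := by
  intro n
  induction n with
  | zero =>
    intro G _ _ hcard
    have := Nat.card_pos (α := G)
    omega
  | succ n ih =>
    intro G _ _ hcard Z hZc hZ χ hj hnl
    have hp' := hp.out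
    obtain ⟨j, hj⟩ := hj
    obtain ⟨T, hTtop, hZT, ψ, hind⟩ := exists_proper_induced p Z hZc hZ χ j hj hnl
    haveI : Fintype T := Fintype.ofFinite _
    by_cases hψ : charDegree (ψ : T → ℂ) = 1
    · exact ⟨T, ψ, hψ, hind⟩
    · have hcardT : Nat.card T ≤ n := by
        have h1 := T.card_mul_index
        have h2 : T.index ≠ 1 := fun h => hTtop (Subgroup.index_eq_one.mp h)
        have h3 : T.index ≠ 0 := Subgroup.index_ne_zero_of_finite
        have h4 : 0 < Nat.card T := Nat.card_pos
        have h5 : 2 ≤ T.index := by omega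
        nlinarith
      have hZcT : Z.subgroupOf T ≤ Subgroup.center T := by
        intro z hz
        rw [Subgroup.mem_center_iff]
        intro t
        apply Subtype.ext
        exact Subgroup.mem_center_iff.mp (hZc (Subgroup.mem_subgroupOf.mp hz)) (t : G)
      have hZT' : ∀ t : T, ∃ k : ℕ, t ^ p ^ k ∈ Z.subgroupOf T := by
        intro t
        obtain ⟨k, hk⟩ := hZ (t : G)
        exact ⟨k, by rw [Subgroup.mem_subgroupOf, Subgroup.coe_pow]; exact hk⟩
      have hψdeg : ∃ i, charDegree (ψ : T → ℂ) = p ^ i := by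
        have h1 := congrFun hind 1
        rw [indFun_one_apply, Helper25.irr_one_eq_degree ψ, Helper25.irr_one_eq_degree χ, hj] at h1
        have h2 : T.index * charDegree (ψ : T → ℂ) = p ^ j := by exact_mod_cast h1
        obtain ⟨i, -, hi⟩ := (Nat.dvd_prime_pow hp').mp (Dvd.intro_left _ h2)
        exact ⟨i, hi⟩
      obtain ⟨H', lam', hlam', hind'⟩ := ih T hcardT (Z.subgroupOf T) hZcT hZT' ψ hψdeg hψ
      obtain ⟨H, lam, hlam, hind''⟩ := monomial_transport T H' lam' hlam'
      exact ⟨H, lam, hlam, by rw [hind'', hind', hind]⟩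

/-- Taketa's argument for two character degrees: if every nonlinear irreducible character is
monomial, the derived subgroup is abelian. -/
theorem comm_abelian_of_monomial {G : Type u} [Group G] [Fintype G] {m : ℕ} (h2 : TwoDeg G m)
    (hmono : ∀ χ : IrrCharacter G, charDegree (χ : G → ℂ) ≠ 1 →
      ∃ (H : Subgroup G) (lam : IrrCharacter H), charDegree (lam : H → ℂ) = 1 ∧
        indFun H (lam : H → ℂ) = (χ : G → ℂ)) :
    ∀ a ∈ commutator G, ∀ b ∈ commutator G, a * b = b * a := by
  classical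
  intro a ha b hb
  obtain ⟨g, hg⟩ : ∃ g, g = a * b * a⁻¹ * b⁻¹ := ⟨_, rfl⟩
  have hGn : (commutator G).Normal := inferInstance
  have hval : ∀ χ : IrrCharacter G, (χ : G → ℂ) g = (χ : G → ℂ) 1 := by
    intro χ
    by_cases hχ : charDegree (χ : G → ℂ) = 1
    · have h1 : (χ : G → ℂ) 1 = 1 := by rw [Helper25.irr_one_eq_degree χ, hχ, Nat.cast_one]
      rw [h1]
      exact Helper25.irr_linear_commutator χ h1 (by rw [hg]; exact comm_elt_mem_commutator a b)
    · obtain ⟨H, lam, hlam, hind⟩ := hmono χ hχ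
      haveI : Fintype H := Fintype.ofFinite _
      have hlam1 : (lam : H → ℂ) 1 = 1 := by
        rw [Helper25.irr_one_eq_degree lam, hlam, Nat.cast_one]
      have hχ1 : (χ : G → ℂ) 1 = (H.index : ℂ) := by
        rw [← hind, indFun_one_apply, hlam1, mul_one]
      have hidx : H.index = m := by
        rcases h2 χ with h3 | h3
        · exact absurd h3 hχ
        · have h4 := hχ1
          rw [Helper25.irr_one_eq_degree χ, h3] at h4
          exact_mod_cast h4.symm
      -- `G' ≤ H`
      have hGH : commutator G ≤ H := by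
        have hPi : IsCharacter G (indFun H (fun _ : H => (1 : ℂ))) :=
          isCharacter_indFun H (isCharacter_of_isIrrCharacter (Helper25.trivChar H).2)
        have hc : ∀ ζ : IrrCharacter G, ∃ c : ℕ,
            classInner (indFun H (fun _ : H => (1 : ℂ))) (ζ : G → ℂ) = c :=
          fun ζ => classInner_char_nat hPi (isCharacter_of_isIrrCharacter ζ.2)
        choose c hc using hc
        have hdec : indFun H (fun _ : H => (1 : ℂ))
            = ∑ ζ : IrrCharacter G, (c ζ : ℂ) • (ζ : G → ℂ) := by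
          conv_lhs => rw [classFun_eq_sum_classInner (isClassFunction_of_isCharacter hPi)]
          exact Finset.sum_congr rfl (fun ζ _ => by rw [hc ζ])
        have hsum : m = ∑ ζ : IrrCharacter G, c ζ * charDegree (ζ : G → ℂ) := by
          have h1 := congrFun hdec 1
          rw [indFun_one_apply, mul_one, hidx] at h1
          simp only [Finset.sum_apply, Pi.smul_apply, smul_eq_mul] at h1
          rw [Finset.sum_congr rfl (fun ζ _ => by rw [Helper25.irr_one_eq_degree ζ])] at h1
          exact_mod_cast h1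
        have hctriv : c (Helper25.trivChar G) = 1 := by
          have h1 := hc (Helper25.trivChar G)
          rw [frobenius_reciprocity H _ _ (isClassFunction_of_isCharacter
            (isCharacter_of_isIrrCharacter (Helper25.trivChar G).2))] at h1
          have h3 := classInner_irr_irr (Helper25.trivChar H) (Helper25.trivChar H)
          rw [if_pos rfl] at h3
          have h4 : classInner (fun _ : H => (1 : ℂ))
              (fun h : H => (Helper25.trivChar G : G → ℂ) h) = 1 := h3
          rw [h4] at h1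
          exact_mod_cast h1.symm
        have hdegtriv : charDegree (Helper25.trivChar G : G → ℂ) = 1 := by
          have h1 := Helper25.irr_one_eq_degree (Helper25.trivChar G)
          rw [Helper25.trivChar_apply] at h1
          exact_mod_cast h1.symm
        have hlin : ∀ ζ : IrrCharacter G, c ζ ≠ 0 → charDegree (ζ : G → ℂ) = 1 := by
          intro ζ hζ
          by_cases hζt : ζ = Helper25.trivChar G
          · rw [hζt]; exact hdegtriv
          · have h1 : ∑ x ∈ ({Helper25.trivChar G, ζ} : Finset (IrrCharacter G)),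
                c x * charDegree (x : G → ℂ)
                ≤ ∑ ζ : IrrCharacter G, c ζ * charDegree (ζ : G → ℂ) :=
              Finset.sum_le_sum_of_subset (Finset.subset_univ _)
            rw [Finset.sum_pair (Ne.symm hζt), hctriv, hdegtriv, ← hsum] at h1
            have h3 : charDegree (ζ : G → ℂ) ≤ c ζ * charDegree (ζ : G → ℂ) :=
              Nat.le_mul_of_pos_left _ (Nat.pos_of_ne_zero hζ)
            rcases h2 ζ with h4 | h4
            · exact h4
            · omega
        intro y hy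
        have hPiy : indFun H (fun _ : H => (1 : ℂ)) y = (H.index : ℂ) := by
          have h1 := congrFun hdec y
          have h0 := congrFun hdec 1
          rw [indFun_one_apply, mul_one] at h0
          rw [h1, h0]
          simp only [Finset.sum_apply, Pi.smul_apply, smul_eq_mul]
          apply Finset.sum_congr rfl
          intro ζ _
          by_cases hζ : c ζ = 0
          · rw [hζ, Nat.cast_zero, zero_mul, zero_mul]
          · have hd := hlin ζ hζ
            have h1' : (ζ : G → ℂ) 1 = 1 := by rw [Helper25.irr_one_eq_degree ζ, hd, Nat.cast_one]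
            rw [Helper25.irr_linear_commutator ζ h1' hy, h1']
        rw [indFun_apply] at hPiy
        have hext : ∀ x : G, extendByZero H (fun _ : H => (1 : ℂ)) (x⁻¹ * y * x)
            = if x⁻¹ * y * x ∈ H then 1 else 0 := by
          intro x
          by_cases hx : x⁻¹ * y * x ∈ H
          · rw [if_pos hx, extendByZero_of_mem H _ hx]
          · rw [if_neg hx, extendByZero_of_not_mem H _ hx]
        rw [Finset.sum_congr rfl (fun x _ => hext x), Finset.sum_boole] at hPiy
        have hH0 : (Nat.card H : ℂ) ≠ 0 := Nat.cast_ne_zero.mpr Nat.card_pos.ne'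
        have hcount : (Finset.univ.filter (fun x : G => x⁻¹ * y * x ∈ H)).card
            = Fintype.card G := by
          have h5 : ((Finset.univ.filter (fun x : G => x⁻¹ * y * x ∈ H)).card : ℂ)
              = (Nat.card H : ℂ) * (H.index : ℂ) := by
            rw [← hPiy, mul_inv_cancel_left₀ hH0]
          rw [← Nat.cast_mul, Subgroup.card_mul_index, Nat.card_eq_fintype_card] at h5
          exact_mod_cast h5
        have huniv := (Finset.card_eq_iff_eq_univ _).mp hcount
        have h1mem : (1 : G) ∈ Finset.univ.filter (fun x : G => x⁻¹ * y * x ∈ H) := by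
          rw [huniv]; exact Finset.mem_univ _
        have h6 := (Finset.mem_filter.mp h1mem).2
        rw [inv_one, one_mul, mul_one] at h6
        exact h6
      -- the value at `g`
      rw [hχ1, ← hind, indFun_apply]
      have hterm : ∀ x : G, extendByZero H (lam : H → ℂ) (x⁻¹ * g * x) = 1 := by
        intro x
        have hax : x⁻¹ * a * x ∈ H := hGH (by
          have := hGn.conj_mem a ha x⁻¹
          rw [inv_inv] at this
          exact this)
        have hbx : x⁻¹ * b * x ∈ H := hGH (by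
          have := hGn.conj_mem b hb x⁻¹
          rw [inv_inv] at this
          exact this)
        have he : x⁻¹ * g * x = ((⟨x⁻¹ * a * x, hax⟩ * ⟨x⁻¹ * b * x, hbx⟩
            * (⟨x⁻¹ * a * x, hax⟩ : H)⁻¹ * (⟨x⁻¹ * b * x, hbx⟩ : H)⁻¹ : H) : G) := by
          rw [hg]
          simp only [Subgroup.coe_mul, Subgroup.coe_inv]
          group
        rw [he, extendByZero_coe]
        exact Helper25.irr_linear_commutator lam hlam1 (comm_elt_mem_commutator _ _)
      rw [Finset.sum_congr rfl (fun x _ => hterm x), Finset.sum_const, Finset.card_univ,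
        nsmul_eq_mul, mul_one]
      have hH0 : (Nat.card H : ℂ) ≠ 0 := Nat.cast_ne_zero.mpr Nat.card_pos.ne'
      have h7 : (Fintype.card G : ℂ) = (Nat.card H : ℂ) * (H.index : ℂ) := by
        rw [← Nat.cast_mul, Subgroup.card_mul_index, Nat.card_eq_fintype_card]
      rw [h7, inv_mul_cancel_left₀ hH0]
  have hg1 : g = 1 := by
    by_contra hne
    have h1 := Helper25.sum_irr_one_mul g
    rw [if_neg hne] at h1
    have h3 := Helper25.sum_irr_one_mul (1 : G)
    rw [if_pos rfl] at h3
    rw [Finset.sum_congr rfl (fun χ _ => by rw [hval χ])] at h1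
    rw [h1] at h3
    have hG0 : (Nat.card G : ℂ) ≠ 0 := Nat.cast_ne_zero.mpr Nat.card_pos.ne'
    exact hG0 h3.symm
  rw [hg1] at hg
  calc a * b = (a * b * a⁻¹ * b⁻¹) * (b * a) := by group
    _ = b * a := by rw [← hg, one_mul]

/-- **Isaacs, Corollary 12.6**: a group with exactly two character degrees has abelian
derived subgroup. -/
theorem two_deg_comm_abelian {G : Type u} [Group G] [Finite G] (m : ℕ) (h2 : TwoDeg G m)
    (hm : ∃ χ : IrrCharacter G, charDegree (χ : G → ℂ) = m) (hm1 : m ≠ 1) :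
    ∀ a ∈ commutator G, ∀ b ∈ commutator G, a * b = b * a := by
  classical
  haveI := Fintype.ofFinite G
  apply comm_abelian_of_monomial h2
  rcases two_deg_structure m h2 hm hm1 with ⟨A, hAn, hAab, hAidx⟩ |
    ⟨p, e, hp, hme, P, A, hPn, hAn, hPp, hAab, hPA, hPAtop⟩
  · -- an abelian normal subgroup of index `m`
    intro χ hχ
    haveI : Fintype A := Fintype.ofFinite _
    have hχA : IsCharacter A (fun a : A => (χ : G → ℂ) a) :=
      isCharacter_restrict A (isCharacter_of_isIrrCharacter χ.2)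
    obtain ⟨lam, hlam⟩ := Helper24.exists_constituent hχA (by
      show (χ : G → ℂ) ((1 : A) : G) ≠ 0
      rw [Subgroup.coe_one]; exact Helper25.irr_one_ne_zero χ)
    have hlamdeg : charDegree (lam : A → ℂ) = 1 :=
      Cfsg.Agent.S4762.deg_one_of_comm (fun x y => Subtype.ext (hAab x x.2 y y.2)) lam
    refine ⟨A, lam, hlamdeg, ?_⟩
    have hχm : charDegree (χ : G → ℂ) = m := by
      rcases h2 χ with h3 | h3
      · exact absurd h3 hχ
      · exact h3
    apply char_eq_irr_of_degree (isCharacter_indFun A (isCharacter_of_isIrrCharacter lam.2)) χ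
    · rw [frobenius_reciprocity A _ _
        (isClassFunction_of_isCharacter (isCharacter_of_isIrrCharacter χ.2)),
        classInner_conj_symm]
      intro h0
      apply hlam
      have := congrArg (starRingEnd ℂ) h0
      rw [Complex.conj_conj, map_zero] at this
      exact this
    · rw [indFun_one_apply, Helper25.irr_one_eq_degree lam, hlamdeg, Nat.cast_one, mul_one,
        Helper25.irr_one_eq_degree χ, hχm, hAidx]
  · -- `G = P × A`
    haveI : Fact p.Prime := ⟨hp⟩
    haveI : P.Normal := hPn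
    haveI : A.Normal := hAn
    have hdecomp : ∀ g : G, ∃ a ∈ A, ∃ s ∈ P, g = a * s :=
      fun g => exists_mul_of_sup_eq_top A P (by rw [sup_comm]; exact hPAtop) g
    have hcomm : ∀ a ∈ A, ∀ s ∈ P, a * s = s * a := by
      intro a ha s hs
      have h5 : a * s * a⁻¹ * s⁻¹ ∈ P ⊓ A := by
        refine ⟨?_, ?_⟩
        · exact P.mul_mem (hPn.conj_mem s hs a) (P.inv_mem hs)
        · have h6 : a * s * a⁻¹ * s⁻¹ = a * (s * a⁻¹ * s⁻¹) := by group
          rw [h6]
          exact A.mul_mem ha (hAn.conj_mem a⁻¹ (A.inv_mem ha) s)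
      rw [hPA, Subgroup.mem_bot] at h5
      calc a * s = (a * s * a⁻¹ * s⁻¹) * (s * a) := by group
        _ = s * a := by rw [h5, one_mul]
    have hAc : A ≤ Subgroup.center G := by
      intro a ha
      rw [Subgroup.mem_center_iff]
      intro g
      obtain ⟨a₁, ha₁, s, hs, rfl⟩ := hdecomp g
      have h5 := hAab a ha a₁ ha₁
      have h6 := hcomm a ha s hs
      calc a₁ * s * a = a₁ * (s * a) := by group
        _ = a₁ * (a * s) := by rw [h6]
        _ = (a₁ * a) * s := by group
        _ = (a * a₁) * s := by rw [h5]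
        _ = a * (a₁ * s) := by group
    have hAZ : ∀ g : G, ∃ k : ℕ, g ^ p ^ k ∈ A := by
      intro g
      obtain ⟨a₁, ha₁, s, hs, rfl⟩ := hdecomp g
      obtain ⟨k, hk⟩ := hPp ⟨s, hs⟩
      have hk' : s ^ p ^ k = 1 := by
        have h5 := congrArg Subtype.val hk
        rw [Subgroup.coe_pow] at h5
        exact h5
      refine ⟨k, ?_⟩
      have hc : Commute a₁ s := hcomm a₁ ha₁ s hs
      rw [hc.mul_pow, hk', mul_one]
      exact A.pow_mem ha₁ _
    intro χ hχ
    have hχm : charDegree (χ : G → ℂ) = m := by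
      rcases h2 χ with h3 | h3
      · exact absurd h3 hχ
      · exact h3
    exact monomial_aux p (Nat.card G) G le_rfl A hAc hAZ χ ⟨e, by rw [hχm, hme]⟩ hχ

end Monomial

end Cfsg.Agent.Helper2
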