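import Mathlib
import Cfsg.Agent.Helper2.Monomial

/-!
# Groups with character degrees `1` and `p` (Isaacs 12.11), part A: general lemmas (helper2)
-/

set_option autoImplicit false

namespace Cfsg.Agent.Helper2

open Cfsg
open scoped ComplexConjugate

universe u

section DegPA

variable {G : Type u} [Group G]

theorem sum_norm_sq_irr [Fintype G] (χ : IrrCharacter G) :
    ∑ g : G, ‖(χ : G → ℂ) g‖ ^ 2 = (Nat.card G : ℝ) := by
  have h1 := classInner_irr_irr χ χ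
  rw [if_pos rfl] at h1
  unfold classInner at h1
  have hG0 : (Nat.card G : ℂ) ≠ 0 := Nat.cast_ne_zero.mpr Nat.card_pos.ne'
  have h2 : ∑ g : G, (χ : G → ℂ) g * conj ((χ : G → ℂ) g) = (Nat.card G : ℂ) := by
    have h3 := congrArg (fun z => (Nat.card G : ℂ) * z) h1
    beta_reduce at h3
    rw [mul_inv_cancel_left₀ hG0, mul_one] at h3
    exact h3
  have h3 : ((∑ g : G, ‖(χ : G → ℂ) g‖ ^ 2 : ℝ) : ℂ) = ((Nat.card G : ℝ) : ℂ) := by
    push_cast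
    rw [← h2]
    refine Finset.sum_congr rfl (fun g _ => ?_)
    rw [Complex.mul_conj, Complex.normSq_eq_norm_sq]
    push_cast
    rfl
  exact_mod_cast h3

theorem sum_norm_sq_split [Fintype G] (χ : IrrCharacter G) (C : Subgroup G)
    [DecidablePred (fun g : G => g ∈ C)] :
    ∑ c : {g : G // g ∈ C}, ‖(χ : G → ℂ) c‖ ^ 2 +
      ∑ c : {g : G // ¬ g ∈ C}, ‖(χ : G → ℂ) c‖ ^ 2 = (Nat.card G : ℝ) := by
  rw [← sum_norm_sq_irr χ]
  exact Fintype.sum_subtype_add_sum_subtype (fun g : G => g ∈ C)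
    (fun g => ‖(χ : G → ℂ) g‖ ^ 2)

theorem norm_count_le [Fintype G] (χ : IrrCharacter G) (C : Subgroup G) (d : ℝ)
    (h : ∀ c ∈ C, ‖(χ : G → ℂ) c‖ = d) :
    (Nat.card C : ℝ) * d ^ 2 ≤ Nat.card G ∧
    ((Nat.card C : ℝ) * d ^ 2 = Nat.card G → ∀ g, g ∉ C → (χ : G → ℂ) g = 0) := by
  classical
  have h1 := sum_norm_sq_split χ C
  have h2 : ∑ c : {g : G // g ∈ C}, ‖(χ : G → ℂ) c‖ ^ 2 = (Nat.card C : ℝ) * d ^ 2 := by
    rw [Finset.sum_congr rfl (fun c _ => by rw [h c.1 c.2]), Finset.sum_const, Finset.card_univ,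
      nsmul_eq_mul, Nat.card_eq_fintype_card]
  rw [h2] at h1
  have h3 : 0 ≤ ∑ c : {g : G // ¬ g ∈ C}, ‖(χ : G → ℂ) c‖ ^ 2 :=
    Finset.sum_nonneg (fun c _ => sq_nonneg _)
  refine ⟨by linarith, fun heq g hg => ?_⟩
  have h4 : ∑ c : {g : G // ¬ g ∈ C}, ‖(χ : G → ℂ) c‖ ^ 2 = 0 := by linarith
  have h5 := (Finset.sum_eq_zero_iff_of_nonneg (fun c _ => sq_nonneg _)).mp h4 ⟨g, hg⟩
    (Finset.mem_univ _)
  have h6 : ‖(χ : G → ℂ) g‖ = 0 := by
    have h7 : ‖(χ : G → ℂ) g‖ ^ 2 = 0 := h5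
    exact pow_eq_zero_iff (two_ne_zero) |>.mp h7
  exact norm_eq_zero.mp h6

theorem norm_count_of_vanish [Fintype G] (χ : IrrCharacter G) (C : Subgroup G) (d : ℝ)
    (h : ∀ c ∈ C, ‖(χ : G → ℂ) c‖ = d) (h0 : ∀ g, g ∉ C → (χ : G → ℂ) g = 0) :
    (Nat.card C : ℝ) * d ^ 2 = Nat.card G := by
  classical
  have h1 := sum_norm_sq_split χ C
  have h2 : ∑ c : {g : G // g ∈ C}, ‖(χ : G → ℂ) c‖ ^ 2 = (Nat.card C : ℝ) * d ^ 2 := by
    rw [Finset.sum_congr rfl (fun c _ => by rw [h c.1 c.2]), Finset.sum_const, Finset.card_univ,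
      nsmul_eq_mul, Nat.card_eq_fintype_card]
  have h3 : ∑ c : {g : G // ¬ g ∈ C}, ‖(χ : G → ℂ) c‖ ^ 2 = 0 :=
    Finset.sum_eq_zero (fun c _ => by rw [h0 c.1 c.2, norm_zero]; ring)
  rw [h2, h3, add_zero] at h1
  exact h1

theorem norm_count_lt [Fintype G] (χ : IrrCharacter G) (C : Subgroup G) (d : ℝ)
    (h : ∀ c ∈ C, ‖(χ : G → ℂ) c‖ ≤ d) (h0 : ∀ g, g ∉ C → (χ : G → ℂ) g = 0)
    (c₁ : G) (hc₁ : c₁ ∈ C) (hlt : ‖(χ : G → ℂ) c₁‖ < d) :
    (Nat.card G : ℝ) < (Nat.card C : ℝ) * d ^ 2 := by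
  classical
  have h1 := sum_norm_sq_split χ C
  have h3 : ∑ c : {g : G // ¬ g ∈ C}, ‖(χ : G → ℂ) c‖ ^ 2 = 0 :=
    Finset.sum_eq_zero (fun c _ => by rw [h0 c.1 c.2, norm_zero]; ring)
  rw [h3, add_zero] at h1
  rw [← h1]
  have h2 : ∑ c : {g : G // g ∈ C}, ‖(χ : G → ℂ) c‖ ^ 2 <
      ∑ _c : {g : G // g ∈ C}, d ^ 2 := by
    apply Finset.sum_lt_sum
    · intro c _
      exact pow_le_pow_left₀ (norm_nonneg _) (h c.1 c.2) 2
    · exact ⟨⟨c₁, hc₁⟩, Finset.mem_univ _, pow_lt_pow_left₀ hlt (norm_nonneg _) two_ne_zero⟩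
  rw [Finset.sum_const, Finset.card_univ, nsmul_eq_mul, ← Nat.card_eq_fintype_card] at h2
  exact h2

/-- An element on which every irreducible character has maximal absolute value is central. -/
theorem mem_center_of_all_norm [Fintype G] (g : G)
    (h : ∀ χ : IrrCharacter G, ‖(χ : G → ℂ) g‖ = (charDegree (χ : G → ℂ) : ℝ)) :
    g ∈ Subgroup.center G := by
  classical
  have h1 := Helper25.second_orthogonality g g
  rw [if_pos (IsConj.refl g)] at h1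
  have h2 : ∑ χ : IrrCharacter G, (χ : G → ℂ) g * (χ : G → ℂ) g⁻¹ = (Nat.card G : ℂ) := by
    rw [← Helper25.sum_irr_degree_sq]
    refine Finset.sum_congr rfl (fun χ _ => ?_)
    rw [Helper25.irr_inv, Complex.mul_conj, Complex.normSq_eq_norm_sq, h χ,
      Helper25.irr_one_eq_degree]
    push_cast
    ring
  rw [h2] at h1
  have h3 : Nat.card (Subgroup.centralizer ({g} : Set G)) = Nat.card G := by
    exact_mod_cast h1.symm
  have h4 : Subgroup.centralizer ({g} : Set G) = ⊤ := (Subgroup.card_eq_iff_eq_top _).mp h3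
  rw [Subgroup.mem_center_iff]
  intro x
  have h5 : x ∈ Subgroup.centralizer ({g} : Set G) := by rw [h4]; trivial
  exact (Subgroup.mem_centralizer_iff.mp h5 g rfl).symm

/-- The nonlinear irreducible characters of a nonabelian group have trivial common kernel. -/
theorem eq_one_of_nonlinear_ker [Fintype G] (ψ₀ : IrrCharacter G)
    (h0 : charDegree (ψ₀ : G → ℂ) ≠ 1) (w : G)
    (h : ∀ ψ : IrrCharacter G, charDegree (ψ : G → ℂ) ≠ 1 →
      (ψ : G → ℂ) w = (ψ : G → ℂ) 1) : w = 1 := by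
  have hall : ∀ ψ : IrrCharacter G, (ψ : G → ℂ) w = (ψ : G → ℂ) 1 := by
    intro μ
    by_cases hμ : charDegree (μ : G → ℂ) = 1
    · have hμ1 : (μ : G → ℂ) 1 = 1 := by rw [Helper25.irr_one_eq_degree, hμ, Nat.cast_one]
      have hirr : IsIrrCharacter G (fun g =>
          (((Helper25.linHom μ hμ1).toHomUnits g : ℂˣ) : ℂ) * (ψ₀ : G → ℂ) g) :=
        Helper7.isIrrCharacter_hom_mul _ _ ψ₀.2
      have hnl : charDegree (fun g =>
          (((Helper25.linHom μ hμ1).toHomUnits g : ℂˣ) : ℂ) * (ψ₀ : G → ℂ) g) ≠ 1 := by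
        unfold charDegree
        beta_reduce
        rw [MonoidHom.coe_toHomUnits]
        show ⌊((μ : G → ℂ) 1 * (ψ₀ : G → ℂ) 1).re⌋₊ ≠ 1
        rw [hμ1, one_mul]
        exact h0
      have h5 := h ⟨_, hirr⟩ hnl
      have h6 : (μ : G → ℂ) w * (ψ₀ : G → ℂ) w = (μ : G → ℂ) 1 * (ψ₀ : G → ℂ) 1 := h5
      rw [h ψ₀ h0, hμ1, one_mul] at h6
      have h7 := mul_right_cancel₀ (Helper25.irr_one_ne_zero ψ₀) (h6.trans (one_mul _).symm)
      rw [h7, hμ1]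
    · exact h μ hμ
  have h1 := Helper25.sum_irr_one_mul w
  by_contra hw
  rw [if_neg hw, Finset.sum_congr rfl (fun ψ _ => by rw [hall ψ]),
    Helper25.sum_irr_degree_sq] at h1
  exact (Nat.cast_ne_zero.mpr Nat.card_pos.ne') h1

/-- A nonlinear character of degree `p` of a group which is a `p`-group modulo its centre is
induced from a linear character of a normal subgroup of index `p` containing the centre. -/
theorem exists_normal_index_p_induced [Fintype G] (p : ℕ) [hp : Fact p.Prime]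
    (hnil : ∀ g : G, ∃ k : ℕ, g ^ p ^ k ∈ Subgroup.center G)
    (χ : IrrCharacter G) (hdeg : charDegree (χ : G → ℂ) = p) :
    ∃ H : Subgroup G, H.Normal ∧ H.index = p ∧ Subgroup.center G ≤ H ∧
      ∃ lam : IrrCharacter H, charDegree (lam : H → ℂ) = 1 ∧
        indFun H (lam : H → ℂ) = (χ : G → ℂ) := by
  classical
  have hp' := hp.out
  obtain ⟨T, hT, hZT, ψ, hψ⟩ := exists_proper_induced p (Subgroup.center G) le_rfl hnil χ 1
    (by rw [hdeg, pow_one]) (by rw [hdeg]; exact hp'.one_lt.ne')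
  have h1 := congrFun hψ 1
  rw [indFun_one_apply, Helper25.irr_one_eq_degree ψ, Helper25.irr_one_eq_degree χ, hdeg] at h1
  have h2 : T.index * charDegree (ψ : T → ℂ) = p := by exact_mod_cast h1
  have h3 : T.index ≠ 1 := fun h => hT (Subgroup.index_eq_one.mp h)
  have h4 : T.index = p := by
    rcases (Nat.dvd_prime hp').mp ⟨_, h2.symm⟩ with h | h
    · exact absurd h h3
    · exact h
  have h5 : charDegree (ψ : T → ℂ) = 1 := by
    rw [h4] at h2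
    exact Nat.eq_of_mul_eq_mul_left hp'.pos (by rw [h2, mul_one])
  have hTn : T.Normal := by
    have hQp : IsPGroup p (G ⧸ Subgroup.center G) := by
      intro y
      obtain ⟨g, rfl⟩ := QuotientGroup.mk_surjective y
      obtain ⟨k, hk⟩ := hnil g
      exact ⟨k, by rw [← QuotientGroup.mk_pow]; exact (QuotientGroup.eq_one_iff _).mpr hk⟩
    obtain ⟨n, hn⟩ := IsPGroup.iff_card.mp hQp
    have hker : (QuotientGroup.mk' (Subgroup.center G)).ker ≤ T := by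
      rw [QuotientGroup.ker_mk']; exact hZT
    have hidx : (T.map (QuotientGroup.mk' (Subgroup.center G))).index = p := by
      rw [Subgroup.index_map_eq _ (QuotientGroup.mk'_surjective _) hker, h4]
    have hn0 : n ≠ 0 := by
      rintro rfl
      rw [pow_zero] at hn
      have h6 := Subgroup.index_dvd_card (T.map (QuotientGroup.mk' (Subgroup.center G)))
      rw [hidx, hn] at h6
      exact hp'.one_lt.ne' (Nat.dvd_one.mp h6)
    have hnorm : (T.map (QuotientGroup.mk' (Subgroup.center G))).Normal := by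
      apply Subgroup.normal_of_index_eq_minFac_card
      rw [hidx, hn, hp'.pow_minFac hn0]
    have h7 := hnorm.comap (QuotientGroup.mk' (Subgroup.center G))
    rwa [Subgroup.comap_map_eq_self hker] at h7
  exact ⟨T, hTn, h4, hZT, ψ, h5, hψ⟩

/-- A subgroup contained in another of at least the same index is equal to it. -/
theorem le_of_le_of_index_le [Finite G] {X Y : Subgroup G} (h : X ≤ Y)
    (hidx : X.index ≤ Y.index) : Y ≤ X := by
  have h1 := Subgroup.relIndex_mul_index h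
  have hY0 : Y.index ≠ 0 := Subgroup.index_ne_zero_of_finite
  have hX0 : X.index ≠ 0 := Subgroup.index_ne_zero_of_finite
  have h2 : X.relIndex Y ≠ 0 := by
    intro h0
    rw [h0, zero_mul] at h1
    exact hX0 h1.symm
  have h3 : X.relIndex Y = 1 := by
    by_contra h4
    have h5 : 2 ≤ X.relIndex Y := by omega
    have h6 : 2 * Y.index ≤ X.index := by
      rw [← h1]; exact Nat.mul_le_mul_right _ h5
    omega
  exact Subgroup.relIndex_eq_one.mp h3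

/-- Two distinct normal subgroups of index `p²` whose intersection has index at most `p³`. -/
theorem index_inf_sup_of_ne [Finite G] (p : ℕ) (hp : p.Prime) (Z₁ Z₂ : Subgroup G)
    [Z₁.Normal] [Z₂.Normal] (h1 : Z₁.index = p ^ 2) (h2 : Z₂.index = p ^ 2)
    (hne : Z₁ ≠ Z₂) (hle : (Z₁ ⊓ Z₂).index ≤ p ^ 3) :
    (Z₁ ⊓ Z₂).index = p ^ 3 ∧ (Z₁ ⊔ Z₂).index = p := by
  obtain ⟨k, hk⟩ : ∃ k, k = Z₂.relIndex Z₁ := ⟨_, rfl⟩
  have e1 : (Z₁ ⊓ Z₂).relIndex Z₁ * Z₁.index = (Z₁ ⊓ Z₂).index :=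
    Subgroup.relIndex_mul_index inf_le_left
  have e2 : (Z₁ ⊓ Z₂).relIndex Z₁ = k := by
    rw [inf_comm, Subgroup.inf_relIndex_right, hk]
  have e3 : Z₂.relIndex (Z₁ ⊔ Z₂) * (Z₁ ⊔ Z₂).index = Z₂.index :=
    Subgroup.relIndex_mul_index le_sup_right
  have e4 : Z₂.relIndex (Z₁ ⊔ Z₂) = k := by
    rw [Subgroup.relIndex_sup_right, hk]
  rw [e2, h1] at e1
  rw [e4, h2] at e3
  have hk1 : k ≠ 1 := by
    intro hk1
    rw [hk1] at hk
    have h5 : Z₁ ≤ Z₂ := Subgroup.relIndex_eq_one.mp hk.symm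
    exact hne (le_antisymm h5 (le_of_le_of_index_le h5 (by rw [h1, h2])))
  have hkdvd : k ∣ p ^ 2 := ⟨_, e3.symm⟩
  obtain ⟨i, hi, rfl⟩ := (Nat.dvd_prime_pow hp).mp hkdvd
  have hi0 : i ≠ 0 := by
    rintro rfl
    exact hk1 (pow_zero p)
  have hi1 : i < 2 := by
    rw [← e1, ← pow_add] at hle
    have := (Nat.pow_le_pow_iff_right hp.one_lt).mp hle
    omega
  have hi' : i = 1 := by omega
  subst hi'
  rw [pow_one] at e1 e3
  refine ⟨by rw [← e1]; ring, ?_⟩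
  have h6 : p * (Z₁ ⊔ Z₂).index = p * p := by rw [e3]; ring
  exact Nat.eq_of_mul_eq_mul_left hp.pos h6

/-- A family of normal subgroups of index `p²`, any two of which meet in a subgroup of index
at most `p³`: either all of them contain `Z₁ ⊓ Z₂`, or all of them lie in `Z₁ ⊔ Z₂`. -/
theorem index_comb [Finite G] (p : ℕ) (hp : p.Prime) (F : Set (Subgroup G))
    (hN : ∀ Z ∈ F, Z.Normal) (hidx : ∀ Z ∈ F, Z.index = p ^ 2)
    (hpair : ∀ Z ∈ F, ∀ Z' ∈ F, (Z ⊓ Z').index ≤ p ^ 3)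
    (Z₁ Z₂ : Subgroup G) (h1 : Z₁ ∈ F) (h2 : Z₂ ∈ F) (hne : Z₁ ≠ Z₂) :
    (Z₁ ⊓ Z₂).index = p ^ 3 ∧ (Z₁ ⊔ Z₂).index = p ∧
    ((∀ Z ∈ F, Z₁ ⊓ Z₂ ≤ Z) ∨ (∀ Z ∈ F, Z ≤ Z₁ ⊔ Z₂)) := by
  haveI := hN Z₁ h1
  haveI := hN Z₂ h2
  obtain ⟨hD, hA⟩ := index_inf_sup_of_ne p hp Z₁ Z₂ (hidx Z₁ h1) (hidx Z₂ h2) hne
    (hpair Z₁ h1 Z₂ h2)
  refine ⟨hD, hA, ?_⟩
  have hα : ∀ Z ∈ F, ¬ Z ≤ Z₁ ⊔ Z₂ → Z ⊓ (Z₁ ⊔ Z₂) = Z₁ ⊓ Z₂ := by
    intro Z hZ hZA
    haveI := hN Z hZ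
    have htop : (Z₁ ⊔ Z₂) ⊔ Z = ⊤ := by
      rw [← Subgroup.index_eq_one]
      have h3 : ((Z₁ ⊔ Z₂) ⊔ Z).index ∣ p := by
        rw [← hA]; exact Subgroup.index_dvd_of_le le_sup_left
      rcases (Nat.dvd_prime hp).mp h3 with h4 | h4
      · exact h4
      · exfalso
        apply hZA
        have h5 : (Z₁ ⊔ Z₂) ⊔ Z ≤ Z₁ ⊔ Z₂ :=
          le_of_le_of_index_le le_sup_left (by rw [h4, hA])
        exact le_trans le_sup_right h5
    have h3 : ((Z₁ ⊔ Z₂) ⊓ Z).relIndex Z = p := by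
      rw [Subgroup.inf_relIndex_right, ← Subgroup.relIndex_sup_left, htop,
        Subgroup.relIndex_top_right, hA]
    have h4 : (Z ⊓ (Z₁ ⊔ Z₂)).index = p ^ 3 := by
      have h5 := Subgroup.relIndex_mul_index (inf_le_right : (Z₁ ⊔ Z₂) ⊓ Z ≤ Z)
      rw [h3, hidx Z hZ] at h5
      rw [inf_comm, ← h5]; ring
    have h6 : Z ⊓ (Z₁ ⊔ Z₂) ≤ Z ⊓ Z₁ :=
      le_of_le_of_index_le (inf_le_inf_left Z le_sup_left) (by rw [h4]; exact hpair Z hZ Z₁ h1)
    have h7 : Z ⊓ (Z₁ ⊔ Z₂) ≤ Z ⊓ Z₂ :=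
      le_of_le_of_index_le (inf_le_inf_left Z le_sup_right) (by rw [h4]; exact hpair Z hZ Z₂ h2)
    have h8 : Z ⊓ (Z₁ ⊔ Z₂) ≤ Z₁ ⊓ Z₂ :=
      le_inf (le_trans h6 inf_le_right) (le_trans h7 inf_le_right)
    exact le_antisymm h8 (le_of_le_of_index_le h8 (by rw [h4, hD]))
  by_contra hcon
  push_neg at hcon
  obtain ⟨⟨Z₃, hZ₃, hZ₃D⟩, ⟨Z₄, hZ₄, hZ₄A⟩⟩ := hcon
  have h3 : Z₃ ≤ Z₁ ⊔ Z₂ := by
    by_contra h
    apply hZ₃D
    rw [← hα Z₃ hZ₃ h]
    exact inf_le_left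
  have h4 := hα Z₄ hZ₄ hZ₄A
  have h5 : Z₃ ⊓ Z₄ ≤ Z₁ ⊓ Z₂ := by
    rw [← h4]
    exact le_inf inf_le_right (le_trans inf_le_left h3)
  have h6 : Z₁ ⊓ Z₂ ≤ Z₃ ⊓ Z₄ :=
    le_of_le_of_index_le h5 (by rw [hD]; exact hpair Z₃ hZ₃ Z₄ hZ₄)
  exact hZ₃D (le_trans h6 inf_le_left)

end DegPA

end Cfsg.Agent.Helper2
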