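import Mathlib
import Cfsg.Agent.Helper2.DegPA

/-!
# Groups with character degrees `1` and `p` (Isaacs 12.11), part B: the support of a
nonlinear character (helper2)
-/

set_option autoImplicit false

namespace Cfsg.Agent.Helper2

open Cfsg
open scoped ComplexConjugate

universe u

section DegPB

variable {G : Type u} [Group G]

/-- the elements of `H` which are central in `G` modulo the normal subgroup `K` -/
def centMod (H K : Subgroup G) [H.Normal] [hK : K.Normal] : Subgroup G where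
  carrier := {h | h ∈ H ∧ ∀ g : G, g * h * g⁻¹ * h⁻¹ ∈ K}
  one_mem' := ⟨H.one_mem, fun g => by simp⟩
  mul_mem' := by
    rintro a b ⟨ha, ha'⟩ ⟨hb, hb'⟩
    refine ⟨H.mul_mem ha hb, fun g => ?_⟩
    have h1 : g * (a * b) * g⁻¹ * (a * b)⁻¹ =
        (g * a * g⁻¹ * a⁻¹) * (a * (g * b * g⁻¹ * b⁻¹) * a⁻¹) := by group
    rw [h1]
    exact K.mul_mem (ha' g) (hK.conj_mem _ (hb' g) a)
  inv_mem' := by
    rintro a ⟨ha, ha'⟩
    refine ⟨H.inv_mem ha, fun g => ?_⟩
    have h1 : g * a⁻¹ * g⁻¹ * a⁻¹⁻¹ = a⁻¹ * (g * a * g⁻¹ * a⁻¹)⁻¹ * a⁻¹⁻¹ := by group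
    rw [h1]
    exact hK.conj_mem _ (K.inv_mem (ha' g)) a⁻¹

instance centMod_normal (H K : Subgroup G) [hH : H.Normal] [hK : K.Normal] :
    (centMod H K).Normal :=
  ⟨by
    rintro c ⟨hc, hc'⟩ x
    refine ⟨hH.conj_mem c hc x, fun g => ?_⟩
    have h1 : g * (x * c * x⁻¹) * g⁻¹ * (x * c * x⁻¹)⁻¹ =
        x * ((x⁻¹ * g * x) * c * (x⁻¹ * g * x)⁻¹ * c⁻¹) * x⁻¹ := by group
    rw [h1]
    exact hK.conj_mem _ (hc' _) x⟩

/-- Let `χ = λ^G` be nonlinear, with `λ` a linear character of the nonabelian normal subgroup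
`H ≥ Z(G)` of index `p`, in a group with character degrees `1, p` which is a `p`-group modulo
its centre. Then either `|G : Z(G)| = p³`, or `χ` has absolute value `p` on a normal subgroup of
index `p²` and vanishes off it. -/
theorem supp_or_center [Fintype G] (p : ℕ) [hp : Fact p.Prime] (h2 : TwoDeg G p)
    (hnil : ∀ g : G, ∃ k : ℕ, g ^ p ^ k ∈ Subgroup.center G)
    (χ : IrrCharacter G) (H : Subgroup G) [hH : H.Normal] (hidx : H.index = p)
    (hZH : Subgroup.center G ≤ H) (hnab : ∃ a ∈ H, ∃ b ∈ H, a * b ≠ b * a)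
    (lam : IrrCharacter H) (hlam : charDegree (lam : H → ℂ) = 1)
    (hind : indFun H (lam : H → ℂ) = (χ : G → ℂ)) :
    (Subgroup.center G).index = p ^ 3 ∨
    ∃ C : Subgroup G, C.Normal ∧ C.index = p ^ 2 ∧ (∀ g ∈ C, ‖(χ : G → ℂ) g‖ = (p : ℝ)) ∧
      ∀ g, g ∉ C → (χ : G → ℂ) g = 0 := by
  classical
  have hp' := hp.out
  haveI : Fintype H := Fintype.ofFinite _
  obtain ⟨K, hK⟩ : ∃ K : Subgroup G, K = ⁅H, H⁆ := ⟨_, rfl⟩
  haveI hKn : K.Normal := by rw [hK]; infer_instance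
  have hKH : K ≤ H := by rw [hK]; exact Subgroup.commutator_le_right H H
  have hKmem : ∀ w (hw : w ∈ H), w ∈ K ↔ (⟨w, hw⟩ : H) ∈ commutator H := by
    intro w hw
    rw [hK, ← Subgroup.map_subtype_commutator]
    constructor
    · rintro ⟨y, hy, hyw⟩
      have h5 : y = ⟨w, hw⟩ := Subtype.ext hyw
      rw [← h5]; exact hy
    · intro h; exact ⟨⟨w, hw⟩, h, rfl⟩
  obtain ⟨C, hC⟩ : ∃ C : Subgroup G, C = centMod H K := ⟨_, rfl⟩
  have hCn : C.Normal := by rw [hC]; infer_instance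
  have hCH : C ≤ H := by rw [hC]; exact fun c hc => hc.1
  have hCmem : ∀ c ∈ C, ∀ g : G, g * c * g⁻¹ * c⁻¹ ∈ K := by rw [hC]; exact fun c hc => hc.2
  have hCmk : ∀ c ∈ H, (∀ g : G, g * c * g⁻¹ * c⁻¹ ∈ K) → c ∈ C := by
    rw [hC]; exact fun c hc h => ⟨hc, h⟩
  have hZC : Subgroup.center G ≤ C := by
    intro z hz
    refine hCmk z (hZH hz) (fun g => ?_)
    have h5 := Subgroup.mem_center_iff.mp hz g
    rw [h5, mul_inv_cancel_right, mul_inv_cancel]
    exact K.one_mem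
  have hlam1 : (lam : H → ℂ) 1 = 1 := by rw [Helper25.irr_one_eq_degree, hlam, Nat.cast_one]
  -- Step 1: `χ c = p * lam c` on `C`
  have hχC : ∀ c (hc : c ∈ C), (χ : G → ℂ) c = (p : ℂ) * (lam : H → ℂ) ⟨c, hCH hc⟩ := by
    intro c hc
    rw [← hind, indFun_apply]
    have h1 : ∀ x : G, extendByZero H (lam : H → ℂ) (x⁻¹ * c * x) =
        (lam : H → ℂ) ⟨c, hCH hc⟩ := by
      intro x
      have hm : x⁻¹ * c * x ∈ H := by
        have h5 := hH.conj_mem c (hCH hc) x⁻¹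
        rwa [inv_inv] at h5
      rw [extendByZero_of_mem H _ hm]
      have h3 : x⁻¹ * c * x⁻¹⁻¹ * c⁻¹ ∈ K := hCmem c hc x⁻¹
      have hwH : x⁻¹ * c * x⁻¹⁻¹ * c⁻¹ ∈ H := hKH h3
      have h4 := Helper25.irr_linear_commutator lam hlam1 ((hKmem _ hwH).mp h3)
      have h5 : (⟨x⁻¹ * c * x, hm⟩ : H) = ⟨x⁻¹ * c * x⁻¹⁻¹ * c⁻¹, hwH⟩ * ⟨c, hCH hc⟩ := by
        apply Subtype.ext
        show x⁻¹ * c * x = x⁻¹ * c * x⁻¹⁻¹ * c⁻¹ * c
        group
      rw [h5, Helper25.irr_linear_mul lam hlam1, h4, one_mul]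
    rw [Finset.sum_congr rfl (fun x _ => h1 x), Finset.sum_const, Finset.card_univ, nsmul_eq_mul,
      ← mul_assoc]
    congr 1
    rw [← Nat.card_eq_fintype_card, ← Subgroup.card_mul_index H, hidx]
    push_cast
    rw [inv_mul_cancel_left₀ (natCard_ne_zero_complex H)]
  have hχCnorm : ∀ c ∈ C, ‖(χ : G → ℂ) c‖ = (p : ℝ) := by
    intro c hc
    rw [hχC c hc, norm_mul, Cfsg.Agent.S4762.linear_norm lam hlam1, mul_one,
      Complex.norm_natCast]
  -- Step 2: counting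
  obtain ⟨hle, heq⟩ := norm_count_le χ C (p : ℝ) hχCnorm
  have hle' : Nat.card C * p ^ 2 ≤ Nat.card G := by exact_mod_cast hle
  have hQp : IsPGroup p (G ⧸ Subgroup.center G) := by
    intro y
    obtain ⟨g, rfl⟩ := QuotientGroup.mk_surjective y
    obtain ⟨k, hk⟩ := hnil g
    exact ⟨k, by rw [← QuotientGroup.mk_pow]; exact (QuotientGroup.eq_one_iff _).mpr hk⟩
  obtain ⟨n, hn⟩ := IsPGroup.iff_card.mp hQp
  have hZidx : (Subgroup.center G).index = p ^ n := by rw [Subgroup.index_eq_card, hn]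
  obtain ⟨j, hj, hCj⟩ : ∃ j ≤ n, C.index = p ^ j :=
    (Nat.dvd_prime_pow hp').mp (hZidx ▸ Subgroup.index_dvd_of_le hZC)
  have hcardC : Nat.card C * p ^ j = Nat.card G := by
    rw [← hCj]; exact Subgroup.card_mul_index C
  have hj2 : 2 ≤ j := by
    rw [← hcardC] at hle'
    have h5 := Nat.le_of_mul_le_mul_left hle' Nat.card_pos
    exact (Nat.pow_le_pow_iff_right hp'.one_lt).mp h5
  -- Step 3: nonlinear characters of `H` are restrictions of characters of `G`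
  have hres : ∀ ψ : IrrCharacter H, charDegree (ψ : H → ℂ) ≠ 1 →
      charDegree (ψ : H → ℂ) = p ∧
        ∃ χ' : IrrCharacter G, ∀ h : H, (ψ : H → ℂ) h = (χ' : G → ℂ) h := by
    intro ψ hψ
    obtain ⟨χ', hχ'⟩ := exists_irr_above_h2 H ψ
    have hdvd := irr_degree_dvd_of_over H χ' ψ hχ'
    have hχ'p : charDegree (χ' : G → ℂ) = p := by
      rcases h2 χ' with h | h
      · rw [h, Nat.dvd_one] at hdvd; exact absurd hdvd hψ
      · exact h
    have hψp : charDegree (ψ : H → ℂ) = p := by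
      rw [hχ'p] at hdvd
      rcases (Nat.dvd_prime hp').mp hdvd with h | h
      · exact absurd h hψ
      · exact h
    refine ⟨hψp, χ', fun h => ?_⟩
    have h5 := char_eq_irr_of_degree
      (isCharacter_restrict H (isCharacter_of_isIrrCharacter χ'.2)) ψ hχ' (by
        show (χ' : G → ℂ) ((1 : H) : G) = (ψ : H → ℂ) 1
        rw [Subgroup.coe_one, Helper25.irr_one_eq_degree, Helper25.irr_one_eq_degree, hχ'p, hψp])
    exact (congrFun h5 h).symm
  have hinv : ∀ ψ : IrrCharacter H, charDegree (ψ : H → ℂ) ≠ 1 → ∀ (g : G) (h : H),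
      (ψ : H → ℂ) ⟨g * h * g⁻¹, hH.conj_mem h h.2 g⟩ = (ψ : H → ℂ) h := by
    intro ψ hψ g h
    obtain ⟨-, χ', hχ'⟩ := hres ψ hψ
    rw [hχ', hχ']
    exact Helper25.char_conj (Helper25.irr_isCharacter χ') _ _
  obtain ⟨ψ₀, hψ₀⟩ : ∃ ψ₀ : IrrCharacter H, charDegree (ψ₀ : H → ℂ) ≠ 1 := by
    by_contra hcon
    push_neg at hcon
    obtain ⟨a, ha, b, hb, hab⟩ := hnab
    have h5 := comm_of_all_linear hcon ⟨a, ha⟩ ⟨b, hb⟩
    exact hab (congrArg Subtype.val h5)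
  -- Step 4: nonlinear characters of `H` vanish off `C`
  have hsupp : ∀ ψ : IrrCharacter H, charDegree (ψ : H → ℂ) ≠ 1 → ∀ h : H,
      (ψ : H → ℂ) h ≠ 0 → (h : G) ∈ C := by
    intro ψ hψ h hne
    refine hCmk h h.2 (fun g => ?_)
    by_contra hw
    have hwH : g * h * g⁻¹ * (h : G)⁻¹ ∈ H :=
      H.mul_mem (hH.conj_mem h h.2 g) (H.inv_mem h.2)
    have hw' : (⟨g * h * g⁻¹ * (h : G)⁻¹, hwH⟩ : H) ∉ commutator H :=
      fun h' => hw ((hKmem _ hwH).mpr h')
    obtain ⟨μ, hμ1, hμw⟩ := Cfsg.Agent.S4762.exists_linear_ne_one hw'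
    have hirr : IsIrrCharacter H (fun x =>
        (((Helper25.linHom μ hμ1).toHomUnits x : ℂˣ) : ℂ) * (ψ : H → ℂ) x) :=
      Helper7.isIrrCharacter_hom_mul _ _ ψ.2
    have hnl : charDegree (fun x =>
        (((Helper25.linHom μ hμ1).toHomUnits x : ℂˣ) : ℂ) * (ψ : H → ℂ) x) ≠ 1 := by
      unfold charDegree
      beta_reduce
      rw [MonoidHom.coe_toHomUnits]
      show ⌊((μ : H → ℂ) 1 * (ψ : H → ℂ) 1).re⌋₊ ≠ 1
      rw [hμ1, one_mul]
      exact hψ
    have h5 := hinv ⟨_, hirr⟩ hnl g h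
    have h6 : (μ : H → ℂ) ⟨g * h * g⁻¹, hH.conj_mem h h.2 g⟩ *
        (ψ : H → ℂ) ⟨g * h * g⁻¹, hH.conj_mem h h.2 g⟩ = (μ : H → ℂ) h * (ψ : H → ℂ) h := h5
    rw [hinv ψ hψ g h] at h6
    have h7 := mul_right_cancel₀ hne h6
    have h8 : (⟨g * h * g⁻¹, hH.conj_mem h h.2 g⟩ : H) =
        ⟨g * h * g⁻¹ * (h : G)⁻¹, hwH⟩ * h := by
      apply Subtype.ext
      show g * h * g⁻¹ = g * h * g⁻¹ * (h : G)⁻¹ * h
      group
    rw [h8, Helper25.irr_linear_mul μ hμ1] at h7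
    have hμh : (μ : H → ℂ) h ≠ 0 := by
      intro h0
      have h9 := Cfsg.Agent.S4762.linear_norm μ hμ1 h
      rw [h0, norm_zero] at h9
      exact zero_ne_one h9
    exact hμw (mul_right_cancel₀ hμh (h7.trans (one_mul _).symm))
  -- Step 5: `Z(H) ≤ Z(G)`
  have hZH' : ∀ z : H, z ∈ Subgroup.center H → (z : G) ∈ Subgroup.center G := by
    intro z hz
    rw [Subgroup.mem_center_iff]
    intro g
    have hz'H : g * z * g⁻¹ ∈ H := hH.conj_mem z z.2 g
    have hz'c : (⟨g * z * g⁻¹, hz'H⟩ : H) ∈ Subgroup.center H := by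
      rw [Subgroup.mem_center_iff]
      intro h
      apply Subtype.ext
      show (h : G) * (g * z * g⁻¹) = g * z * g⁻¹ * h
      have hh : g⁻¹ * h * g ∈ H := by
        have h5 := hH.conj_mem h h.2 g⁻¹
        rwa [inv_inv] at h5
      have h5 := congrArg Subtype.val (Subgroup.mem_center_iff.mp hz ⟨g⁻¹ * h * g, hh⟩)
      have h6 : (g⁻¹ * h * g) * (z : G) = z * (g⁻¹ * h * g) := h5
      calc (h : G) * (g * z * g⁻¹) = g * ((g⁻¹ * h * g) * z) * g⁻¹ := by group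
        _ = g * (z * (g⁻¹ * h * g)) * g⁻¹ := by rw [h6]
        _ = g * z * g⁻¹ * h := by group
    have hw1 : (⟨g * z * g⁻¹, hz'H⟩ : H) * z⁻¹ = 1 := by
      apply eq_one_of_nonlinear_ker ψ₀ hψ₀
      intro ψ hψ
      obtain ⟨c, hc, hcz⟩ := irr_central_mul ψ z hz
      obtain ⟨c', hc', hcz'⟩ := irr_central_mul ψ _ hz'c
      have h5 := hinv ψ hψ g z
      have h6 := hcz 1
      have h7 := hcz' 1
      rw [mul_one] at h6 h7
      rw [h6, h7] at h5
      have h8 : c' = c := mul_right_cancel₀ (Helper25.irr_one_ne_zero ψ) h5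
      rw [hcz', h8, ← hcz, mul_inv_cancel]
    have h9 := congrArg Subtype.val hw1
    have h10 : g * (z : G) * g⁻¹ * (z : G)⁻¹ = 1 := h9
    calc g * (z : G) = (g * z * g⁻¹ * (z : G)⁻¹) * (z * g) := by group
      _ = z * g := by rw [h10, one_mul]
  have h6 : Nat.card (C.subgroupOf H) = Nat.card C :=
    Nat.card_congr (Subgroup.subgroupOfEquivOfLe hCH).toEquiv
  have h8 : Nat.card H * p = Nat.card G := by rw [← hidx]; exact Subgroup.card_mul_index H
  by_cases hA : ∀ ψ : IrrCharacter H, charDegree (ψ : H → ℂ) ≠ 1 → ∀ c : H, (c : G) ∈ C →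
      ‖(ψ : H → ℂ) c‖ = (p : ℝ)
  · left
    have hCZ : C ≤ Subgroup.center G := by
      intro c hc
      apply hZH' ⟨c, hCH hc⟩
      apply mem_center_of_all_norm
      intro ψ
      by_cases hψ : charDegree (ψ : H → ℂ) = 1
      · rw [hψ, Nat.cast_one]
        exact Cfsg.Agent.S4762.linear_norm ψ
          (by rw [Helper25.irr_one_eq_degree, hψ, Nat.cast_one]) _
      · rw [(hres ψ hψ).1]
        exact hA ψ hψ ⟨c, hCH hc⟩ hc
    have hCeq : C = Subgroup.center G := le_antisymm hCZ hZC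
    have h5 := norm_count_of_vanish ψ₀ (C.subgroupOf H) (p : ℝ)
      (fun c hc => hA ψ₀ hψ₀ c (Subgroup.mem_subgroupOf.mp hc)) (fun h hh => by
        by_contra hne
        exact hh (Subgroup.mem_subgroupOf.mpr (hsupp ψ₀ hψ₀ h hne)))
    have h7 : Nat.card C * p ^ 2 = Nat.card H := by rw [← h6]; exact_mod_cast h5
    have h9 : Nat.card C * C.index = Nat.card G := Subgroup.card_mul_index C
    rw [← hCeq]
    have h10 : Nat.card C * C.index = Nat.card C * p ^ 3 := by rw [h9, ← h8, ← h7]; ring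
    exact Nat.eq_of_mul_eq_mul_left Nat.card_pos h10
  · right
    push_neg at hA
    obtain ⟨ψ₁, hψ₁, c₁, hc₁, hne⟩ := hA
    have hbd : ∀ c : H, ‖(ψ₁ : H → ℂ) c‖ ≤ (p : ℝ) := by
      intro c
      have h5 := Helper25.irr_norm_le ψ₁ c
      rwa [Helper25.irr_one_eq_degree, (hres ψ₁ hψ₁).1, Complex.norm_natCast] at h5
    have h5 := norm_count_lt ψ₁ (C.subgroupOf H) (p : ℝ) (fun c _ => hbd c)
      (fun h hh => by
        by_contra hne'
        exact hh (Subgroup.mem_subgroupOf.mpr (hsupp ψ₁ hψ₁ h hne')))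
      c₁ (Subgroup.mem_subgroupOf.mpr hc₁) (lt_of_le_of_ne (hbd c₁) hne)
    have h7 : Nat.card H < Nat.card C * p ^ 2 := by rw [← h6]; exact_mod_cast h5
    have hj3 : j < 3 := by
      have h10 : Nat.card C * p ^ j < Nat.card C * p ^ 3 := by
        rw [hcardC, ← h8]
        calc Nat.card H * p < (Nat.card C * p ^ 2) * p := Nat.mul_lt_mul_of_pos_right h7 hp'.pos
          _ = Nat.card C * p ^ 3 := by ring
      have h11 := Nat.lt_of_mul_lt_mul_left h10
      exact (Nat.pow_lt_pow_iff_right hp'.one_lt).mp h11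
    have hj2' : j = 2 := by omega
    rw [hj2'] at hCj hcardC
    refine ⟨C, hCn, hCj, hχCnorm, heq ?_⟩
    exact_mod_cast hcardC

end DegPB

end Cfsg.Agent.Helper2
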