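import Mathlib
import Cfsg.Agent.Helper2.DegPB

/-!
# Groups with character degrees `1` and `p` (Isaacs 12.11), part C (helper2)
-/

set_option autoImplicit false

namespace Cfsg.Agent.Helper2

open Cfsg
open scoped ComplexConjugate

universe u

section DegPC

variable {G : Type u} [Group G]

theorem sum_eq_card_mul_of_supp [Fintype G] (f : G → ℂ) (C : Subgroup G) (v : ℂ)
    (h1 : ∀ g ∈ C, f g = v) (h0 : ∀ g, g ∉ C → f g = 0) :
    ∑ g : G, f g = (Nat.card C : ℂ) * v := by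
  classical
  have e1 : ∑ c : {g : G // g ∈ C}, f c = ∑ _c : {g : G // g ∈ C}, v :=
    Finset.sum_congr rfl (fun c _ => h1 c.1 c.2)
  have e2 : ∑ c : {g : G // ¬ g ∈ C}, f c = 0 :=
    Finset.sum_eq_zero (fun c _ => h0 c.1 c.2)
  rw [← Fintype.sum_subtype_add_sum_subtype (fun g : G => g ∈ C) f, e1, e2, add_zero,
    Finset.sum_const, Finset.card_univ, nsmul_eq_mul, Nat.card_eq_fintype_card]

/-- Two nonlinear characters of degree `p`, each of absolute value `p` on a subgroup and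
vanishing off it: the intersection of the two subgroups cannot have index `p⁴`. -/
theorem supp_inf_index_ne [Fintype G] (p : ℕ) [hp : Fact p.Prime] (h2 : TwoDeg G p)
    (χ χ' : IrrCharacter G) (hχ : charDegree (χ : G → ℂ) = p)
    (hχ' : charDegree (χ' : G → ℂ) = p) (Z Z' : Subgroup G)
    (hZ : ∀ g ∈ Z, ‖(χ : G → ℂ) g‖ = (p : ℝ)) (hZ0 : ∀ g, g ∉ Z → (χ : G → ℂ) g = 0)
    (hZ' : ∀ g ∈ Z', ‖(χ' : G → ℂ) g‖ = (p : ℝ)) (hZ'0 : ∀ g, g ∉ Z' → (χ' : G → ℂ) g = 0) :
    Nat.card (Z ⊓ Z' : Subgroup G) * p ^ 4 ≠ Nat.card G := by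
  intro hcard
  have hp' := hp.out
  have hΨ : IsCharacter G ((χ : G → ℂ) * (χ' : G → ℂ)) :=
    isCharacter_mul (isCharacter_of_isIrrCharacter χ.2) (isCharacter_of_isIrrCharacter χ'.2)
  have hirr : IsIrrCharacter G ((χ : G → ℂ) * (χ' : G → ℂ)) := by
    apply isIrrCharacter_of_classInner_self hΨ
    unfold classInner
    have h1 : ∑ g : G, ((χ : G → ℂ) * (χ' : G → ℂ)) g *
        conj (((χ : G → ℂ) * (χ' : G → ℂ)) g) =
        (Nat.card (Z ⊓ Z' : Subgroup G) : ℂ) * ((p : ℂ) ^ 4) := by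
      apply sum_eq_card_mul_of_supp
      · intro g hg
        rw [Complex.mul_conj, Complex.normSq_eq_norm_sq, Pi.mul_apply, norm_mul, hZ g hg.1,
          hZ' g hg.2]
        push_cast
        ring
      · intro g hg
        have h5 : (χ : G → ℂ) g = 0 ∨ (χ' : G → ℂ) g = 0 := by
          by_contra hcon
          push_neg at hcon
          apply hg
          refine ⟨?_, ?_⟩
          · by_contra h; exact hcon.1 (hZ0 g h)
          · by_contra h; exact hcon.2 (hZ'0 g h)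
        rw [Pi.mul_apply]
        rcases h5 with h | h
        · rw [h, zero_mul, zero_mul]
        · rw [h, mul_zero, zero_mul]
    have h3 : (Nat.card G : ℂ) = (Nat.card (Z ⊓ Z' : Subgroup G) : ℂ) * (p : ℂ) ^ 4 := by
      rw [← hcard]; push_cast; rfl
    have hG0 : (Nat.card G : ℂ) ≠ 0 := Nat.cast_ne_zero.mpr Nat.card_pos.ne'
    rw [h1, ← h3, inv_mul_cancel₀ hG0]
  have h5 := h2 ⟨_, hirr⟩
  have hdeg : charDegree ((χ : G → ℂ) * (χ' : G → ℂ)) = p ^ 2 := by
    unfold charDegree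
    rw [Pi.mul_apply, Helper25.irr_one_eq_degree, Helper25.irr_one_eq_degree, hχ, hχ']
    have h6 : ((p : ℂ) * (p : ℂ)) = ((p ^ 2 : ℕ) : ℂ) := by push_cast; ring
    rw [h6, Complex.natCast_re, Nat.floor_natCast]
  have h7 : p ^ 2 = 1 ∨ p ^ 2 = p := by
    rw [← hdeg]; exact h5
  have h8 := hp'.one_lt
  rcases h7 with h | h
  · nlinarith
  · nlinarith

theorem abelian_of_relIndex_center_prime [Finite G] (p : ℕ) (hp : p.Prime) (H : Subgroup G)
    (h : (Subgroup.center G).relIndex H = p) : ∀ a ∈ H, ∀ b ∈ H, a * b = b * a := by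
  haveI : Fact p.Prime := ⟨hp⟩
  obtain ⟨N, hN⟩ : ∃ N : Subgroup H, N = (Subgroup.center G).subgroupOf H := ⟨_, rfl⟩
  haveI : N.Normal := by rw [hN]; infer_instance
  have hcard : Nat.card (H ⧸ N) = p := by
    rw [← Subgroup.index_eq_card, hN]; exact h
  haveI : IsCyclic (H ⧸ N) := isCyclic_of_prime_card hcard
  have hker : (QuotientGroup.mk' N).ker ≤ Subgroup.center H := by
    rw [QuotientGroup.ker_mk', hN]
    intro x hx
    rw [Subgroup.mem_center_iff]
    intro y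
    apply Subtype.ext
    exact Subgroup.mem_center_iff.mp (Subgroup.mem_subgroupOf.mp hx) y
  intro a ha b hb
  exact congrArg Subtype.val
    (commutative_of_cyclic_center_quotient (QuotientGroup.mk' N) hker ⟨a, ha⟩ ⟨b, hb⟩)

/-- An irreducible character which vanishes off a proper subgroup does not restrict
irreducibly to it. -/
theorem restrict_not_irr_of_vanish [Fintype G] (χ : IrrCharacter G) (A : Subgroup G)
    (hA : A ≠ ⊤) (h0 : ∀ g, g ∉ A → (χ : G → ℂ) g = 0) (ν : IrrCharacter A)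
    (h : ∀ a : A, (ν : A → ℂ) a = (χ : G → ℂ) a) : False := by
  classical
  have h1 := sum_norm_sq_split χ A
  have h3 : ∑ c : {g : G // ¬ g ∈ A}, ‖(χ : G → ℂ) c‖ ^ 2 = 0 :=
    Finset.sum_eq_zero (fun c _ => by rw [h0 c.1 c.2, norm_zero]; ring)
  have h4 : ∑ c : {g : G // g ∈ A}, ‖(χ : G → ℂ) c‖ ^ 2 = (Nat.card A : ℝ) := by
    rw [← sum_norm_sq_irr ν]
    exact Finset.sum_congr rfl (fun c _ => by rw [h c])
  rw [h3, h4, add_zero] at h1
  apply hA
  apply (Subgroup.card_eq_iff_eq_top _).mp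
  exact_mod_cast h1

/-- The key case of Isaacs 12.11. -/
theorem index_center_of_twoDeg_p [Fintype G] (p : ℕ) [hp : Fact p.Prime] (h2 : TwoDeg G p)
    (hnil : ∀ g : G, ∃ k : ℕ, g ^ p ^ k ∈ Subgroup.center G)
    (χ₀ : IrrCharacter G) (hχ₀ : charDegree (χ₀ : G → ℂ) = p)
    (hno : ¬ ∃ A : Subgroup G, A.Normal ∧ (∀ a ∈ A, ∀ b ∈ A, a * b = b * a) ∧ A.index = p) :
    (Subgroup.center G).index = p ^ 3 := by
  classical
  have hp' := hp.out
  by_contra hidx
  have key : ∀ χ : IrrCharacter G, charDegree (χ : G → ℂ) = p →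
      ∃ C : Subgroup G, C.Normal ∧ C.index = p ^ 2 ∧
        (∀ g ∈ C, ‖(χ : G → ℂ) g‖ = (p : ℝ)) ∧ ∀ g, g ∉ C → (χ : G → ℂ) g = 0 := by
    intro χ hχ
    obtain ⟨H, hHn, hHidx, hZH, lam, hlam, hind⟩ := exists_normal_index_p_induced p hnil χ hχ
    haveI := hHn
    have hnab : ∃ a ∈ H, ∃ b ∈ H, a * b ≠ b * a := by
      by_contra hcon
      push_neg at hcon
      exact hno ⟨H, hHn, hcon, hHidx⟩
    rcases supp_or_center p h2 hnil χ H hHidx hZH hnab lam hlam hind with h | h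
    · exact absurd h hidx
    · exact h
  obtain ⟨F, hF⟩ : ∃ F : Set (Subgroup G), F = {C | ∃ χ : IrrCharacter G,
      charDegree (χ : G → ℂ) = p ∧ C.Normal ∧ C.index = p ^ 2 ∧
        (∀ g ∈ C, ‖(χ : G → ℂ) g‖ = (p : ℝ)) ∧ ∀ g, g ∉ C → (χ : G → ℂ) g = 0} := ⟨_, rfl⟩
  have hFN : ∀ Z ∈ F, Z.Normal := by
    intro Z hZ
    rw [hF] at hZ
    obtain ⟨χ, -, h, -⟩ := hZ
    exact h
  have hFidx : ∀ Z ∈ F, Z.index = p ^ 2 := by
    intro Z hZ
    rw [hF] at hZ
    obtain ⟨χ, -, -, h, -⟩ := hZ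
    exact h
  have hZF : ∀ Z ∈ F, Subgroup.center G ≤ Z := by
    intro Z hZ z hz
    rw [hF] at hZ
    obtain ⟨χ, hχ, -, -, -, h0⟩ := hZ
    by_contra hzZ
    obtain ⟨c, hc, hcz⟩ := irr_central_mul χ z hz
    have h5 := hcz 1
    rw [mul_one, h0 z hzZ] at h5
    have h6 : c = 0 := by
      rcases mul_eq_zero.mp h5.symm with h | h
      · exact h
      · exact absurd h (Helper25.irr_one_ne_zero χ)
    rw [h6, norm_zero] at hc
    exact zero_ne_one hc
  have hsep : ∀ g : G, (∀ Z ∈ F, g ∈ Z) → g ∈ Subgroup.center G := by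
    intro g hg
    apply mem_center_of_all_norm
    intro χ
    rcases h2 χ with h | h
    · rw [h, Nat.cast_one]
      exact Cfsg.Agent.S4762.linear_norm χ
        (by rw [Helper25.irr_one_eq_degree, h, Nat.cast_one]) _
    · obtain ⟨C, hCn, hCidx, hC1, hC0⟩ := key χ h
      rw [h]
      exact hC1 g (hg C (by rw [hF]; exact ⟨χ, h, hCn, hCidx, hC1, hC0⟩))
  have hQp : IsPGroup p (G ⧸ Subgroup.center G) := by
    intro y
    obtain ⟨g, rfl⟩ := QuotientGroup.mk_surjective y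
    obtain ⟨k, hk⟩ := hnil g
    exact ⟨k, by rw [← QuotientGroup.mk_pow]; exact (QuotientGroup.eq_one_iff _).mpr hk⟩
  obtain ⟨n, hn⟩ := IsPGroup.iff_card.mp hQp
  have hZidx : (Subgroup.center G).index = p ^ n := by rw [Subgroup.index_eq_card, hn]
  have hpair : ∀ Z ∈ F, ∀ Z' ∈ F, (Z ⊓ Z').index ≤ p ^ 3 := by
    intro Z hZ Z' hZ'
    have hcZ := hZF Z hZ
    have hcZ' := hZF Z' hZ'
    have hi1 := hFidx Z hZ
    have hi2 := hFidx Z' hZ'
    rw [hF] at hZ hZ'
    obtain ⟨χ, hχ, -, -, h1, h0⟩ := hZ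
    obtain ⟨χ', hχ', -, -, h1', h0'⟩ := hZ'
    obtain ⟨i, hi, hZi⟩ : ∃ i ≤ n, (Z ⊓ Z').index = p ^ i :=
      (Nat.dvd_prime_pow hp').mp (hZidx ▸ Subgroup.index_dvd_of_le (le_inf hcZ hcZ'))
    have hle4 : (Z ⊓ Z').index ≤ p ^ 4 := by
      have h5 := Subgroup.index_inf_le (H := Z) (K := Z')
      rw [hi1, hi2] at h5
      calc (Z ⊓ Z').index ≤ p ^ 2 * p ^ 2 := h5
        _ = p ^ 4 := by ring
    rw [hZi] at hle4 ⊢
    have hi4 : i ≤ 4 := (Nat.pow_le_pow_iff_right hp'.one_lt).mp hle4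
    have hne4 : i ≠ 4 := by
      rintro rfl
      apply supp_inf_index_ne p h2 χ χ' hχ hχ' Z Z' h1 h0 h1' h0'
      rw [← hZi]
      exact Subgroup.card_mul_index _
    exact Nat.pow_le_pow_right hp'.pos (by omega)
  obtain ⟨C₀, hC₀n, hC₀idx, hC₀1, hC₀0⟩ := key χ₀ hχ₀
  have hC₀F : C₀ ∈ F := by rw [hF]; exact ⟨χ₀, hχ₀, hC₀n, hC₀idx, hC₀1, hC₀0⟩
  by_cases hall : ∀ Z ∈ F, Z = C₀
  · -- the centre has index `p²`
    have h5 : C₀ ≤ Subgroup.center G := by
      intro g hg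
      apply hsep
      intro Z hZ
      rw [hall Z hZ]
      exact hg
    have h6 : Subgroup.center G = C₀ := le_antisymm (hZF C₀ hC₀F) h5
    obtain ⟨H, hHn, hHidx, hZH, -⟩ := exists_normal_index_p_induced p hnil χ₀ hχ₀
    apply hno
    refine ⟨H, hHn, ?_, hHidx⟩
    apply abelian_of_relIndex_center_prime p hp' H
    have h7 := Subgroup.relIndex_mul_index hZH
    rw [hHidx, h6, hC₀idx] at h7
    rw [h6]
    have h8 : C₀.relIndex H * p = p * p := by rw [h7]; ring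
    exact Nat.eq_of_mul_eq_mul_right hp'.pos h8
  · push_neg at hall
    obtain ⟨C₁, hC₁F, hC₁ne⟩ := hall
    obtain ⟨hD, hA, halt⟩ := index_comb p hp' F hFN hFidx hpair C₀ C₁ hC₀F hC₁F (Ne.symm hC₁ne)
    rcases halt with halt | halt
    · -- the centre is `C₀ ⊓ C₁`
      apply hidx
      have h5 : C₀ ⊓ C₁ ≤ Subgroup.center G := fun g hg => hsep g (fun Z hZ => halt Z hZ hg)
      have h6 : Subgroup.center G = C₀ ⊓ C₁ :=
        le_antisymm (le_inf (hZF C₀ hC₀F) (hZF C₁ hC₁F)) h5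
      rw [h6, hD]
    · -- `C₀ ⊔ C₁` is abelian
      haveI := hFN C₀ hC₀F
      haveI := hFN C₁ hC₁F
      apply hno
      refine ⟨C₀ ⊔ C₁, inferInstance, ?_, hA⟩
      have hAtop : C₀ ⊔ C₁ ≠ ⊤ := by
        intro h
        rw [h, Subgroup.index_top] at hA
        exact hp'.one_lt.ne' hA.symm
      haveI : Fintype (C₀ ⊔ C₁ : Subgroup G) := Fintype.ofFinite _
      have hlin : ∀ ν : IrrCharacter (C₀ ⊔ C₁ : Subgroup G),
          charDegree (ν : (C₀ ⊔ C₁ : Subgroup G) → ℂ) = 1 := by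
        intro ν
        obtain ⟨χ, hχ⟩ := exists_irr_above_h2 (C₀ ⊔ C₁) ν
        have hdvd := irr_degree_dvd_of_over (C₀ ⊔ C₁) χ ν hχ
        rcases h2 χ with h | h
        · rw [h, Nat.dvd_one] at hdvd; exact hdvd
        · rw [h] at hdvd
          rcases (Nat.dvd_prime hp').mp hdvd with h' | h'
          · exact h'
          · exfalso
            obtain ⟨C, hCn, hCidx, hC1, hC0⟩ := key χ h
            have hCA : C ≤ C₀ ⊔ C₁ := halt C (by rw [hF]; exact ⟨χ, h, hCn, hCidx, hC1, hC0⟩)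
            have h5 := char_eq_irr_of_degree
              (isCharacter_restrict (C₀ ⊔ C₁) (isCharacter_of_isIrrCharacter χ.2)) ν hχ (by
                show (χ : G → ℂ) ((1 : (C₀ ⊔ C₁ : Subgroup G)) : G) = _
                rw [Subgroup.coe_one, Helper25.irr_one_eq_degree, Helper25.irr_one_eq_degree,
                  h, h'])
            exact restrict_not_irr_of_vanish χ (C₀ ⊔ C₁) hAtop
              (fun g hg => hC0 g (fun hgC => hg (hCA hgC))) ν
              (fun a => (congrFun h5 a).symm)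
      intro a ha b hb
      exact congrArg Subtype.val (comm_of_all_linear hlin ⟨a, ha⟩ ⟨b, hb⟩)

end DegPC

end Cfsg.Agent.Helper2
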