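import Mathlib
import Cfsg.Agent.Helper25.CharKer
import Cfsg.Agent.Helper25.CharOrth
import Cfsg.Agent.Helper25.CharComplete
import Cfsg.Agent.Helper26.BlockQuot
import Cfsg.Agent.Helper2.CharExtra
import Cfsg.Prelude.Def_Transfer

/-!
# Characters vanishing on all but two conjugacy classes (Gagola), elementary part (helper2)
-/

set_option autoImplicit false

namespace Cfsg.Agent.Helper2

open Cfsg Cfsg.Agent.Helper25
open scoped ComplexConjugate

variable {G : Type*} [Group G]

/-- the intersection of the kernels of all irreducible characters different from `χ` -/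
noncomputable def gagolaSub [Finite G] (χ : IrrCharacter G) : Subgroup G :=
  ⨅ ψ : {ψ : IrrCharacter G // ψ ≠ χ}, irrKer ψ.1

theorem mem_gagolaSub [Finite G] (χ : IrrCharacter G) (g : G) :
    g ∈ gagolaSub χ ↔ ∀ ψ : IrrCharacter G, ψ ≠ χ → (ψ : G → ℂ) g = (ψ : G → ℂ) 1 := by
  unfold gagolaSub
  rw [Subgroup.mem_iInf]
  constructor
  · intro h ψ hψ
    exact h ⟨ψ, hψ⟩
  · intro h ψ
    exact h ψ.1 ψ.2

instance gagolaSub_normal [Finite G] (χ : IrrCharacter G) : (gagolaSub χ).Normal :=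
  Subgroup.normal_iInf_normal (fun ψ => irrKer_normal ψ.1)

/-- the core of Gagola's lemma -/
theorem gagola_core [Finite G] (hG : 2 < Nat.card G) (χ : IrrCharacter G)
    (hχ : Nat.card {C : ConjClasses G // ∃ g ∈ C.carrier, (χ : G → ℂ) g ≠ 0} = 2) :
    ∃ x : G, x ≠ 1 ∧ (∀ g : G, (χ : G → ℂ) g ≠ 0 ↔ (g = 1 ∨ IsConj x g)) ∧
      (χ : G → ℂ) x ≠ (χ : G → ℂ) 1 ∧
      (∀ ψ : IrrCharacter G, ψ ≠ χ → (ψ : G → ℂ) x = (ψ : G → ℂ) 1) ∧
      (∀ g : G, g ≠ 1 → (∀ ψ : IrrCharacter G, ψ ≠ χ → (ψ : G → ℂ) g = (ψ : G → ℂ) 1) →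
        IsConj x g) := by
  classical
  haveI : Fintype G := Fintype.ofFinite G
  have hχ1 : (χ : G → ℂ) 1 ≠ 0 := irr_one_ne_zero χ
  -- Step 1: the two classes
  set c₁ : {C : ConjClasses G // ∃ g ∈ C.carrier, (χ : G → ℂ) g ≠ 0} :=
    ⟨ConjClasses.mk 1, ⟨1, ConjClasses.mem_carrier_mk, hχ1⟩⟩ with hc₁
  obtain ⟨c₂, hc₂, hc₂u⟩ := (Nat.card_eq_two_iff' c₁).mp hχ
  obtain ⟨C, x, hxC, hx⟩ := c₂
  have hCx : ConjClasses.mk x = C := ConjClasses.mem_carrier_iff_mk_eq.mp hxC
  have hx1 : x ≠ 1 := by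
    intro h
    apply hc₂
    apply Subtype.ext
    show C = ConjClasses.mk 1
    rw [← hCx, h]
  have hnz : ∀ g : G, (χ : G → ℂ) g ≠ 0 ↔ (g = 1 ∨ IsConj x g) := by
    intro g
    constructor
    · intro hg
      by_cases h1 : g = 1
      · exact Or.inl h1
      · right
        have h2 := hc₂u ⟨ConjClasses.mk g, ⟨g, ConjClasses.mem_carrier_mk, hg⟩⟩ (by
          intro h3
          have h4 : ConjClasses.mk g = ConjClasses.mk 1 := congrArg Subtype.val h3
          have h5 : IsConj g 1 := ConjClasses.mk_eq_mk_iff_isConj.mp h4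
          exact h1 (isConj_one_right.mp h5.symm))
        have h3 : ConjClasses.mk g = C := congrArg Subtype.val h2
        rw [← hCx] at h3
        exact (ConjClasses.mk_eq_mk_iff_isConj.mp h3).symm
    · rintro (h | h)
      · rw [h]
        exact hχ1
      · obtain ⟨c, hc⟩ := isConj_iff.mp h
        rw [← hc, irr_conj]
        exact hx
  -- the class of x as a finset
  set S2 : Finset G := Finset.univ.filter (fun g => IsConj x g) with hS2
  have hxS2 : x ∈ S2 := by
    rw [hS2, Finset.mem_filter]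
    exact ⟨Finset.mem_univ _, IsConj.refl x⟩
  have hcpos : 0 < S2.card := Finset.card_pos.mpr ⟨x, hxS2⟩
  have h1S2 : (1 : G) ∉ S2 := by
    rw [hS2, Finset.mem_filter]
    rintro ⟨-, h⟩
    exact hx1 (isConj_one_left.mp h)
  -- sums of class functions supported on {1} ∪ class of x
  have hsum : ∀ f : G → ℂ, (∀ g, ¬ (g = 1 ∨ IsConj x g) → f g = 0) →
      (∀ g, IsConj x g → f g = f x) → ∑ g : G, f g = f 1 + (S2.card : ℂ) * f x := by
    intro f hf0 hfx
    have h1 : ∑ g : G, f g = ∑ g ∈ insert 1 S2, f g := by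
      symm
      apply Finset.sum_subset (Finset.subset_univ _)
      intro g _ hg
      apply hf0
      rintro (h | h)
      · exact hg (by rw [h]; exact Finset.mem_insert_self _ _)
      · exact hg (Finset.mem_insert_of_mem (by rw [hS2, Finset.mem_filter]; exact ⟨Finset.mem_univ _, h⟩))
    rw [h1, Finset.sum_insert h1S2]
    congr 1
    have h2 : ∀ g ∈ S2, f g = f x := by
      intro g hg
      rw [hS2, Finset.mem_filter] at hg
      exact hfx g hg.2
    rw [Finset.sum_congr rfl h2, Finset.sum_const, nsmul_eq_mul]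
  -- orthogonality with ψ ≠ χ
  have horth : ∀ ψ : IrrCharacter G, ψ ≠ χ →
      (χ : G → ℂ) 1 * conj ((ψ : G → ℂ) 1) + (S2.card : ℂ) * ((χ : G → ℂ) x * conj ((ψ : G → ℂ) x))
        = 0 := by
    intro ψ hψ
    have h1 := classInner_irr_irr χ ψ
    rw [if_neg (fun h => hψ h.symm)] at h1
    unfold classInner at h1
    have h2 : ∑ g : G, (χ : G → ℂ) g * conj ((ψ : G → ℂ) g) = 0 := by
      rcases mul_eq_zero.mp h1 with h3 | h3
      · exfalso
        have : (Nat.card G : ℂ) ≠ 0 := by exact_mod_cast (Nat.card_pos (α := G)).ne'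
        exact (inv_ne_zero this) h3
      · exact h3
    rw [hsum (fun g => (χ : G → ℂ) g * conj ((ψ : G → ℂ) g))] at h2
    · exact h2
    · intro g hg
      have h3 : (χ : G → ℂ) g = 0 := by
        by_contra h4
        exact hg ((hnz g).mp h4)
      simp only [h3, zero_mul]
    · intro g hg
      obtain ⟨c, hc⟩ := isConj_iff.mp hg
      show (χ : G → ℂ) g * conj ((ψ : G → ℂ) g) = (χ : G → ℂ) x * conj ((ψ : G → ℂ) x)
      rw [← hc, irr_conj, irr_conj]
  -- χ is not the trivial character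
  have htriv : trivChar G ≠ χ := by
    intro h
    have hall : ∀ g : G, g = 1 ∨ IsConj x g := by
      intro g
      apply (hnz g).mp
      rw [← h, trivChar_apply]
      exact one_ne_zero
    have hcard : Fintype.card G = 1 + S2.card := by
      have h1 : (Finset.univ : Finset G) = insert 1 S2 := by
        ext g
        simp only [Finset.mem_univ, Finset.mem_insert, true_iff]
        rcases hall g with h2 | h2
        · exact Or.inl h2
        · exact Or.inr (by rw [hS2, Finset.mem_filter]; exact ⟨Finset.mem_univ _, h2⟩)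
      rw [← Finset.card_univ, h1, Finset.card_insert_of_notMem h1S2]
      ring
    have hidx : (Subgroup.centralizer ({x} : Set G)).index = S2.card := by
      rw [index_centralizer_eq_card_class]
      exact Nat.subtype_card _ (fun g => by rw [hS2]; simp)
    have hmul := (Subgroup.centralizer ({x} : Set G)).card_mul_index
    rw [hidx, Nat.card_eq_fintype_card (α := G), hcard] at hmul
    have hz : 2 ≤ Nat.card (Subgroup.centralizer ({x} : Set G)) := by
      have h1 : x ∈ Subgroup.centralizer ({x} : Set G) :=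
        Subgroup.mem_centralizer_singleton_iff.mpr rfl
      by_contra h2
      have h3 : Nat.card (Subgroup.centralizer ({x} : Set G)) ≤ 1 := by omega
      have h4 := (Finite.card_le_one_iff_subsingleton.mp h3)
      have h5 := h4.elim (⟨x, h1⟩ : Subgroup.centralizer ({x} : Set G)) 1
      exact hx1 (congrArg Subtype.val h5)
    rw [Nat.card_eq_fintype_card, hcard] at hG
    nlinarith
  have hcx : (S2.card : ℂ) * (χ : G → ℂ) x = -(χ : G → ℂ) 1 := by
    have h1 := horth (trivChar G) htriv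
    simp only [trivChar_apply, map_one, mul_one] at h1
    linear_combination h1
  have hc0 : (S2.card : ℂ) ≠ 0 := by exact_mod_cast hcpos.ne'
  have hxne : (χ : G → ℂ) x ≠ (χ : G → ℂ) 1 := by
    intro h
    rw [h] at hcx
    have h1 : ((S2.card : ℂ) + 1) * (χ : G → ℂ) 1 = 0 := by linear_combination hcx
    rcases mul_eq_zero.mp h1 with h2 | h2
    · have h3 : ((S2.card + 1 : ℕ) : ℂ) = 0 := by push_cast; exact h2
      have h4 : S2.card + 1 = 0 := by exact_mod_cast h3
      omega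
    · exact hχ1 h2
  have hker : ∀ ψ : IrrCharacter G, ψ ≠ χ → (ψ : G → ℂ) x = (ψ : G → ℂ) 1 := by
    intro ψ hψ
    have h1 := horth ψ hψ
    have h2 : (χ : G → ℂ) 1 * (conj ((ψ : G → ℂ) 1) - conj ((ψ : G → ℂ) x)) = 0 := by
      linear_combination h1 - conj ((ψ : G → ℂ) x) * hcx
    rcases mul_eq_zero.mp h2 with h3 | h3
    · exact absurd h3 hχ1
    · have h4 : conj ((ψ : G → ℂ) x) = conj ((ψ : G → ℂ) 1) := (sub_eq_zero.mp h3).symm
      exact (starRingEnd ℂ).injective h4
  refine ⟨x, hx1, hnz, hxne, hker, ?_⟩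
  intro g hg1 hg
  have h1 := second_orthogonality g (1 : G)
  rw [if_neg (fun h => hg1 (isConj_one_right.mp h.symm)), inv_one] at h1
  rw [← Finset.add_sum_erase _ _ (Finset.mem_univ χ)] at h1
  have h2 : ∑ ψ ∈ Finset.univ.erase χ, (ψ : G → ℂ) g * (ψ : G → ℂ) 1
      = ((∑ ψ ∈ Finset.univ.erase χ, charDegree (ψ : G → ℂ) ^ 2 : ℕ) : ℂ) := by
    push_cast
    apply Finset.sum_congr rfl
    intro ψ hψ
    rw [hg ψ (Finset.ne_of_mem_erase hψ), char_one_eq_degree (irr_isCharacter ψ)]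
    ring
  have h3 : 0 < ∑ ψ ∈ Finset.univ.erase χ, charDegree (ψ : G → ℂ) ^ 2 := by
    apply Finset.sum_pos'
    · intro ψ _
      exact Nat.zero_le _
    · exact ⟨trivChar G, Finset.mem_erase.mpr ⟨htriv, Finset.mem_univ _⟩,
        by rw [charDegree_trivChar]; norm_num⟩
  rw [h2] at h1
  have h4 : (χ : G → ℂ) g ≠ 0 := by
    intro h5
    rw [h5, zero_mul, zero_add] at h1
    exact h3.ne' (by exact_mod_cast h1)
  rcases (hnz g).mp h4 with h5 | h5
  · exact absurd h5 hg1
  · exact h5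

/-- the nonvanishing set of a Gagola character is the subgroup `gagolaSub χ` -/
theorem gagola_mem_iff [Finite G] (hG : 2 < Nat.card G) (χ : IrrCharacter G)
    (hχ : Nat.card {C : ConjClasses G // ∃ g ∈ C.carrier, (χ : G → ℂ) g ≠ 0} = 2) (g : G) :
    (χ : G → ℂ) g ≠ 0 ↔ g ∈ gagolaSub χ := by
  obtain ⟨x, hx1, hnz, hxne, hker, hconj⟩ := gagola_core hG χ hχ
  rw [hnz g, mem_gagolaSub]
  constructor
  · rintro (h | h) ψ hψ
    · rw [h]
    · obtain ⟨c, hc⟩ := isConj_iff.mp h
      rw [← hc, irr_conj]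
      exact hker ψ hψ
  · intro h
    by_cases h1 : g = 1
    · exact Or.inl h1
    · exact Or.inr (hconj g h1 h)

theorem gagola_faithful [Finite G] (hG : 2 < Nat.card G) (χ : IrrCharacter G)
    (hχ : Nat.card {C : ConjClasses G // ∃ g ∈ C.carrier, (χ : G → ℂ) g ≠ 0} = 2) (g : G)
    (hg : (χ : G → ℂ) g = (χ : G → ℂ) 1) : g = 1 := by
  obtain ⟨x, hx1, hnz, hxne, hker, hconj⟩ := gagola_core hG χ hχ
  have h1 : (χ : G → ℂ) g ≠ 0 := by
    rw [hg]
    exact irr_one_ne_zero χ
  rcases (hnz g).mp h1 with h | h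
  · exact h
  · exfalso
    obtain ⟨c, hc⟩ := isConj_iff.mp h
    rw [← hc, irr_conj] at hg
    exact hxne hg

theorem gagola_unique_faithful [Finite G] (hG : 2 < Nat.card G) (χ : IrrCharacter G)
    (hχ : Nat.card {C : ConjClasses G // ∃ g ∈ C.carrier, (χ : G → ℂ) g ≠ 0} = 2)
    (ψ : IrrCharacter G) (hψ : ∀ g : G, (ψ : G → ℂ) g = (ψ : G → ℂ) 1 → g = 1) : ψ = χ := by
  obtain ⟨x, hx1, hnz, hxne, hker, hconj⟩ := gagola_core hG χ hχ
  by_contra h
  exact hx1 (hψ x (hker ψ h))

theorem gagola_conj [Finite G] (hG : 2 < Nat.card G) (χ : IrrCharacter G)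
    (hχ : Nat.card {C : ConjClasses G // ∃ g ∈ C.carrier, (χ : G → ℂ) g ≠ 0} = 2)
    (a b : G) (ha : a ∈ gagolaSub χ) (hb : b ∈ gagolaSub χ) (ha1 : a ≠ 1) (hb1 : b ≠ 1) :
    ∃ g : G, g * a * g⁻¹ = b := by
  obtain ⟨x, hx1, hnz, hxne, hker, hconj⟩ := gagola_core hG χ hχ
  have h1 := hconj a ha1 ((mem_gagolaSub χ a).mp ha)
  have h2 := hconj b hb1 ((mem_gagolaSub χ b).mp hb)
  exact isConj_iff.mp (h1.symm.trans h2)

theorem gagola_ne_bot [Finite G] (hG : 2 < Nat.card G) (χ : IrrCharacter G)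
    (hχ : Nat.card {C : ConjClasses G // ∃ g ∈ C.carrier, (χ : G → ℂ) g ≠ 0} = 2) :
    gagolaSub χ ≠ ⊥ := by
  obtain ⟨x, hx1, hnz, hxne, hker, hconj⟩ := gagola_core hG χ hχ
  intro h
  have h1 : x ∈ gagolaSub χ := (mem_gagolaSub χ x).mpr hker
  rw [h, Subgroup.mem_bot] at h1
  exact hx1 h1

/-- `gagolaSub χ` is the unique minimal normal subgroup -/
theorem gagola_le [Finite G] (hG : 2 < Nat.card G) (χ : IrrCharacter G)
    (hχ : Nat.card {C : ConjClasses G // ∃ g ∈ C.carrier, (χ : G → ℂ) g ≠ 0} = 2)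
    (K : Subgroup G) [K.Normal] (hK : K ≠ ⊥) : gagolaSub χ ≤ K := by
  classical
  haveI : Fintype G := Fintype.ofFinite G
  obtain ⟨x, hx1, hnz, hxne, hker, hconj⟩ := gagola_core hG χ hχ
  have hxK : x ∈ K := by
    by_contra hxK
    have hvan : ∀ k ∈ K, k ≠ 1 → (χ : G → ℂ) k = 0 := by
      intro k hk hk1
      by_contra h
      rcases (hnz k).mp h with h2 | h2
      · exact hk1 h2
      · obtain ⟨c, hc⟩ := isConj_iff.mp h2
        apply hxK
        have h3 : x = c⁻¹ * k * c⁻¹⁻¹ := by rw [← hc]; group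
        rw [h3]
        exact Subgroup.Normal.conj_mem inferInstance k hk c⁻¹
    have hnle : ¬ K ≤ irrKer χ := by
      intro hle
      apply hK
      rw [eq_bot_iff]
      intro k hk
      rw [Subgroup.mem_bot]
      exact gagola_faithful hG χ hχ k ((mem_irrKer χ k).mp (hle hk))
    have h0 := Cfsg.Agent.Helper26.irr_sum_normal χ K hnle
    rw [Finset.sum_eq_single (1 : G)] at h0
    · rw [if_pos K.one_mem] at h0
      exact irr_one_ne_zero χ h0
    · intro g _ hg
      by_cases hgK : g ∈ K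
      · rw [if_pos hgK]
        exact hvan g hgK hg
      · rw [if_neg hgK]
    · intro h
      exact absurd (Finset.mem_univ _) h
  intro g hg
  by_cases hg1 : g = 1
  · rw [hg1]
    exact K.one_mem
  · have h1 := hconj g hg1 ((mem_gagolaSub χ g).mp hg)
    obtain ⟨c, hc⟩ := isConj_iff.mp h1
    rw [← hc]
    exact Subgroup.Normal.conj_mem inferInstance x hxK c

/-- `gagolaSub χ` is elementary abelian -/
theorem gagola_elementary [Finite G] (hG : 2 < Nat.card G) (χ : IrrCharacter G)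
    (hχ : Nat.card {C : ConjClasses G // ∃ g ∈ C.carrier, (χ : G → ℂ) g ≠ 0} = 2) :
    ∃ p : ℕ, p.Prime ∧ IsElementaryAbelian p (gagolaSub χ) := by
  classical
  obtain ⟨x, hx1, hnz, hxne, hker, hconj⟩ := gagola_core hG χ hχ
  set N := gagolaSub χ with hN
  have hxN : x ∈ N := (mem_gagolaSub χ x).mpr hker
  have ho : orderOf x ≠ 1 := fun h => hx1 (orderOf_eq_one_iff.mp h)
  have ho0 : orderOf x ≠ 0 := (orderOf_pos x).ne'
  set p := (orderOf x).minFac with hp
  have hpp : p.Prime := Nat.minFac_prime ho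
  have hy : orderOf (x ^ (orderOf x / p)) = p :=
    orderOf_pow_orderOf_div ho0 (Nat.minFac_dvd _)
  have hy1 : x ^ (orderOf x / p) ≠ 1 := by
    intro h
    rw [h, orderOf_one] at hy
    exact hpp.one_lt.ne hy
  have hyN : x ^ (orderOf x / p) ∈ N := N.pow_mem hxN _
  have hxy := hconj _ hy1 ((mem_gagolaSub χ _).mp hyN)
  have hox : orderOf x = p := by
    obtain ⟨c, hc⟩ := isConj_iff.mp hxy
    rw [← hy, ← hc]
    exact (orderOf_injective (MulAut.conj c).toMonoidHom (MulAut.conj c).injective x).symm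
  have hexp : ∀ a ∈ N, a ^ p = 1 := by
    intro a ha
    by_cases ha1 : a = 1
    · rw [ha1, one_pow]
    · obtain ⟨c, hc⟩ := isConj_iff.mp (hconj a ha1 ((mem_gagolaSub χ a).mp ha))
      rw [← hc, conj_pow, ← hox, pow_orderOf_eq_one]
      group
  refine ⟨p, hpp, ?_, hexp⟩
  haveI : Fact p.Prime := ⟨hpp⟩
  have hNp : IsPGroup p N := by
    intro a
    refine ⟨1, ?_⟩
    apply Subtype.ext
    rw [pow_one]
    exact hexp a a.2
  haveI : Nontrivial N := by
    refine ⟨⟨⟨x, hxN⟩, 1, ?_⟩⟩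
    intro h
    exact hx1 (congrArg Subtype.val h)
  haveI : Nontrivial (Subgroup.center N) := hNp.center_nontrivial
  obtain ⟨z, hz⟩ := exists_ne (1 : Subgroup.center N)
  set Z : Subgroup G := N ⊓ Subgroup.centralizer (N : Set G) with hZ
  haveI : Z.Normal := by
    rw [hZ]
    infer_instance
  have hZne : Z ≠ ⊥ := by
    intro h
    have h1 : ((z : N) : G) ∈ Z := by
      refine ⟨(z : N).2, ?_⟩
      show ((z : N) : G) ∈ Subgroup.centralizer (N : Set G)
      rw [Subgroup.mem_centralizer_iff]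
      intro n hn
      have h2 := (Subgroup.mem_center_iff.mp z.2) ⟨n, hn⟩
      exact congrArg Subtype.val h2
    rw [h, Subgroup.mem_bot] at h1
    apply hz
    apply Subtype.ext
    apply Subtype.ext
    exact h1
  have hle : N ≤ Z := gagola_le hG χ hχ Z hZne
  refine ⟨⟨?_⟩⟩
  intro a b
  have h1 : (b : G) ∈ Subgroup.centralizer (N : Set G) := (hle b.2).2
  rw [Subgroup.mem_centralizer_iff] at h1
  apply Subtype.ext
  exact h1 a a.2

end Cfsg.Agent.Helper2
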