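import Mathlib
import Cfsg.Agent.Helper1.CharBasic
import Cfsg.Agent.Helper11.CharBound

/-!
# Galois averaging for character values, product and unsquared forms (helper2)

Adapted from `Cfsg.Agent.Helper26.char_galois_sum'` (helper26), keeping the product statement.
-/

set_option autoImplicit false

namespace Cfsg.Agent.Helper2

open Cfsg

/-- nonnegative reals with product at least one have sum at least their number -/
theorem card_le_sum_of_one_le_prod {ι : Type*} [Fintype ι] (x : ι → ℝ) (hx : ∀ i, 0 ≤ x i)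
    (hp : 1 ≤ ∏ i, x i) : (Fintype.card ι : ℝ) ≤ ∑ i, x i := by
  have hpos : ∀ i, 0 < x i := by
    intro i
    rcases (hx i).lt_or_eq with h | h
    · exact h
    · exfalso
      have h0 : ∏ i, x i = 0 := Finset.prod_eq_zero (Finset.mem_univ i) h.symm
      rw [h0] at hp
      linarith
  have h1 : ∀ i, Real.log (x i) ≤ x i - 1 := fun i => Real.log_le_sub_one_of_pos (hpos i)
  have h2 : ∑ i, Real.log (x i) = Real.log (∏ i, x i) :=
    (Real.log_prod (fun i _ => (hpos i).ne')).symm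
  have h4 : 0 ≤ ∑ i, Real.log (x i) := by
    rw [h2]
    exact Real.log_nonneg hp
  have h5 : ∑ i, Real.log (x i) ≤ ∑ i, (x i - 1) := Finset.sum_le_sum (fun i _ => h1 i)
  rw [Finset.sum_sub_distrib] at h5
  simp only [Finset.sum_const, Finset.card_univ, nsmul_eq_mul, mul_one] at h5
  linarith

/-- Burnside's averaging argument, product form, uniformly in the character -/
theorem char_galois_prod (G : Type*) [Group G] [Finite G] :
    ∃ (ι : Type) (_ : Fintype ι) (_ : Nonempty ι) (m : ι → ℕ),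
      (∀ i, Nat.Coprime (Nat.card G) (m i)) ∧
      ∀ χ : G → ℂ, IsCharacter G χ → ∀ g : G, χ g ≠ 0 →
        (1 : ℝ) ≤ ∏ i, ‖χ (g ^ m i)‖ := by
  classical
  have hN : 0 < Nat.card G := Nat.card_pos
  obtain ⟨ζ, hζ⟩ : ∃ ζ : ℂ, IsPrimitiveRoot ζ (Nat.card G) :=
    ⟨_, Complex.isPrimitiveRoot_exp (Nat.card G) hN.ne'⟩
  have hζint : IsIntegral ℚ ζ :=
    IsIntegral.of_pow hN (by rw [hζ.pow_eq_one]; exact isIntegral_one)
  let K : IntermediateField ℚ ℂ := IntermediateField.adjoin ℚ {ζ}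
  have hKfin : FiniteDimensional ℚ K := IntermediateField.adjoin.finiteDimensional hζint
  have hζK : ζ ∈ K := IntermediateField.subset_adjoin ℚ _ rfl
  have hmem : ∀ μ : ℂ, μ ^ Nat.card G = 1 → μ ∈ K := by
    intro μ hμ
    obtain ⟨i, -, rfl⟩ := hζ.eq_pow_of_pow_eq_one hμ
    exact pow_mem hζK i
  have hσ : ∀ σ : K →ₐ[ℚ] ℂ, ∃ m : ℕ, Nat.Coprime (Nat.card G) m ∧
      ∀ (μ : ℂ) (hμ : μ ^ Nat.card G = 1), σ ⟨μ, hmem μ hμ⟩ = μ ^ m := by
    intro σ
    have h1 : IsPrimitiveRoot (⟨ζ, hζK⟩ : K) (Nat.card G) :=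
      IsPrimitiveRoot.of_map_of_injective (f := (algebraMap K ℂ)) hζ (algebraMap K ℂ).injective
    have h2 : IsPrimitiveRoot (σ ⟨ζ, hζK⟩) (Nat.card G) :=
      h1.map_of_injective σ.toRingHom.injective
    obtain ⟨m, -, hm⟩ := hζ.eq_pow_of_pow_eq_one h2.pow_eq_one
    refine ⟨m, ?_, fun μ hμ => ?_⟩
    · rw [← hm] at h2
      exact ((hζ.pow_iff_coprime hN m).mp h2).symm
    · obtain ⟨i, -, rfl⟩ := hζ.eq_pow_of_pow_eq_one hμ
      have h3 : (⟨ζ ^ i, hmem (ζ ^ i) hμ⟩ : K) = (⟨ζ, hζK⟩ : K) ^ i := Subtype.ext rfl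
      rw [h3, map_pow, ← hm, ← pow_mul, ← pow_mul, mul_comm]
  choose m hm1 hm2 using hσ
  refine ⟨K →ₐ[ℚ] ℂ, inferInstance, ⟨(algebraMap K ℂ).toRatAlgHom⟩, m, hm1, ?_⟩
  rintro _ ⟨k, ρ, rfl⟩ g hg
  obtain ⟨b, μ, hμ, -, hb, -, hc, -⟩ := Cfsg.Agent.Helper1.exists_eigenbasis ρ g
  have hpow : ∀ n : ℕ, ρ.character (g ^ n) = ∑ i, (μ i) ^ n := by
    intro n
    have hb' : ∀ i, ρ (g ^ n) (b i) = (μ i) ^ n • b i := by
      intro i
      rw [map_pow]
      exact Cfsg.Agent.Helper1.pow_apply_of_apply_eq_smul (ρ g) (b i) (μ i) (hb i) n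
    exact Cfsg.Agent.Helper1.trace_eq_sum_of_eigenbasis b (ρ (g ^ n)) (fun i => (μ i) ^ n) hb'
  let a : K := ∑ i, ⟨μ i, hmem (μ i) (hμ i)⟩
  have ha : (a : ℂ) = ρ.character g := by
    rw [hc]
    simp [a]
  have hσa : ∀ σ : K →ₐ[ℚ] ℂ, σ a = ρ.character (g ^ m σ) := by
    intro σ
    rw [hpow, map_sum]
    exact Finset.sum_congr rfl (fun i _ => hm2 σ (μ i) (hμ i))
  have ha0 : a ≠ 0 := by
    intro h
    apply hg
    rw [← ha, h]
    rfl
  have haint : IsIntegral ℤ a := by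
    apply IsIntegral.sum
    intro i _
    apply IsIntegral.of_pow hN
    have : (⟨μ i, hmem (μ i) (hμ i)⟩ : K) ^ Nat.card G = 1 := Subtype.ext (by simp [hμ i])
    rw [this]
    exact isIntegral_one
  have hnorm_int : IsIntegral ℤ (Algebra.norm ℚ a) := Algebra.isIntegral_norm ℚ haint
  obtain ⟨z, hz⟩ := IsIntegrallyClosed.isIntegral_iff.mp hnorm_int
  have hz0 : z ≠ 0 := by
    intro h
    rw [h] at hz
    simp only [algebraMap_int_eq, eq_intCast, Int.cast_zero] at hz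
    exact ha0 (Algebra.norm_eq_zero_iff.mp hz.symm)
  have hprod := Algebra.norm_eq_prod_embeddings ℚ ℂ a
  have h1 : ‖algebraMap ℚ ℂ (Algebra.norm ℚ a)‖ = ‖(z : ℂ)‖ := by
    rw [← hz]; simp
  have h2 : (1 : ℝ) ≤ ‖(z : ℂ)‖ := by
    rw [Complex.norm_intCast]
    exact_mod_cast Int.one_le_abs hz0
  rw [← h1, hprod, norm_prod] at h2
  refine h2.trans (le_of_eq ?_)
  exact Finset.prod_congr rfl (fun σ _ => by rw [hσa σ])

/-- Burnside's averaging argument, unsquared form, uniformly in the character -/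
theorem char_galois_sum_norm (G : Type*) [Group G] [Finite G] :
    ∃ (ι : Type) (_ : Fintype ι) (_ : Nonempty ι) (m : ι → ℕ),
      (∀ i, Nat.Coprime (Nat.card G) (m i)) ∧
      ∀ χ : G → ℂ, IsCharacter G χ → ∀ g : G, χ g ≠ 0 →
        (Fintype.card ι : ℝ) ≤ ∑ i, ‖χ (g ^ m i)‖ := by
  obtain ⟨ι, hι, hne, m, hm, h⟩ := char_galois_prod G
  refine ⟨ι, hι, hne, m, hm, fun χ hχ g hg => ?_⟩
  exact card_le_sum_of_one_le_prod (fun i => ‖χ (g ^ m i)‖) (fun i => norm_nonneg _) (h χ hχ g hg)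

end Cfsg.Agent.Helper2
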