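import Mathlib

namespace Cfsg.Agent.Helper2

open Finset

/-- number of solutions of `x ^ n = 1`. -/
noncomputable def otF (G : Type) [Group G] (n : ℕ) : ℕ := Nat.card {g : G // g ^ n = 1}

theorem otF_prod (A B : Type) [Group A] [Group B] (n : ℕ) :
    otF (A × B) n = otF A n * otF B n := by
  unfold otF
  rw [← Nat.card_prod]
  apply Nat.card_congr
  exact
    { toFun := fun p => (⟨p.1.1, (Prod.ext_iff.mp p.2).1⟩, ⟨p.1.2, (Prod.ext_iff.mp p.2).2⟩)
      invFun := fun q => ⟨(q.1.1, q.2.1), Prod.ext q.1.2 q.2.2⟩
      left_inv := fun p => rfl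
      right_inv := fun q => rfl }

theorem otF_pi (ι : Type) [Finite ι] (A : Type) [Group A] (n : ℕ) :
    otF (ι → A) n = otF A n ^ Nat.card ι := by
  unfold otF
  rw [← Nat.card_fun]
  apply Nat.card_congr
  exact
    { toFun := fun p => fun i => ⟨p.1 i, congrFun p.2 i⟩
      invFun := fun q => ⟨fun i => (q i).1, funext fun i => (q i).2⟩
      left_inv := fun p => rfl
      right_inv := fun q => rfl }

theorem otF_gcd (G : Type) [Group G] (e : ℕ) (he : ∀ g : G, g ^ e = 1) (n : ℕ) :
    otF G n = otF G (Nat.gcd n e) := by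
  unfold otF
  apply Nat.card_congr
  apply Equiv.subtypeEquivRight
  intro g
  constructor
  · intro h
    exact pow_gcd_eq_one.mpr ⟨h, he g⟩
  · intro h
    exact (pow_gcd_eq_one.mp h).1

theorem ot_of_otF (G H : Type) [Group G] [Group H] [Finite G] [Finite H]
    (h : ∀ n, otF G n = otF H n) (n : ℕ) :
    Nat.card {g : G // orderOf g = n} = Nat.card {g : H // orderOf g = n} := by
  classical
  haveI := Fintype.ofFinite G
  haveI := Fintype.ofFinite H
  induction n using Nat.strong_induction_on with
  | _ n ih =>
    rcases Nat.eq_zero_or_pos n with rfl | hn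
    · haveI h1 : IsEmpty {g : G // orderOf g = 0} := ⟨fun g => (orderOf_pos g.1).ne' g.2⟩
      haveI h2 : IsEmpty {g : H // orderOf g = 0} := ⟨fun g => (orderOf_pos g.1).ne' g.2⟩
      rw [Nat.card_of_isEmpty, Nat.card_of_isEmpty]
    · have key : ∀ (K : Type) [Group K] [Fintype K],
          otF K n = ∑ d ∈ n.divisors, Nat.card {g : K // orderOf g = d} := by
        intro K _ _
        unfold otF
        rw [Nat.card_eq_fintype_card, Fintype.card_subtype]
        rw [Finset.card_eq_sum_card_fiberwise (f := fun g : K => orderOf g) (t := n.divisors)]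
        · apply Finset.sum_congr rfl
          intro d hd
          rw [Nat.card_eq_fintype_card, Fintype.card_subtype]
          congr 1
          ext g
          simp only [Finset.mem_filter, Finset.mem_univ, true_and]
          constructor
          · exact fun h => h.2
          · intro h
            refine ⟨?_, h⟩
            have hd' := Nat.dvd_of_mem_divisors hd
            rw [← h] at hd'
            exact orderOf_dvd_iff_pow_eq_one.mp hd'
        · intro g hg
          have hg' : g ^ n = 1 := by simpa using hg
          exact Finset.mem_coe.mpr (Nat.mem_divisors.mpr ⟨orderOf_dvd_of_pow_eq_one hg', hn.ne'⟩)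
      have e1 := key G
      have e2 := key H
      rw [h n, e2] at e1
      rw [← Nat.insert_self_properDivisors hn.ne',
        Finset.sum_insert Nat.self_notMem_properDivisors,
        Finset.sum_insert Nat.self_notMem_properDivisors] at e1
      have e3 : ∑ d ∈ n.properDivisors, Nat.card {g : G // orderOf g = d}
          = ∑ d ∈ n.properDivisors, Nat.card {g : H // orderOf g = d} :=
        Finset.sum_congr rfl (fun d hd => ih d (Nat.mem_properDivisors.mp hd).2)
      omega

theorem ot_bound (L : Type) [Group L] [Finite L] (p m u : ℕ) [Fact p.Prime]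
    (hp : p ∣ Nat.card (Abelianization L)) (hum : (u * m) % p = 1) :
    otF L m * p ≤ Nat.card L := by
  classical
  let ψ : L →* Abelianization L := (powMonoidHom m).comp Abelianization.of
  obtain ⟨a, ha⟩ := exists_prime_orderOf_dvd_card' p hp
  obtain ⟨g, rfl⟩ := QuotientGroup.mk_surjective a
  have hap : (Abelianization.of g) ^ p = 1 := by
    have := pow_orderOf_eq_one (Abelianization.of g)
    rwa [show orderOf (Abelianization.of g) = p from ha] at this
  have hmem : Abelianization.of g ∈ ψ.range := by
    refine ⟨g ^ u, ?_⟩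
    show (Abelianization.of (g ^ u)) ^ m = _
    rw [map_pow, ← pow_mul, pow_eq_pow_mod (u * m) hap, hum, pow_one]
  have hpr : p ∣ Nat.card ψ.range := by
    have := orderOf_dvd_natCard (⟨_, hmem⟩ : ψ.range)
    rwa [Subgroup.orderOf_mk, show orderOf (Abelianization.of g) = p from ha] at this
  have hcard : Nat.card ψ.ker * Nat.card ψ.range = Nat.card L := by
    rw [← Subgroup.index_ker]; exact Subgroup.card_mul_index _
  have hle : otF L m ≤ Nat.card ψ.ker := by
    unfold otF
    apply Nat.card_le_card_of_injective
      (fun x : {g : L // g ^ m = 1} => (⟨x.1, by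
        rw [MonoidHom.mem_ker]
        show (Abelianization.of x.1) ^ m = 1
        rw [← map_pow, x.2, map_one]⟩ : ψ.ker))
    intro x y h
    exact Subtype.ext (congrArg (fun z : ψ.ker => z.1) h)
  have h3 : p ≤ Nat.card ψ.range := Nat.le_of_dvd Nat.card_pos hpr
  calc otF L m * p ≤ Nat.card ψ.ker * Nat.card ψ.range := Nat.mul_le_mul hle h3
    _ = Nat.card L := hcard

theorem ot_not_solvable (L : Type) [Group L] [Finite L] (hc : Nat.card L = 168)
    (h21 : otF L 21 = 105) (h28 : otF L 28 = 112) (h12 : otF L 12 = 120) :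
    ¬ Group.IsSolvable L := by
  intro hs
  haveI : Nontrivial L := Finite.one_lt_card_iff_nontrivial.mp (by rw [hc]; norm_num)
  have hlt := Group.IsSolvable.commutator_lt_top_of_nontrivial L
  have hidx : Nat.card (Abelianization L) ≠ 1 := by
    intro h1
    have h2 : (commutator L).index = 1 := h1
    exact hlt.ne (Subgroup.index_eq_one.mp h2)
  obtain ⟨p, hp, hpd⟩ := Nat.exists_prime_and_dvd hidx
  haveI := Fact.mk hp
  have hdiv : Nat.card (Abelianization L) ∣ 168 := by
    rw [← hc]; exact Subgroup.card_quotient_dvd_card (commutator L)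
  have hp168 : p ∣ 2 * 2 * 2 * 3 * 7 := hpd.trans hdiv
  have hp' : p = 2 ∨ p = 3 ∨ p = 7 := by
    rcases (Nat.Prime.dvd_mul hp).mp hp168 with h | h
    · rcases (Nat.Prime.dvd_mul hp).mp h with h | h
      · left
        rcases (Nat.Prime.dvd_mul hp).mp h with h | h
        · rcases (Nat.Prime.dvd_mul hp).mp h with h | h
          · exact (Nat.prime_dvd_prime_iff_eq hp Nat.prime_two).mp h
          · exact (Nat.prime_dvd_prime_iff_eq hp Nat.prime_two).mp h
        · exact (Nat.prime_dvd_prime_iff_eq hp Nat.prime_two).mp h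
      · right; left
        exact (Nat.prime_dvd_prime_iff_eq hp Nat.prime_three).mp h
    · right; right
      exact (Nat.prime_dvd_prime_iff_eq hp (by norm_num)).mp h
  rcases hp' with rfl | rfl | rfl
  · have := ot_bound L 2 21 1 hpd (by norm_num)
    rw [h21, hc] at this; omega
  · have := ot_bound L 3 28 1 hpd (by norm_num)
    rw [h28, hc] at this; omega
  · have := ot_bound L 7 12 3 hpd (by norm_num)
    rw [h12, hc] at this; omega

instance otPiSolvable (ι : Type) (A : Type) [Group A] [Group.IsSolvable A] :
    Group.IsSolvable (ι → A) := by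
  obtain ⟨n, hn⟩ := Group.IsSolvable.solvable (G := A)
  refine ⟨⟨n, ?_⟩⟩
  rw [eq_bot_iff]
  intro x hx
  rw [Subgroup.mem_bot]
  funext i
  have h1 : (Pi.evalMonoidHom (fun _ : ι => A) i) x ∈ derivedSeries A n :=
    map_derivedSeries_le_derivedSeries (Pi.evalMonoidHom (fun _ : ι => A) i) n
      (Subgroup.mem_map_of_mem _ hx)
  rw [hn] at h1
  exact Subgroup.mem_bot.mp h1

end Cfsg.Agent.Helper2
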