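import Cfsg.Agent.Helper2.OTSD

namespace Cfsg.Agent.Helper2

/-- multiplication table of the field with 4 elements. -/
def otMT4 : ℕ := 0x9c78e400

/-- the field with 4 elements, table coded. -/
@[ext] structure OtF4 where
  v : Fin 4
deriving DecidableEq

namespace OtF4

def addN (a b : ℕ) : ℕ := (a ^^^ b) % 4

def mulN (a b : ℕ) : ℕ := ((otMT4 >>> (2 * (4 * a + b))) &&& 3) % 4

set_option maxRecDepth 100000 in
theorem addN_assoc : ∀ a < 4, ∀ b < 4, ∀ c < 4, addN (addN a b) c = addN a (addN b c) := by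
  decide +kernel

theorem addN_zero : ∀ a < 4, addN 0 a = a ∧ addN a 0 = a ∧ addN a a = 0 := by decide +kernel

theorem addN_comm : ∀ a < 4, ∀ b < 4, addN a b = addN b a := by decide +kernel

set_option maxRecDepth 100000 in
theorem mulN_assoc : ∀ a < 4, ∀ b < 4, ∀ c < 4, mulN (mulN a b) c = mulN a (mulN b c) := by
  decide +kernel

theorem mulN_one : ∀ a < 4, mulN 1 a = a ∧ mulN a 1 = a ∧ mulN 0 a = 0 ∧ mulN a 0 = 0 := by
  decide +kernel

theorem mulN_comm : ∀ a < 4, ∀ b < 4, mulN a b = mulN b a := by decide +kernel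

set_option maxRecDepth 100000 in
theorem mulN_distrib : ∀ a < 4, ∀ b < 4, ∀ c < 4,
    mulN a (addN b c) = addN (mulN a b) (mulN a c) ∧
    mulN (addN a b) c = addN (mulN a c) (mulN b c) := by
  decide +kernel

instance : Add OtF4 := ⟨fun a b => ⟨⟨addN a.v.val b.v.val, Nat.mod_lt _ (by norm_num)⟩⟩⟩
instance : Mul OtF4 := ⟨fun a b => ⟨⟨mulN a.v.val b.v.val, Nat.mod_lt _ (by norm_num)⟩⟩⟩
instance : Zero OtF4 := ⟨⟨0⟩⟩
instance : One OtF4 := ⟨⟨1⟩⟩
instance : Neg OtF4 := ⟨fun a => a⟩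

instance : CommRing OtF4 where
  add := (· + ·)
  add_assoc a b c := OtF4.ext (Fin.ext (addN_assoc _ a.v.isLt _ b.v.isLt _ c.v.isLt))
  zero := 0
  zero_add a := OtF4.ext (Fin.ext (addN_zero _ a.v.isLt).1)
  add_zero a := OtF4.ext (Fin.ext (addN_zero _ a.v.isLt).2.1)
  nsmul := nsmulRec
  neg := fun a => a
  zsmul := zsmulRec
  neg_add_cancel a := OtF4.ext (Fin.ext (addN_zero _ a.v.isLt).2.2)
  add_comm a b := OtF4.ext (Fin.ext (addN_comm _ a.v.isLt _ b.v.isLt))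
  mul := (· * ·)
  left_distrib a b c := OtF4.ext (Fin.ext (mulN_distrib _ a.v.isLt _ b.v.isLt _ c.v.isLt).1)
  right_distrib a b c := OtF4.ext (Fin.ext (mulN_distrib _ a.v.isLt _ b.v.isLt _ c.v.isLt).2)
  zero_mul a := OtF4.ext (Fin.ext (mulN_one _ a.v.isLt).2.2.1)
  mul_zero a := OtF4.ext (Fin.ext (mulN_one _ a.v.isLt).2.2.2)
  mul_assoc a b c := OtF4.ext (Fin.ext (mulN_assoc _ a.v.isLt _ b.v.isLt _ c.v.isLt))
  one := 1
  one_mul a := OtF4.ext (Fin.ext (mulN_one _ a.v.isLt).1)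
  mul_one a := OtF4.ext (Fin.ext (mulN_one _ a.v.isLt).2.1)
  mul_comm a b := OtF4.ext (Fin.ext (mulN_comm _ a.v.isLt _ b.v.isLt))

instance : Fintype OtF4 :=
  Fintype.ofEquiv (Fin 4) ⟨fun v => ⟨v⟩, fun a => a.v, fun _ => rfl, fun _ => rfl⟩

instance : OtZC OtF4 := otZCbrute _

end OtF4

/-- multiplication table of the field with 8 elements. -/
def otMT8 : ℕ := 0x73157889d3f0cfa868356ee0467b98bcbd10fac688000000

/-- the field with 8 elements, table coded. -/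
@[ext] structure OtF8 where
  v : Fin 8
deriving DecidableEq

namespace OtF8

def addN (a b : ℕ) : ℕ := (a ^^^ b) % 8

def mulN (a b : ℕ) : ℕ := ((otMT8 >>> (3 * (8 * a + b))) &&& 7) % 8

set_option maxRecDepth 100000 in
theorem addN_assoc : ∀ a < 8, ∀ b < 8, ∀ c < 8, addN (addN a b) c = addN a (addN b c) := by
  decide +kernel

theorem addN_zero : ∀ a < 8, addN 0 a = a ∧ addN a 0 = a ∧ addN a a = 0 := by decide +kernel

theorem addN_comm : ∀ a < 8, ∀ b < 8, addN a b = addN b a := by decide +kernel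

set_option maxRecDepth 100000 in
theorem mulN_assoc : ∀ a < 8, ∀ b < 8, ∀ c < 8, mulN (mulN a b) c = mulN a (mulN b c) := by
  decide +kernel

theorem mulN_one : ∀ a < 8, mulN 1 a = a ∧ mulN a 1 = a ∧ mulN 0 a = 0 ∧ mulN a 0 = 0 := by
  decide +kernel

theorem mulN_comm : ∀ a < 8, ∀ b < 8, mulN a b = mulN b a := by decide +kernel

set_option maxRecDepth 100000 in
theorem mulN_distrib : ∀ a < 8, ∀ b < 8, ∀ c < 8,
    mulN a (addN b c) = addN (mulN a b) (mulN a c) ∧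
    mulN (addN a b) c = addN (mulN a c) (mulN b c) := by
  decide +kernel

instance : Add OtF8 := ⟨fun a b => ⟨⟨addN a.v.val b.v.val, Nat.mod_lt _ (by norm_num)⟩⟩⟩
instance : Mul OtF8 := ⟨fun a b => ⟨⟨mulN a.v.val b.v.val, Nat.mod_lt _ (by norm_num)⟩⟩⟩
instance : Zero OtF8 := ⟨⟨0⟩⟩
instance : One OtF8 := ⟨⟨1⟩⟩
instance : Neg OtF8 := ⟨fun a => a⟩

instance : CommRing OtF8 where
  add := (· + ·)
  add_assoc a b c := OtF8.ext (Fin.ext (addN_assoc _ a.v.isLt _ b.v.isLt _ c.v.isLt))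
  zero := 0
  zero_add a := OtF8.ext (Fin.ext (addN_zero _ a.v.isLt).1)
  add_zero a := OtF8.ext (Fin.ext (addN_zero _ a.v.isLt).2.1)
  nsmul := nsmulRec
  neg := fun a => a
  zsmul := zsmulRec
  neg_add_cancel a := OtF8.ext (Fin.ext (addN_zero _ a.v.isLt).2.2)
  add_comm a b := OtF8.ext (Fin.ext (addN_comm _ a.v.isLt _ b.v.isLt))
  mul := (· * ·)
  left_distrib a b c := OtF8.ext (Fin.ext (mulN_distrib _ a.v.isLt _ b.v.isLt _ c.v.isLt).1)
  right_distrib a b c := OtF8.ext (Fin.ext (mulN_distrib _ a.v.isLt _ b.v.isLt _ c.v.isLt).2)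
  zero_mul a := OtF8.ext (Fin.ext (mulN_one _ a.v.isLt).2.2.1)
  mul_zero a := OtF8.ext (Fin.ext (mulN_one _ a.v.isLt).2.2.2)
  mul_assoc a b c := OtF8.ext (Fin.ext (mulN_assoc _ a.v.isLt _ b.v.isLt _ c.v.isLt))
  one := 1
  one_mul a := OtF8.ext (Fin.ext (mulN_one _ a.v.isLt).1)
  mul_one a := OtF8.ext (Fin.ext (mulN_one _ a.v.isLt).2.1)
  mul_comm a b := OtF8.ext (Fin.ext (mulN_comm _ a.v.isLt _ b.v.isLt))

instance : Fintype OtF8 :=
  Fintype.ofEquiv (Fin 8) ⟨fun v => ⟨v⟩, fun a => a.v, fun _ => rfl, fun _ => rfl⟩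

instance : OtZC OtF8 := otZCbrute _

end OtF8

/-- adjoin a root of `X^2 + X + 1` to a commutative ring. -/
@[ext] structure OtQ2 (R : Type) where
  x : R
  y : R
deriving DecidableEq

namespace OtQ2

variable {R : Type} [CommRing R]

instance : Add (OtQ2 R) := ⟨fun a b => ⟨a.x + b.x, a.y + b.y⟩⟩
instance : Mul (OtQ2 R) :=
  ⟨fun a b => ⟨a.x * b.x - a.y * b.y, a.x * b.y + a.y * b.x - a.y * b.y⟩⟩
instance : Zero (OtQ2 R) := ⟨⟨0, 0⟩⟩
instance : One (OtQ2 R) := ⟨⟨1, 0⟩⟩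
instance : Neg (OtQ2 R) := ⟨fun a => ⟨-a.x, -a.y⟩⟩

theorem add_x (a b : OtQ2 R) : (a + b).x = a.x + b.x := rfl
theorem add_y (a b : OtQ2 R) : (a + b).y = a.y + b.y := rfl
theorem mul_x (a b : OtQ2 R) : (a * b).x = a.x * b.x - a.y * b.y := rfl
theorem mul_y (a b : OtQ2 R) : (a * b).y = a.x * b.y + a.y * b.x - a.y * b.y := rfl
theorem zero_x : (0 : OtQ2 R).x = 0 := rfl
theorem zero_y : (0 : OtQ2 R).y = 0 := rfl
theorem one_x : (1 : OtQ2 R).x = 1 := rfl
theorem one_y : (1 : OtQ2 R).y = 0 := rfl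
theorem neg_x (a : OtQ2 R) : (-a).x = -a.x := rfl
theorem neg_y (a : OtQ2 R) : (-a).y = -a.y := rfl

theorem q_add_assoc (a b c : OtQ2 R) : a + b + c = a + (b + c) := by
  refine OtQ2.ext ?_ ?_ <;> simp only [add_x, add_y] <;> ring
theorem q_zero_add (a : OtQ2 R) : 0 + a = a := by
  refine OtQ2.ext ?_ ?_ <;> simp only [add_x, add_y, zero_x, zero_y] <;> ring
theorem q_add_zero (a : OtQ2 R) : a + 0 = a := by
  refine OtQ2.ext ?_ ?_ <;> simp only [add_x, add_y, zero_x, zero_y] <;> ring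
theorem q_neg_add (a : OtQ2 R) : -a + a = 0 := by
  refine OtQ2.ext ?_ ?_ <;> simp only [add_x, add_y, neg_x, neg_y, zero_x, zero_y] <;> ring
theorem q_add_comm (a b : OtQ2 R) : a + b = b + a := by
  refine OtQ2.ext ?_ ?_ <;> simp only [add_x, add_y] <;> ring
theorem q_left_distrib (a b c : OtQ2 R) : a * (b + c) = a * b + a * c := by
  refine OtQ2.ext ?_ ?_ <;> simp only [mul_x, mul_y, add_x, add_y] <;> ring
theorem q_right_distrib (a b c : OtQ2 R) : (a + b) * c = a * c + b * c := by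
  refine OtQ2.ext ?_ ?_ <;> simp only [mul_x, mul_y, add_x, add_y] <;> ring
theorem q_zero_mul (a : OtQ2 R) : 0 * a = 0 := by
  refine OtQ2.ext ?_ ?_ <;> simp only [mul_x, mul_y, zero_x, zero_y] <;> ring
theorem q_mul_zero (a : OtQ2 R) : a * 0 = 0 := by
  refine OtQ2.ext ?_ ?_ <;> simp only [mul_x, mul_y, zero_x, zero_y] <;> ring
theorem q_mul_assoc (a b c : OtQ2 R) : a * b * c = a * (b * c) := by
  refine OtQ2.ext ?_ ?_ <;> simp only [mul_x, mul_y] <;> ring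
theorem q_one_mul (a : OtQ2 R) : 1 * a = a := by
  refine OtQ2.ext ?_ ?_ <;> simp only [mul_x, mul_y, one_x, one_y] <;> ring
theorem q_mul_one (a : OtQ2 R) : a * 1 = a := by
  refine OtQ2.ext ?_ ?_ <;> simp only [mul_x, mul_y, one_x, one_y] <;> ring
theorem q_mul_comm (a b : OtQ2 R) : a * b = b * a := by
  refine OtQ2.ext ?_ ?_ <;> simp only [mul_x, mul_y] <;> ring

instance : CommRing (OtQ2 R) where
  add := (· + ·)
  add_assoc := q_add_assoc
  zero := 0
  zero_add := q_zero_add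
  add_zero := q_add_zero
  nsmul := nsmulRec
  neg := Neg.neg
  zsmul := zsmulRec
  neg_add_cancel := q_neg_add
  add_comm := q_add_comm
  mul := (· * ·)
  left_distrib := q_left_distrib
  right_distrib := q_right_distrib
  zero_mul := q_zero_mul
  mul_zero := q_mul_zero
  mul_assoc := q_mul_assoc
  one := 1
  one_mul := q_one_mul
  mul_one := q_mul_one
  mul_comm := q_mul_comm

instance [Fintype R] : Fintype (OtQ2 R) :=
  Fintype.ofEquiv (R × R) ⟨fun p => ⟨p.1, p.2⟩, fun a => (a.x, a.y), fun _ => rfl, fun _ => rfl⟩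

end OtQ2

instance otZC64 : OtZC (OtQ2 OtF8) := otZCbrute _


instance otZC1 : OtZC (ZMod 1) := otZCbrute _
instance otZC3 : OtZC (ZMod 3) := otZCbrute _
instance otZC4 : OtZC (ZMod 4) := otZCbrute _
instance otZC7 : OtZC (ZMod 7) := otZCbrute _

end Cfsg.Agent.Helper2
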