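import Cfsg.Agent.Helper2.OTCore

namespace Cfsg.Agent.Helper2

open Finset

/-- geometric sum `1 + v + ... + v^(n-1)` by Horner. -/
def otGs {R : Type} [CommRing R] (v : R) : ℕ → R
  | 0 => 0
  | n + 1 => 1 + v * otGs v n

/-- the action character. -/
def otLam (k1 k2 : ℕ) {R : Type} [CommRing R] (w1 w2 : R) (c : ZMod k1 × ZMod k2) : R :=
  w1 ^ c.1.val * w2 ^ c.2.val

/-- The semidirect product `R ⋊ (ZMod k1 × ZMod k2)`. -/
@[ext] structure OtSD (k1 k2 : ℕ) (R : Type) (w1 w2 : R) where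
  a : R
  c : ZMod k1 × ZMod k2

section
variable {k1 k2 : ℕ} [NeZero k1] [NeZero k2] {R : Type} [CommRing R] {w1 w2 : R}

theorem otLam_zero : otLam k1 k2 w1 w2 0 = 1 := by
  simp [otLam]

theorem otLam_add [Fact (w1 ^ k1 = 1)] [Fact (w2 ^ k2 = 1)] (c d : ZMod k1 × ZMod k2) :
    otLam k1 k2 w1 w2 (c + d) = otLam k1 k2 w1 w2 c * otLam k1 k2 w1 w2 d := by
  unfold otLam
  have h1 : w1 ^ (c.1 + d.1).val = w1 ^ c.1.val * w1 ^ d.1.val := by
    rw [ZMod.val_add, ← pow_add, ← pow_eq_pow_mod _ (Fact.out : w1 ^ k1 = 1)]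
  have h2 : w2 ^ (c.2 + d.2).val = w2 ^ c.2.val * w2 ^ d.2.val := by
    rw [ZMod.val_add, ← pow_add, ← pow_eq_pow_mod _ (Fact.out : w2 ^ k2 = 1)]
  rw [Prod.fst_add, Prod.snd_add, h1, h2]
  ring

instance otSDMul : Mul (OtSD k1 k2 R w1 w2) :=
  ⟨fun x y => ⟨x.a + otLam k1 k2 w1 w2 x.c * y.a, x.c + y.c⟩⟩

instance otSDOne : One (OtSD k1 k2 R w1 w2) := ⟨⟨0, 0⟩⟩

instance otSDInv : Inv (OtSD k1 k2 R w1 w2) :=
  ⟨fun x => ⟨-(otLam k1 k2 w1 w2 (-x.c) * x.a), -x.c⟩⟩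

theorem otSD_mul_a (x y : OtSD k1 k2 R w1 w2) :
    (x * y).a = x.a + otLam k1 k2 w1 w2 x.c * y.a := rfl

theorem otSD_mul_c (x y : OtSD k1 k2 R w1 w2) : (x * y).c = x.c + y.c := rfl

theorem otSD_one_a : (1 : OtSD k1 k2 R w1 w2).a = 0 := rfl

theorem otSD_one_c : (1 : OtSD k1 k2 R w1 w2).c = 0 := rfl

theorem otSD_inv_a (x : OtSD k1 k2 R w1 w2) :
    (x⁻¹).a = -(otLam k1 k2 w1 w2 (-x.c) * x.a) := rfl

theorem otSD_inv_c (x : OtSD k1 k2 R w1 w2) : (x⁻¹).c = -x.c := rfl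

instance otSDGroup [Fact (w1 ^ k1 = 1)] [Fact (w2 ^ k2 = 1)] : Group (OtSD k1 k2 R w1 w2) :=
  Group.ofLeftAxioms
    (by
      intro x y z
      refine OtSD.ext ?_ ?_
      · rw [otSD_mul_a, otSD_mul_a, otSD_mul_a, otSD_mul_a, otSD_mul_c, otLam_add]
        ring
      · rw [otSD_mul_c, otSD_mul_c, otSD_mul_c, otSD_mul_c, add_assoc])
    (by
      intro x
      refine OtSD.ext ?_ ?_
      · rw [otSD_mul_a, otSD_one_a, otSD_one_c, otLam_zero]
        ring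
      · rw [otSD_mul_c, otSD_one_c, zero_add])
    (by
      intro x
      refine OtSD.ext ?_ ?_
      · rw [otSD_mul_a, otSD_inv_a, otSD_inv_c, otSD_one_a]
        ring
      · rw [otSD_mul_c, otSD_inv_c, otSD_one_c, neg_add_cancel])

variable [Fact (w1 ^ k1 = 1)] [Fact (w2 ^ k2 = 1)]

theorem otSD_pow (x : OtSD k1 k2 R w1 w2) (n : ℕ) :
    (x ^ n).a = otGs (otLam k1 k2 w1 w2 x.c) n * x.a ∧ (x ^ n).c = n • x.c := by
  induction n with
  | zero =>
    rw [pow_zero]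
    constructor
    · rw [otSD_one_a]; simp [otGs]
    · rw [otSD_one_c]; simp
  | succ n ih =>
    rw [pow_succ']
    constructor
    · rw [otSD_mul_a, ih.1]
      simp only [otGs]
      ring
    · rw [otSD_mul_c, ih.2, succ_nsmul']

theorem otSD_pow_eq_one_iff (x : OtSD k1 k2 R w1 w2) (n : ℕ) :
    x ^ n = 1 ↔ (((n : ZMod k1) * x.c.1 = 0 ∧ (n : ZMod k2) * x.c.2 = 0) ∧
      otGs (otLam k1 k2 w1 w2 x.c) n * x.a = 0) := by
  rw [OtSD.ext_iff, (otSD_pow x n).1, (otSD_pow x n).2, otSD_one_a, otSD_one_c]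
  rw [Prod.ext_iff]
  simp only [Prod.smul_fst, Prod.smul_snd, Prod.fst_zero, Prod.snd_zero, nsmul_eq_mul, Prod.fst_mul, Prod.snd_mul]
  tauto

/-- the equivalence with the underlying product. -/
def otSDEquiv : OtSD k1 k2 R w1 w2 ≃ (ZMod k1 × ZMod k2) × R where
  toFun x := (x.c, x.a)
  invFun p := ⟨p.2, p.1⟩
  left_inv _ := rfl
  right_inv _ := rfl

instance otSDFinite [Finite R] : Finite (OtSD k1 k2 R w1 w2) :=
  Finite.of_equiv _ (otSDEquiv (k1 := k1) (k2 := k2) (R := R) (w1 := w1) (w2 := w2)).symm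

instance otSDSolvable : Group.IsSolvable (OtSD k1 k2 R w1 w2) := by
  let f : Multiplicative R →* OtSD k1 k2 R w1 w2 :=
    { toFun := fun a => ⟨Multiplicative.toAdd a, 0⟩
      map_one' := rfl
      map_mul' := fun a b => by
        refine OtSD.ext ?_ ?_
        · rw [otSD_mul_a, otLam_zero]; simp
        · rw [otSD_mul_c]; simp }
  let g : OtSD k1 k2 R w1 w2 →* Multiplicative (ZMod k1 × ZMod k2) :=
    { toFun := fun x => Multiplicative.ofAdd x.c
      map_one' := rfl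
      map_mul' := fun x y => rfl }
  refine Group.isSolvable_of_ker_le_range f g ?_
  intro x hx
  have hx' : x.c = 0 := by
    have h1 : Multiplicative.ofAdd x.c = 1 := hx
    exact Multiplicative.ofAdd.injective h1
  refine ⟨Multiplicative.ofAdd x.a, ?_⟩
  refine OtSD.ext ?_ ?_
  · rfl
  · exact hx'.symm

end

/-- zero-divisor count class. -/
class OtZC (R : Type) [CommRing R] [Fintype R] [DecidableEq R] where
  zc : R → ℕ
  zc_eq : ∀ s : R, zc s = (Finset.univ.filter (fun a : R => s * a = 0)).card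

/-- brute-force instance. -/
def otZCbrute (R : Type) [CommRing R] [Fintype R] [DecidableEq R] : OtZC R :=
  ⟨fun s => (Finset.univ.filter (fun a : R => s * a = 0)).card, fun _ => rfl⟩

instance otZCprod (R1 R2 : Type) [CommRing R1] [Fintype R1] [DecidableEq R1] [OtZC R1]
    [CommRing R2] [Fintype R2] [DecidableEq R2] [OtZC R2] : OtZC (R1 × R2) :=
  ⟨fun s => OtZC.zc s.1 * OtZC.zc s.2, by
    intro s
    rw [OtZC.zc_eq, OtZC.zc_eq, ← Finset.card_product]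
    congr 1
    ext a
    simp [Prod.ext_iff]⟩

/-- the computable count. -/
def otFexp (k1 k2 : ℕ) [NeZero k1] [NeZero k2] (R : Type) [CommRing R] [Fintype R]
    [DecidableEq R] [OtZC R] (w1 w2 : R) (n : ℕ) : ℕ :=
  ∑ c : ZMod k1 × ZMod k2,
    if (n : ZMod k1) * c.1 = 0 ∧ (n : ZMod k2) * c.2 = 0 then
      OtZC.zc (otGs (otLam k1 k2 w1 w2 c) n) else 0

theorem otSD_otF (k1 k2 : ℕ) [NeZero k1] [NeZero k2] (R : Type) [CommRing R] [Fintype R]
    [DecidableEq R] [OtZC R] (w1 w2 : R) [Fact (w1 ^ k1 = 1)] [Fact (w2 ^ k2 = 1)] (n : ℕ) :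
    otF (OtSD k1 k2 R w1 w2) n = otFexp k1 k2 R w1 w2 n := by
  classical
  unfold otF otFexp
  have e : {x : OtSD k1 k2 R w1 w2 // x ^ n = 1} ≃
      {p : (ZMod k1 × ZMod k2) × R // ((n : ZMod k1) * p.1.1 = 0 ∧ (n : ZMod k2) * p.1.2 = 0) ∧
        otGs (otLam k1 k2 w1 w2 p.1) n * p.2 = 0} :=
    { toFun := fun x => ⟨(x.1.c, x.1.a), (otSD_pow_eq_one_iff x.1 n).mp x.2⟩
      invFun := fun p => ⟨⟨p.1.2, p.1.1⟩, (otSD_pow_eq_one_iff _ n).mpr p.2⟩
      left_inv := fun x => rfl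
      right_inv := fun p => rfl }
  rw [Nat.card_congr e, Nat.card_eq_fintype_card, Fintype.card_subtype, Finset.card_filter,
    Fintype.sum_prod_type]
  apply Finset.sum_congr rfl
  intro c _
  by_cases hc : (n : ZMod k1) * c.1 = 0 ∧ (n : ZMod k2) * c.2 = 0
  · rw [if_pos hc, OtZC.zc_eq, Finset.card_filter]
    apply Finset.sum_congr rfl
    intro a _
    simp [hc]
  · rw [if_neg hc]
    apply Finset.sum_eq_zero
    intro a _
    simp [hc]

theorem otSD_exp (k1 k2 : ℕ) [NeZero k1] [NeZero k2] (R : Type) [CommRing R]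
    (w1 w2 : R) [Fact (w1 ^ k1 = 1)] [Fact (w2 ^ k2 = 1)] (e : ℕ)
    (h : ∀ c : ZMod k1 × ZMod k2, ((e : ZMod k1) * c.1 = 0 ∧ (e : ZMod k2) * c.2 = 0) ∧
      otGs (otLam k1 k2 w1 w2 c) e = 0) (x : OtSD k1 k2 R w1 w2) : x ^ e = 1 := by
  rw [otSD_pow_eq_one_iff]
  refine ⟨(h x.c).1, ?_⟩
  rw [(h x.c).2, zero_mul]

end Cfsg.Agent.Helper2
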