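import Mathlib
import Cfsg.Agent.Helper2.PSolvIto
import Cfsg.Agent.S0971
import Cfsg.Agent.S0967
import Cfsg.Agent.Helper26.BlockQuot
import Cfsg.Agent.Helper26.PCore
import Cfsg.Agent.Helper10.PComp
import Cfsg.Agent.Helper7.SectionSum

/-!
# Blocks of `p`-solvable groups with trivial `p'`-core (helper2)

* `sameBlock_of_isPGroup`: a `p`-group has a single block.
* `sameBlock_of_psolv_core_bot`: a `p`-solvable group with `O_{p'}(G) = 1` has a single block.
* `principal_sInf_eq_zero`, `principal_height_eq_zero_iff`: heights in the principal block.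
* `pprime_degree_of_abelian_sylow_core_bot`: `p`-solvable, `O_{p'}(G) = 1`, a `p`-subgroup of
  `p'`-index abelian: all irreducible degrees are prime to `p`.
-/

set_option autoImplicit false

namespace Cfsg.Agent.Helper2

open Cfsg Cfsg.Agent.Helper25 Cfsg.Agent.Helper7

universe u

variable {p : ℕ} {M : Ideal AlgInt}

/-- All irreducible characters of a `p`-group lie in one block. -/
theorem sameBlock_of_isPGroup {Q : Type u} [Group Q] [Finite Q] (hM : IsPModular p M)
    (hQ : IsPGroup p Q) (θ θ' : IrrCharacter Q) : SameBlock M (θ : Q → ℂ) (θ' : Q → ℂ) := by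
  have hp := hM.1
  apply sameBlock_of_regular hM
  intro g hg
  have hg1 : g = 1 := by
    obtain ⟨k, hk⟩ := hQ g
    have h1 : orderOf g ∣ p ^ k := orderOf_dvd_of_pow_eq_one hk
    obtain ⟨j, -, hj⟩ := (Nat.dvd_prime_pow hp).mp h1
    rcases Nat.eq_zero_or_pos j with h0 | h0
    · rw [h0, pow_zero] at hj; exact orderOf_eq_one_iff.mp hj
    · exact absurd (hj ▸ dvd_pow_self p h0.ne') hg
  subst hg1
  have e : ∀ χ : IrrCharacter Q, centralChar (χ : Q → ℂ) 1 = 1 := by
    intro χ
    unfold centralChar
    have : Subgroup.centralizer ({(1 : Q)} : Set Q) = ⊤ := by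
      ext x; simp [Subgroup.mem_centralizer_iff]
    rw [this, Subgroup.index_top, Nat.cast_one, one_mul, div_self (irr_one_ne_zero χ)]
  rw [e, e, sub_self]
  exact li_zero hM

/-- A `p`-solvable group with trivial `p'`-core has a single `p`-block. -/
theorem sameBlock_of_psolv_core_bot {G : Type u} [Group G] [Finite G] [Fact p.Prime]
    (hM : IsPModular p M) (hsolv : IsPSolvable p G) (hcore : pPrimeCore p G = ⊥)
    (χ ψ : IrrCharacter G) : SameBlock M (χ : G → ℂ) (ψ : G → ℂ) := by
  classical
  letI : Fintype G := Fintype.ofFinite G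
  letI : Fintype (pCore p G) := Fintype.ofFinite _
  have hQ : IsPGroup p (pCore p G) := Cfsg.Agent.Helper26.isPGroup_pCore p G
  have hcent := Cfsg.Agent.Helper13.centralizer_pCore_le_of_isPSolvable hsolv hcore
  have hb : IsPBlock M (blockOf M ((trivChar (pCore p G) : IrrCharacter (pCore p G)) :
      (pCore p G) → ℂ)) := isPBlock_blockOf _
  have hall : ∀ θ : IrrCharacter (pCore p G),
      θ ∈ blockOf M ((trivChar (pCore p G) : IrrCharacter (pCore p G)) : (pCore p G) → ℂ) :=
    fun θ => sameBlock_of_isPGroup hM hQ _ θ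
  obtain ⟨-, hcov⟩ := Cfsg.Agent.S0971.induced_of_cover p M hM (pCore p G) hQ (pCore p G) hcent
    _ hb
  have key : ∀ χ : IrrCharacter G, IsInducedBlock M (pCore p G)
      (blockOf M ((trivChar (pCore p G) : IrrCharacter (pCore p G)) : (pCore p G) → ℂ))
      (blockOf M (χ : G → ℂ)) := by
    intro χ
    obtain ⟨θ, hθ⟩ := Cfsg.Agent.Helper24.exists_constituent
      (isCharacter_restrict (pCore p G) (isCharacter_of_isIrrCharacter χ.2))
      (by simpa using irr_one_ne_zero χ)
    exact hcov _ (isPBlock_blockOf χ) ⟨χ, self_mem_blockOf hM χ, θ, hall θ, hθ⟩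
  have heq := isInducedBlock_unique hM (pCore p G) (key χ) (key ψ)
  have : ψ ∈ blockOf M (χ : G → ℂ) := heq ▸ self_mem_blockOf hM ψ
  exact this

theorem principal_sInf_eq_zero {G : Type u} [Group G] (hM : IsPModular p M) :
    sInf ((fun χ : IrrCharacter G => (charDegree (χ : G → ℂ)).factorization p) ''
      principalBlock M G) = 0 := by
  rw [Nat.sInf_eq_zero]
  left
  refine ⟨trivChar G, sameBlock_refl hM _, ?_⟩
  have h1 := irr_one_eq_degree (trivChar G)
  rw [trivChar_apply] at h1
  have h2 : charDegree ((trivChar G : IrrCharacter G) : G → ℂ) = 1 := by exact_mod_cast h1.symm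
  show (charDegree ((trivChar G : IrrCharacter G) : G → ℂ)).factorization p = 0
  rw [h2]
  simp

theorem principal_height_eq_zero_iff {G : Type u} [Group G] (hM : IsPModular p M)
    (χ : IrrCharacter G) :
    blockHeight p (principalBlock M G) (χ : G → ℂ) = 0 ↔ ¬ p ∣ charDegree (χ : G → ℂ) := by
  unfold blockHeight
  rw [principal_sInf_eq_zero hM, Nat.sub_zero, Nat.factorization_eq_zero_iff]
  constructor
  · rintro (h | h | h)
    · exact absurd hM.1 h
    · exact h
    · exact absurd h (irr_degree_pos χ).ne'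
  · intro h
    exact Or.inr (Or.inl h)

/-- `p`-solvable, `O_{p'}(G) = 1`, an abelian `p`-subgroup of `p'`-index: all irreducible
character degrees are prime to `p`. -/
theorem pprime_degree_of_abelian_sylow_core_bot {G : Type u} [Group G] [Finite G]
    [hp : Fact p.Prime] (hsolv : IsPSolvable p G) (hcore : pPrimeCore p G = ⊥)
    (P : Subgroup G) (hPi : ¬ p ∣ P.index)
    (hab : ∀ a ∈ P, ∀ b ∈ P, a * b = b * a) (χ : IrrCharacter G) :
    ¬ p ∣ charDegree (χ : G → ℂ) := by
  have hQ : IsPGroup p (pCore p G) := Cfsg.Agent.Helper26.isPGroup_pCore p G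
  have hcent := Cfsg.Agent.Helper13.centralizer_pCore_le_of_isPSolvable hsolv hcore
  have hQP : pCore p G ≤ P := by
    obtain ⟨c, hc⟩ := Cfsg.Agent.Helper22.exists_conj_le_of_not_dvd_index p (pCore p G) hQ P hPi
    intro a ha
    have h1 : c * a * c⁻¹ ∈ pCore p G := (pCore_normal p G).conj_mem a ha c
    have h2 := hc _ h1
    have e : c⁻¹ * (c * a * c⁻¹) * c = a := by group
    rwa [e] at h2
  have hPQ : P ≤ pCore p G := by
    refine le_trans ?_ hcent
    intro x hx
    rw [Subgroup.mem_centralizer_iff]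
    intro y hy
    exact hab y (hQP hy) x hx
  have heq : pCore p G = P := le_antisymm hQP hPQ
  obtain ⟨n, ρ, hρ, hχρ⟩ := χ.2
  haveI := hρ
  have h1 := Cfsg.Agent.S0169.result ρ (pCore p G)
    (fun a ha b hb => hab a (hQP ha) b (hQP hb))
  rw [Module.finrank_fin_fun] at h1
  intro hdvd
  rw [← hχρ, rep_charDegree] at hdvd
  rw [heq] at h1
  exact hPi (hdvd.trans h1)

end Cfsg.Agent.Helper2
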