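import Mathlib
import Cfsg.Agent.Helper2.CharExtra

set_option autoImplicit false

namespace Cfsg.Agent.Helper2

open Cfsg
open scoped ComplexConjugate

section PermChar

variable {G : Type*} [Group G] (X : Type*) [MulAction G X]

/-- The character of the permutation representation counts fixed points. -/
theorem permChar_eq [Finite X] (g : G) :
    (Representation.ofMulAction ℂ G X).character g = (Nat.card (MulAction.fixedBy X g) : ℂ) := by
  classical
  have : Fintype X := Fintype.ofFinite X
  unfold Representation.character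
  rw [LinearMap.trace_eq_matrix_trace ℂ (MonoidAlgebra.basis X ℂ), Matrix.trace]
  simp only [Matrix.diag_apply, LinearMap.toMatrix_apply, MonoidAlgebra.basis_apply,
    Representation.ofMulAction_single]
  have h1 : ∀ i : X, ((MonoidAlgebra.basis X ℂ).repr (MonoidAlgebra.single (g • i) 1)) i =
      if g • i = i then (1 : ℂ) else 0 := by
    intro i
    show (Finsupp.single (g • i) (1 : ℂ)) i = _
    rw [Finsupp.single_apply]
  rw [Finset.sum_congr rfl (fun i _ => h1 i), Finset.sum_boole]
  have h2 : Nat.card (MulAction.fixedBy X g) = Nat.card {x : X // g • x = x} := rfl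
  rw [h2, Nat.card_eq_fintype_card, Fintype.card_subtype]

theorem isCharacter_permChar [Finite X] :
    IsCharacter G (fun g => (Nat.card (MulAction.fixedBy X g) : ℂ)) := by
  have h := Helper1.isCharacter_character (Representation.ofMulAction ℂ G X)
  have h2 : (Representation.ofMulAction ℂ G X).character =
      fun g => (Nat.card (MulAction.fixedBy X g) : ℂ) := funext (permChar_eq X)
  rwa [h2] at h

/-- Burnside's lemma, in `Nat.card` form. -/
theorem sum_card_fixedBy [Fintype G] [Finite X] :
    ∑ g : G, (Nat.card (MulAction.fixedBy X g) : ℂ) =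
      (Nat.card (MulAction.orbitRel.Quotient G X) : ℂ) * (Nat.card G : ℂ) := by
  classical
  have : Fintype X := Fintype.ofFinite X
  have : Finite (MulAction.orbitRel.Quotient G X) :=
    Finite.of_surjective (Quotient.mk'' : X → MulAction.orbitRel.Quotient G X)
      Quotient.mk''_surjective
  have : Fintype (MulAction.orbitRel.Quotient G X) := Fintype.ofFinite _
  have h := MulAction.sum_card_fixedBy_eq_card_orbits_mul_card_group G X
  rw [Nat.card_eq_fintype_card, Nat.card_eq_fintype_card, ← Nat.cast_mul, ← h]
  push_cast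
  apply Finset.sum_congr rfl
  intro g _
  rw [Nat.card_eq_fintype_card]

theorem card_fixedBy_prod (g : G) :
    Nat.card (MulAction.fixedBy (X × X) g) =
      Nat.card (MulAction.fixedBy X g) * Nat.card (MulAction.fixedBy X g) := by
  rw [← Nat.card_prod]
  apply Nat.card_congr
  exact {
    toFun := fun p => (⟨p.1.1, congrArg Prod.fst p.2⟩, ⟨p.1.2, congrArg Prod.snd p.2⟩)
    invFun := fun q => ⟨(q.1.1, q.2.1), Prod.ext q.1.2 q.2.2⟩
    left_inv := fun p => rfl
    right_inv := fun q => rfl }

theorem card_orbits_of_pretransitive [MulAction.IsPretransitive G X] [Nonempty X] :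
    Nat.card (MulAction.orbitRel.Quotient G X) = 1 := by
  have h := (MulAction.pretransitive_iff_subsingleton_quotient G X).mp inferInstance
  have : Nonempty (MulAction.orbitRel.Quotient G X) :=
    ⟨Quotient.mk'' (Classical.arbitrary X)⟩
  exact Nat.card_eq_one_iff_unique.mpr ⟨h, this⟩

theorem card_orbits_prod_eq_two_iff [MulAction.IsPretransitive G X] [Finite X]
    (hX : 2 ≤ Nat.card X) :
    Nat.card (MulAction.orbitRel.Quotient G (X × X)) = 2 ↔
      MulAction.IsMultiplyPretransitive G X 2 := by
  have hnt : Nontrivial X := (Finite.one_lt_card_iff_nontrivial).mp (by omega)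
  obtain ⟨a, b, hab⟩ := exists_pair_ne X
  obtain ⟨q, hq⟩ : ∃ q : X × X → MulAction.orbitRel.Quotient G (X × X), q = Quotient.mk'' :=
    ⟨_, rfl⟩
  have hqeq : ∀ p p' : X × X, q p = q p' ↔ ∃ g : G, g • p' = p := by
    intro p p'
    rw [hq, Quotient.eq'']
    exact MulAction.orbitRel_apply.trans MulAction.mem_orbit_iff
  have hdiag : ∀ c : X, q (c, c) = q (a, a) := by
    intro c
    rw [hqeq]
    obtain ⟨g, hg⟩ := MulAction.exists_smul_eq G a c
    exact ⟨g, by simp [hg]⟩
  have hne : ∀ c d : X, c ≠ d → q (c, d) ≠ q (a, a) := by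
    intro c d hcd h
    rw [hqeq] at h
    obtain ⟨g, hg⟩ := h
    have h1 : g • a = c := congrArg Prod.fst hg
    have h2 : g • a = d := congrArg Prod.snd hg
    exact hcd (h1.symm.trans h2)
  rw [Nat.card_eq_two_iff' (q (a, a))]
  constructor
  · rintro ⟨y, hy, huniq⟩
    rw [MulAction.is_two_pretransitive_iff]
    intro c d c' d' hcd hcd'
    have e1 := huniq (q (c, d)) (hne c d hcd)
    have e2 := huniq (q (c', d')) (hne c' d' hcd')
    have e3 : q (c', d') = q (c, d) := e2.trans e1.symm
    rw [hqeq] at e3
    obtain ⟨g, hg⟩ := e3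
    exact ⟨g, congrArg Prod.fst hg, congrArg Prod.snd hg⟩
  · intro h2
    rw [MulAction.is_two_pretransitive_iff] at h2
    refine ⟨q (a, b), hne a b hab, ?_⟩
    intro y hy
    obtain ⟨⟨c, d⟩, rfl⟩ : ∃ p, q p = y := by
      rw [hq]; exact Quotient.mk''_surjective y
    by_cases hcd : c = d
    · subst hcd; exact absurd (hdiag c) hy
    · obtain ⟨g, hg1, hg2⟩ := h2 hab hcd
      rw [hqeq]
      exact ⟨g, by simp [hg1, hg2]⟩

end PermChar

end Cfsg.Agent.Helper2
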