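import Mathlib

set_option autoImplicit false

namespace Cfsg.Agent.Helper2

section PermIso

/-- A group of order `n!/2` embedding into the symmetric group on `n` letters is the alternating
group. -/
theorem nonempty_equiv_alternating_of_injective {G : Type*} [Group G] [Finite G] {α : Type*}
    [Fintype α] [DecidableEq α] {n : ℕ} (hα : Fintype.card α = n) (φ : G →* Equiv.Perm α)
    (hφ : Function.Injective φ) (hcard : 2 * Nat.card G = n.factorial) :
    Nonempty (G ≃* alternatingGroup (Fin n)) := by
  obtain ⟨e⟩ : Nonempty (α ≃ Fin n) := ⟨Fintype.equivFinOfCardEq hα⟩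
  obtain ⟨φ', hφ'⟩ : ∃ φ' : G →* Equiv.Perm (Fin n), φ' = e.permCongrHom.toMonoidHom.comp φ :=
    ⟨_, rfl⟩
  have hinj : Function.Injective φ' := by
    rw [hφ']
    exact e.permCongrHom.injective.comp hφ
  have hr : Nat.card φ'.range = Nat.card G :=
    (Nat.card_congr (MonoidHom.ofInjective hinj).toEquiv).symm
  have hidx : φ'.range.index = 2 := by
    have h1 := Subgroup.card_mul_index φ'.range
    rw [hr, Nat.card_perm, Nat.card_fin, ← hcard] at h1
    have hpos : 0 < Nat.card G := Nat.card_pos
    have h2 : Nat.card G * φ'.range.index = Nat.card G * 2 := by rw [h1]; ring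
    exact Nat.eq_of_mul_eq_mul_left hpos h2
  have h3 := Equiv.Perm.eq_alternatingGroup_of_index_eq_two hidx
  exact ⟨(MonoidHom.ofInjective hinj).trans (MulEquiv.subgroupCongr h3)⟩

/-- A group of order `n!` embedding into the symmetric group on `n` letters is the symmetric
group. -/
theorem nonempty_equiv_perm_of_injective {G : Type*} [Group G] [Finite G] {α : Type*}
    [Fintype α] [DecidableEq α] {n : ℕ} (hα : Fintype.card α = n) (φ : G →* Equiv.Perm α)
    (hφ : Function.Injective φ) (hcard : Nat.card G = n.factorial) :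
    Nonempty (G ≃* Equiv.Perm (Fin n)) := by
  obtain ⟨e⟩ : Nonempty (α ≃ Fin n) := ⟨Fintype.equivFinOfCardEq hα⟩
  obtain ⟨φ', hφ'⟩ : ∃ φ' : G →* Equiv.Perm (Fin n), φ' = e.permCongrHom.toMonoidHom.comp φ :=
    ⟨_, rfl⟩
  have hinj : Function.Injective φ' := by
    rw [hφ']
    exact e.permCongrHom.injective.comp hφ
  have hbij : Function.Bijective φ' := by
    rw [Nat.bijective_iff_injective_and_card]
    exact ⟨hinj, by rw [hcard, Nat.card_perm, Nat.card_fin]⟩
  exact ⟨MulEquiv.ofBijective φ' hbij⟩

end PermIso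

end Cfsg.Agent.Helper2
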