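import Cfsg.Agent.Helper2.DegPC
import Cfsg.Agent.Helper1.CharClass

/-!
# Group-theoretic lemmas for the "unique p-singular character" theorem

Union of conjugates, fixed points of a Sylow subgroup on cosets of a centralizer,
normalizer versus centralizer of an abelian Sylow subgroup with a normal complement,
and the count of conjugacy classes of size prime to `p`.
-/

set_option autoImplicit false
open Cfsg

namespace Cfsg.Agent.Helper2

section UniqSingGroup

variable {G : Type*} [Group G]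

theorem us_sup_sylow_eq_top [Finite G] (p : ℕ) [Fact p.Prime] (K : Subgroup G) (k : ℕ)
    (hidx : K.index = p ^ k) (P : Sylow p G) : K ⊔ (P : Subgroup G) = ⊤ := by
  have h1 : (K ⊔ (P : Subgroup G)).index ∣ p ^ k :=
    hidx ▸ Subgroup.index_dvd_of_le le_sup_left
  have h2 : (K ⊔ (P : Subgroup G)).index ∣ (P : Subgroup G).index :=
    Subgroup.index_dvd_of_le le_sup_right
  obtain ⟨j, _, hj⟩ := (Nat.dvd_prime_pow (Fact.out : p.Prime)).mp h1
  rw [← Subgroup.index_eq_one, hj]
  rcases Nat.eq_zero_or_pos j with h0 | h0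
  · rw [h0, pow_zero]
  · exfalso
    apply P.not_dvd_index
    rw [hj] at h2
    exact (dvd_pow_self p h0.ne').trans h2

theorem us_fix_conj [Finite G] (p : ℕ) [Fact p.Prime] (P : Sylow p G) (g : G)
    (h : ¬ p ∣ (Subgroup.centralizer ({g} : Set G)).index) :
    ∃ x : G, ∀ s ∈ (P : Subgroup G), s * (x * g * x⁻¹) = (x * g * x⁻¹) * s := by
  have hP : IsPGroup p (P : Subgroup G) := P.isPGroup'
  obtain ⟨q, hq⟩ := hP.nonempty_fixed_point_of_prime_not_dvd_card
    (G ⧸ Subgroup.centralizer ({g} : Set G)) h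
  obtain ⟨x, rfl⟩ := QuotientGroup.mk_surjective q
  refine ⟨x, fun s hs => ?_⟩
  have h1 := hq ⟨s, hs⟩
  have h2 : ((s * x : G) : G ⧸ Subgroup.centralizer ({g} : Set G)) = (x : G ⧸ _) := h1
  rw [QuotientGroup.eq] at h2
  have h3 := (Subgroup.mem_centralizer_iff.mp h2) g rfl
  calc s * (x * g * x⁻¹) = s * x * (g * ((s * x)⁻¹ * x)) * x⁻¹ * s := by group
    _ = s * x * ((s * x)⁻¹ * x * g) * x⁻¹ * s := by rw [h3]
    _ = x * g * x⁻¹ * s := by group

theorem us_union_conj {H : Type*} [Group H] [Finite H] (D : Subgroup H)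
    (h : ∀ a : H, ∃ y : H, y⁻¹ * a * y ∈ D) : D = ⊤ := by
  classical
  haveI := Fintype.ofFinite H
  let f : Option ((H ⧸ D) × {d : D // d ≠ 1}) → H := fun o =>
    match o with
    | none => 1
    | some (q, d) => q.out * (d.1 : H) * q.out⁻¹
  have hf : Function.Surjective f := by
    intro a
    by_cases ha : a = 1
    · exact ⟨none, ha.symm⟩
    · obtain ⟨y, hy⟩ := h a
      obtain ⟨d0, hd0⟩ := QuotientGroup.mk_out_eq_mul D y
      obtain ⟨o, ho⟩ : ∃ o : H, o = (QuotientGroup.mk y : H ⧸ D).out := ⟨_, rfl⟩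
      have hmem : o⁻¹ * a * o ∈ D := by
        rw [ho, hd0]
        have : (y * (d0 : H))⁻¹ * a * (y * d0) = (d0 : H)⁻¹ * (y⁻¹ * a * y) * d0 := by group
        rw [this]
        exact D.mul_mem (D.mul_mem (D.inv_mem d0.2) hy) d0.2
      have hne : (⟨o⁻¹ * a * o, hmem⟩ : D) ≠ 1 := by
        intro h1
        apply ha
        have h2 : o⁻¹ * a * o = 1 := congrArg Subtype.val h1
        have h3 : a = o * (o⁻¹ * a * o) * o⁻¹ := by group
        rw [h3, h2]; group
      refine ⟨some (QuotientGroup.mk y, ⟨⟨o⁻¹ * a * o, hmem⟩, hne⟩), ?_⟩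
      show (QuotientGroup.mk y : H ⧸ D).out * (o⁻¹ * a * o) * (QuotientGroup.mk y : H ⧸ D).out⁻¹ = a
      rw [← ho]; group
  have hcard : Nat.card H ≤ Nat.card (Option ((H ⧸ D) × {d : D // d ≠ 1})) :=
    Nat.card_le_card_of_surjective f hf
  have hsub : Nat.card {d : D // d ≠ 1} = Nat.card D - 1 := by
    have h1 : Nat.card ({d : D // d = 1} ⊕ {d : D // d ≠ 1}) = Nat.card D :=
      Nat.card_congr (Equiv.sumCompl (fun d : D => d = 1))
    rw [Nat.card_sum] at h1
    have h2 : Nat.card {d : D // d = 1} = 1 := by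
      rw [Nat.card_eq_one_iff_unique]
      exact ⟨⟨fun a b => Subtype.ext (a.2.trans b.2.symm)⟩, ⟨⟨1, rfl⟩⟩⟩
    omega
  rw [Finite.card_option, Nat.card_prod, hsub] at hcard
  have hmul := Subgroup.card_mul_index D
  have hD : 0 < Nat.card D := Nat.card_pos
  obtain ⟨m, hm⟩ : ∃ m, Nat.card D = m + 1 := ⟨Nat.card D - 1, by omega⟩
  rw [hm] at hcard hmul
  have hi0 : D.index ≠ 0 := Subgroup.index_ne_zero_of_finite
  have h5 : (m + 1) * D.index = D.index * m + D.index := by ring
  have h6 : m + 1 - 1 = m := by omega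
  have hq : Nat.card (H ⧸ D) = D.index := rfl
  rw [h6, hq] at hcard
  have h7 : D.index = 1 := by omega
  exact Subgroup.index_eq_one.mp h7

theorem us_norm_cent (K P : Subgroup G) [K.Normal] (hsup : P ⊔ K = ⊤) (hinf : K ⊓ P = ⊥)
    (hab : ∀ a ∈ P, ∀ b ∈ P, a * b = b * a) (n : G)
    (hn : n ∈ Subgroup.normalizer (P : Set G)) (s : G) (hs : s ∈ P) : n * s = s * n := by
  obtain ⟨s0, hs0, k, hk, rfl⟩ := exists_mul_of_sup_eq_top P K hsup n
  have hkn : k ∈ Subgroup.normalizer (P : Set G) := by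
    have : k = s0⁻¹ * (s0 * k) := by group
    rw [this]
    exact Subgroup.mul_mem _ (Subgroup.inv_mem _ (Subgroup.le_normalizer hs0)) hn
  have h1 : k * s * k⁻¹ ∈ P := (Subgroup.mem_normalizer_iff.mp hkn s).mp hs
  have h2 : k * s * k⁻¹ * s⁻¹ ∈ K ⊓ P := by
    refine ⟨?_, P.mul_mem h1 (P.inv_mem hs)⟩
    have : k * s * k⁻¹ * s⁻¹ = k * (s * k⁻¹ * s⁻¹) := by group
    rw [this]
    exact K.mul_mem hk (Subgroup.Normal.conj_mem inferInstance _ (K.inv_mem hk) s)
  rw [hinf, Subgroup.mem_bot] at h2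
  have h3 : k * s = s * k := by
    have : k * s = (k * s * k⁻¹ * s⁻¹) * (s * k) := by group
    rw [this, h2, one_mul]
  calc s0 * k * s = s0 * (k * s) := by group
    _ = s0 * (s * k) := by rw [h3]
    _ = (s0 * s) * k := by group
    _ = (s * s0) * k := by rw [hab s0 hs0 s hs]
    _ = s * (s0 * k) := by group

theorem us_card_carrier [Fintype G] (g : G) :
    Nat.card (ConjClasses.mk g).carrier = (Subgroup.centralizer ({g} : Set G)).index := by
  rw [Helper25.index_centralizer_eq_card_class]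
  apply Nat.card_congr
  exact Equiv.subtypeEquivRight (fun x => by
    rw [ConjClasses.mem_carrier_iff_mk_eq, ConjClasses.mk_eq_mk_iff_isConj]
    exact ⟨fun h => h.symm, fun h => h.symm⟩)

theorem us_class_count [Fintype G] (p : ℕ) [Fact p.Prime] (P : Sylow p G)
    (hNC : ∀ n ∈ Subgroup.normalizer ((P : Subgroup G) : Set G), ∀ s ∈ (P : Subgroup G),
      n * s = s * n) :
    Nat.card {c : ConjClasses G // ¬ p ∣ Nat.card c.carrier} =
      Nat.card (ConjClasses (Subgroup.normalizer ((P : Subgroup G) : Set G))) := by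
  symm
  have hpred : ∀ c : ConjClasses (Subgroup.normalizer ((P : Subgroup G) : Set G)),
      ¬ p ∣ Nat.card (ConjClasses.map
        (Subgroup.normalizer ((P : Subgroup G) : Set G)).subtype c).carrier := by
    intro c
    obtain ⟨n, rfl⟩ := ConjClasses.mk_surjective c
    show ¬ p ∣ Nat.card (ConjClasses.mk (n : G)).carrier
    rw [us_card_carrier]
    have hle : (P : Subgroup G) ≤ Subgroup.centralizer ({(n : G)} : Set G) := by
      intro s hs
      rw [Subgroup.mem_centralizer_iff]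
      intro h hh
      rw [Set.mem_singleton_iff] at hh
      rw [hh]
      exact hNC n n.2 s hs
    intro hdvd
    exact P.not_dvd_index (hdvd.trans (Subgroup.index_dvd_of_le hle))
  apply Nat.card_eq_of_bijective (fun c => (⟨ConjClasses.map
        (Subgroup.normalizer ((P : Subgroup G) : Set G)).subtype c, hpred c⟩ :
        {c : ConjClasses G // ¬ p ∣ Nat.card c.carrier}))
  constructor
  · intro c1 c2 h
    obtain ⟨n1, rfl⟩ := ConjClasses.mk_surjective c1
    obtain ⟨n2, rfl⟩ := ConjClasses.mk_surjective c2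
    have h' : ConjClasses.mk (n1 : G) = ConjClasses.mk (n2 : G) := congrArg Subtype.val h
    rw [ConjClasses.mk_eq_mk_iff_isConj, isConj_iff] at h'
    obtain ⟨g, hg⟩ := h'
    have hx : (n1 : G) ∈ Subgroup.centralizer ((P : Subgroup G) : Set G) := by
      rw [Subgroup.mem_centralizer_iff]
      intro s hs
      exact (hNC n1 n1.2 s hs).symm
    have hy : g⁻¹⁻¹ * (n1 : G) * g⁻¹ ∈ Subgroup.centralizer ((P : Subgroup G) : Set G) := by
      rw [inv_inv, hg, Subgroup.mem_centralizer_iff]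
      intro s hs
      exact (hNC n2 n2.2 s hs).symm
    obtain ⟨m, hm, hmeq⟩ := Sylow.conj_eq_normalizer_conj_of_mem_centralizer P (n1 : G) g⁻¹ hx hy
    rw [inv_inv, hg] at hmeq
    rw [ConjClasses.mk_eq_mk_iff_isConj, isConj_iff]
    refine ⟨(⟨m, hm⟩ : Subgroup.normalizer ((P : Subgroup G) : Set G))⁻¹, Subtype.ext ?_⟩
    show m⁻¹ * (n1 : G) * m⁻¹⁻¹ = n2
    rw [inv_inv, hmeq]
  · rintro ⟨c, hc⟩
    obtain ⟨g, rfl⟩ := ConjClasses.mk_surjective c
    rw [us_card_carrier] at hc
    obtain ⟨x, hx⟩ := us_fix_conj p P g hc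
    have hmem : x * g * x⁻¹ ∈ Subgroup.normalizer ((P : Subgroup G) : Set G) :=
      Subgroup.centralizer_le_normalizer _ (by
        rw [Subgroup.mem_centralizer_iff]
        intro s hs
        exact hx s hs)
    refine ⟨ConjClasses.mk ⟨x * g * x⁻¹, hmem⟩, Subtype.ext ?_⟩
    show ConjClasses.mk (x * g * x⁻¹) = ConjClasses.mk g
    rw [ConjClasses.mk_eq_mk_iff_isConj, isConj_iff]
    exact ⟨x⁻¹, by group⟩

end UniqSingGroup

end Cfsg.Agent.Helper2
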