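import Cfsg.Agent.Helper2.UniqSingA
import Cfsg.Agent.Helper7.Clifford
import Cfsg.Agent.S4452
import Cfsg.Agent.S4445
import Cfsg.Agent.S4459

/-!
# A unique irreducible character of degree divisible by `p`

For a non-nilpotent finite group with a normal `p`-complement and exactly one irreducible
character of degree divisible by `p`: the Sylow `p`-subgroup is abelian, and there is exactly
one conjugacy class of size divisible by `p`.
-/

set_option autoImplicit false
open Cfsg

namespace Cfsg.Agent.Helper2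

open scoped ComplexConjugate

section UniqSingChar

variable {G : Type*} [Group G] [Fintype G]

theorem us_full_of_card {α : Type*} [Finite α] (q : α → Prop)
    (h : Nat.card {x // q x} = Nat.card α) (x : α) : q x := by
  have hb : Function.Bijective (Subtype.val : {x // q x} → α) :=
    Function.Injective.bijective_of_nat_card_le Subtype.val_injective h.ge
  obtain ⟨y, rfl⟩ := hb.2 x
  exact y.2

theorem us_invariant (p : ℕ) [Fact p.Prime] (K : Subgroup G) [hK : K.Normal] [Fintype K] (k : ℕ)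
    (hidx : K.index = p ^ k) (χ₀ : IrrCharacter G)
    (hχ₀K : ∀ x ∈ K, (χ₀ : G → ℂ) x = (χ₀ : G → ℂ) 1)
    (huniq : ∀ χ : IrrCharacter G, p ∣ charDegree (χ : G → ℂ) → χ = χ₀)
    (θ : IrrCharacter K) (s : G) (x : K) :
    (θ : K → ℂ) ⟨s * x * s⁻¹, hK.conj_mem x x.2 s⟩ = (θ : K → ℂ) x := by
  obtain ⟨χ, hχ⟩ := exists_irr_above_h2 K θ
  by_cases hp : p ∣ charDegree (χ : G → ℂ)
  · have h0 := huniq χ hp
    rw [h0] at hχ
    have hconst : (fun n : K => (χ₀ : G → ℂ) n) =
        ((χ₀ : G → ℂ) 1) • (Helper25.trivChar K : K → ℂ) := by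
      funext n
      rw [Pi.smul_apply, Helper25.trivChar_apply, smul_eq_mul, mul_one]
      exact hχ₀K n n.2
    rw [hconst, classInner_smul_left, classInner_irr_irr] at hχ
    have hθ : Helper25.trivChar K = θ := by
      by_contra hne
      rw [if_neg hne, mul_zero] at hχ
      exact hχ rfl
    rw [← hθ]
    rfl
  · obtain ⟨e, he⟩ := classInner_char_nat
      (isCharacter_restrict K (isCharacter_of_isIrrCharacter χ.2))
      (isCharacter_of_isIrrCharacter θ.2)
    have he0 : e ≠ 0 := by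
      rintro rfl
      rw [he] at hχ
      exact hχ (by simp)
    have hdeg := cliff_degree_stab K χ θ e he he0
    have hθcls : IsClassFunction K (θ : K → ℂ) :=
      isClassFunction_of_isCharacter (isCharacter_of_isIrrCharacter θ.2)
    have hle := le_stabChar K (θ : K → ℂ) hθcls
    have hdvd : (stabChar K (θ : K → ℂ)).index ∣ p ^ k := hidx ▸ Subgroup.index_dvd_of_le hle
    obtain ⟨j, _, hj⟩ := (Nat.dvd_prime_pow (Fact.out : p.Prime)).mp hdvd
    have hj0 : j = 0 := by
      by_contra hj0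
      apply hp
      rw [hdeg, hj]
      exact Dvd.dvd.mul_left (dvd_pow_self p hj0) _
    rw [hj0, pow_zero, Subgroup.index_eq_one] at hj
    have hs : s ∈ stabChar K (θ : K → ℂ) := by rw [hj]; trivial
    have h1 := congrFun ((mem_stabChar K (θ : K → ℂ) s).mp hs) x
    rw [conjChar_apply] at h1
    exact h1

theorem us_class_index (K P : Subgroup G) [hK : K.Normal] (hsup : P ⊔ K = ⊤)
    (hpred : ∀ C : ConjClasses K, ∀ s ∈ P, ∀ g g' : K, (g' : G) = s * g * s⁻¹ →
      ConjClasses.mk g = C → ConjClasses.mk g' = C) (x : K) :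
    (Subgroup.centralizer ({(x : G)} : Set G)).index ∣ Nat.card K := by
  haveI : Fintype K := Fintype.ofFinite K
  rw [Helper25.index_centralizer_eq_card_class]
  have hK' : Nat.card {z : K // IsConj x z} ∣ Nat.card K := by
    rw [← Helper25.index_centralizer_eq_card_class]
    exact Subgroup.index_dvd_card _
  have hbij : Nat.card {z : K // IsConj x z} = Nat.card {z : G // IsConj (x : G) z} := by
    apply Nat.card_eq_of_bijective (fun z => (⟨(z.1 : G), by
      obtain ⟨c, hc⟩ := isConj_iff.mp z.2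
      exact isConj_iff.mpr ⟨(c : G), by rw [← hc]; rfl⟩⟩ : {z : G // IsConj (x : G) z}))
    constructor
    · intro z1 z2 h
      have := congrArg Subtype.val h
      exact Subtype.ext (Subtype.ext this)
    · rintro ⟨z, hz⟩
      obtain ⟨g, hg⟩ := isConj_iff.mp hz
      obtain ⟨s, hs, y, hy, rfl⟩ := exists_mul_of_sup_eq_top P K hsup g
      have hm1 : y * x * y⁻¹ ∈ K := K.mul_mem (K.mul_mem hy x.2) (K.inv_mem hy)
      have hm2 : s * (y * x * y⁻¹) * s⁻¹ ∈ K := hK.conj_mem _ hm1 s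
      have h1 : ConjClasses.mk (⟨y * x * y⁻¹, hm1⟩ : K) = ConjClasses.mk x := by
        rw [ConjClasses.mk_eq_mk_iff_isConj, isConj_iff]
        exact ⟨⟨y, hy⟩⁻¹, Subtype.ext (by
          show y⁻¹ * (y * x * y⁻¹) * y⁻¹⁻¹ = x
          group)⟩
      have h2 := hpred (ConjClasses.mk x) s hs ⟨y * x * y⁻¹, hm1⟩
        ⟨s * (y * x * y⁻¹) * s⁻¹, hm2⟩ rfl h1
      rw [ConjClasses.mk_eq_mk_iff_isConj] at h2
      refine ⟨⟨⟨s * (y * x * y⁻¹) * s⁻¹, hm2⟩, h2.symm⟩, Subtype.ext ?_⟩
      show s * (y * x * y⁻¹) * s⁻¹ = z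
      rw [← hg]; group
  rw [← hbij]
  exact hK'

theorem us_central (p : ℕ) [Fact p.Prime] (K : Subgroup G) [hK : K.Normal] [Fintype K]
    (P : Sylow p G) (hsup : K ⊔ (P : Subgroup G) = ⊤) (hcop : (Nat.card K).Coprime p)
    (hinv : ∀ (θ : IrrCharacter K) (s : G) (x : K),
      (θ : K → ℂ) ⟨s * x * s⁻¹, hK.conj_mem x x.2 s⟩ = (θ : K → ℂ) x) :
    ∀ s ∈ (P : Subgroup G), ∀ x ∈ K, s * x = x * s := by
  have hsup' : (P : Subgroup G) ⊔ K = ⊤ := by rw [sup_comm]; exact hsup
  obtain ⟨n, hn⟩ := IsPGroup.iff_card.mp P.isPGroup'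
  have hcopKP : (Nat.card K).Coprime (Nat.card (P : Subgroup G)) := by
    rw [hn]; exact Nat.Coprime.pow_right n hcop
  haveI : Group.IsNilpotent (P : Subgroup G) := P.isPGroup'.isNilpotent
  have h45 := Cfsg.Agent.S4445.result K (P : Subgroup G)
    (fun s _ g hg => hK.conj_mem g hg s) hcopKP inferInstance
  have hall : ∀ χ : IrrCharacter K, ∀ s ∈ (P : Subgroup G), ∀ g g' : K,
      (g' : G) = s * g * s⁻¹ → (χ : K → ℂ) g' = (χ : K → ℂ) g := by
    intro χ s _ g g' hgg
    have : g' = ⟨s * g * s⁻¹, hK.conj_mem g g.2 s⟩ := Subtype.ext hgg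
    rw [this]
    exact hinv χ s g
  have hc1 : Nat.card {χ : IrrCharacter K // ∀ s ∈ (P : Subgroup G), ∀ g g' : K,
      (g' : G) = s * g * s⁻¹ → (χ : K → ℂ) g' = (χ : K → ℂ) g} = Nat.card (IrrCharacter K) :=
    Nat.card_congr (Equiv.subtypeUnivEquiv hall)
  have h46 := hc1.symm.trans h45
  rw [Helper1.card_irr] at h46
  have hpred := us_full_of_card _ h46.symm
  have hidx : ∀ x : K, ¬ p ∣ (Subgroup.centralizer ({(x : G)} : Set G)).index := by
    intro x hdvd
    have h1 := us_class_index K (P : Subgroup G) hsup' hpred x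
    have h2 : p ∣ Nat.card K := hdvd.trans h1
    have h3 : p ∣ Nat.gcd (Nat.card K) p := Nat.dvd_gcd h2 dvd_rfl
    rw [Nat.Coprime.gcd_eq_one hcop] at h3
    exact (Fact.out : p.Prime).one_lt.ne' (Nat.dvd_one.mp h3)
  have hD : (Subgroup.centralizer ((P : Subgroup G) : Set G)).subgroupOf K = ⊤ := by
    apply us_union_conj
    intro a
    obtain ⟨g, hg⟩ := us_fix_conj p P (a : G) (hidx a)
    obtain ⟨s0, hs0, y, hy, rfl⟩ := exists_mul_of_sup_eq_top (P : Subgroup G) K hsup' g
    refine ⟨(⟨y, hy⟩ : K)⁻¹, ?_⟩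
    rw [Subgroup.mem_subgroupOf, Subgroup.mem_centralizer_iff]
    intro s hs
    show s * (y⁻¹⁻¹ * (a : G) * y⁻¹) = y⁻¹⁻¹ * (a : G) * y⁻¹ * s
    have h1 := hg (s0 * s * s0⁻¹) ((P : Subgroup G).mul_mem ((P : Subgroup G).mul_mem hs0 hs)
      ((P : Subgroup G).inv_mem hs0))
    have h2 : s * (y * (a : G) * y⁻¹) =
        s0⁻¹ * (s0 * s * s0⁻¹ * (s0 * y * a * (s0 * y)⁻¹)) * s0 := by group
    have h3 : y * (a : G) * y⁻¹ * s =
        s0⁻¹ * (s0 * y * a * (s0 * y)⁻¹ * (s0 * s * s0⁻¹)) * s0 := by group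
    rw [inv_inv, h2, h3, h1]
  intro s hs x hx
  have hx' : (⟨x, hx⟩ : K) ∈ (Subgroup.centralizer ((P : Subgroup G) : Set G)).subgroupOf K := by
    rw [hD]; trivial
  rw [Subgroup.mem_subgroupOf, Subgroup.mem_centralizer_iff] at hx'
  exact hx' s hs

theorem us_direct_contra (p : ℕ) [Fact p.Prime] (K : Subgroup G) [hK : K.Normal] (P : Sylow p G)
    (hsup : K ⊔ (P : Subgroup G) = ⊤) (hinf : K ⊓ (P : Subgroup G) = ⊥)
    (hcent : ∀ s ∈ (P : Subgroup G), ∀ x ∈ K, s * x = x * s)
    (χ₀ : IrrCharacter G) (hχ₀K : ∀ x ∈ K, (χ₀ : G → ℂ) x = (χ₀ : G → ℂ) 1)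
    (huniq : ∀ χ : IrrCharacter G, p ∣ charDegree (χ : G → ℂ) → χ = χ₀)
    (hnonab : ¬ ∀ a ∈ (P : Subgroup G), ∀ b ∈ (P : Subgroup G), a * b = b * a) : K = ⊥ := by
  classical
  have hsup' : (P : Subgroup G) ⊔ K = ⊤ := by rw [sup_comm]; exact hsup
  haveI hPn : (P : Subgroup G).Normal := by
    constructor
    intro s hs g
    obtain ⟨s0, hs0, y, hy, rfl⟩ := exists_mul_of_sup_eq_top (P : Subgroup G) K hsup' g
    have h1 : s0 * y * s * (s0 * y)⁻¹ = s0 * (y * s) * y⁻¹ * s0⁻¹ := by group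
    have h2 : s * y = y * s := hcent s hs y hy
    rw [h1, ← h2]
    have h3 : s0 * (s * y) * y⁻¹ * s0⁻¹ = s0 * s * s0⁻¹ := by group
    rw [h3]
    exact (P : Subgroup G).mul_mem ((P : Subgroup G).mul_mem hs0 hs) ((P : Subgroup G).inv_mem hs0)
  haveI : Fintype (P : Subgroup G) := Fintype.ofFinite _
  have hex : ∃ β : IrrCharacter (P : Subgroup G),
      charDegree (β : ↥(P : Subgroup G) → ℂ) ≠ 1 := by
    by_contra hall
    push_neg at hall
    apply hnonab
    intro a ha b hb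
    have := comm_of_all_linear hall ⟨a, ha⟩ ⟨b, hb⟩
    exact congrArg Subtype.val this
  obtain ⟨β, hβ⟩ := hex
  have hpβ : p ∣ charDegree (β : ↥(P : Subgroup G) → ℂ) := by
    obtain ⟨n, hn⟩ := IsPGroup.iff_card.mp P.isPGroup'
    have h1 := Helper25.irr_degree_dvd_card β
    rw [hn] at h1
    obtain ⟨j, _, hj⟩ := (Nat.dvd_prime_pow (Fact.out : p.Prime)).mp h1
    rw [hj]
    rcases Nat.eq_zero_or_pos j with h0 | h0
    · exfalso; apply hβ; rw [hj, h0, pow_zero]
    · exact dvd_pow_self p h0.ne'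
  have hψcls : IsClassFunction G (indFun (P : Subgroup G) (β : ↥(P : Subgroup G) → ℂ)) :=
    indFun_isClassFunction _ _
  have hexp := classFun_eq_sum_classInner hψcls
  have hsingle : ∀ χ : IrrCharacter G, χ ≠ χ₀ →
      classInner (indFun (P : Subgroup G) (β : ↥(P : Subgroup G) → ℂ)) (χ : G → ℂ) = 0 := by
    intro χ hχ
    by_contra hne
    apply hχ
    apply huniq
    rw [frobenius_reciprocity (P : Subgroup G) _ _
      (isClassFunction_of_isCharacter (isCharacter_of_isIrrCharacter χ.2))] at hne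
    have h1 : classInner (fun h : (P : Subgroup G) => (χ : G → ℂ) h)
        (β : ↥(P : Subgroup G) → ℂ) ≠ 0 := by
      rw [classInner_conj_symm]
      intro h0
      apply hne
      exact (map_eq_zero _).mp h0
    exact hpβ.trans (irr_degree_dvd_of_over (P : Subgroup G) χ β h1)
  have heq : indFun (P : Subgroup G) (β : ↥(P : Subgroup G) → ℂ) =
      classInner (indFun (P : Subgroup G) (β : ↥(P : Subgroup G) → ℂ)) (χ₀ : G → ℂ) •
        (χ₀ : G → ℂ) := by
    have hs := Finset.sum_eq_single (s := Finset.univ)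
      (f := fun χ : IrrCharacter G =>
        classInner (indFun (P : Subgroup G) (β : ↥(P : Subgroup G) → ℂ)) (χ : G → ℂ) •
          (χ : G → ℂ)) χ₀
      (fun χ _ hχ => by
        show classInner (indFun (P : Subgroup G) (β : ↥(P : Subgroup G) → ℂ)) (χ : G → ℂ) •
          (χ : G → ℂ) = 0
        rw [hsingle χ hχ, zero_smul])
      (fun h => absurd (Finset.mem_univ _) h)
    exact hexp.trans hs
  rw [Subgroup.eq_bot_iff_forall]
  intro x hx
  by_contra hx1
  have hxP : x ∉ (P : Subgroup G) := by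
    intro hxP
    apply hx1
    have : x ∈ K ⊓ (P : Subgroup G) := ⟨hx, hxP⟩
    rw [hinf, Subgroup.mem_bot] at this
    exact this
  have h0 := Helper7.indFun_apply_of_not_mem_normal (P : Subgroup G) (β : ↥(P : Subgroup G) → ℂ) x hxP
  have h1 := indFun_one_apply (P : Subgroup G) (β : ↥(P : Subgroup G) → ℂ)
  have e1 := congrFun heq x
  have e2 := congrFun heq 1
  rw [Pi.smul_apply, smul_eq_mul, hχ₀K x hx, h0] at e1
  rw [Pi.smul_apply, smul_eq_mul, h1, ← e1] at e2
  rcases mul_eq_zero.mp e2 with h | h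
  · have : (P : Subgroup G).index ≠ 0 := Subgroup.index_ne_zero_of_finite
    exact this (by exact_mod_cast h)
  · exact Helper25.irr_one_ne_zero β h

theorem us_sylow_abelian (p : ℕ) [Fact p.Prime] (hnil : ¬ Group.IsNilpotent G) (K : Subgroup G)
    [hK : K.Normal] (hKp : (Nat.card K).Coprime p) (k : ℕ) (hidx : K.index = p ^ k)
    (P : Sylow p G) (hinf : K ⊓ (P : Subgroup G) = ⊥) (χ₁ : IrrCharacter G)
    (huniq : ∀ χ : IrrCharacter G, p ∣ charDegree (χ : G → ℂ) → χ = χ₁) :
    ∀ a ∈ (P : Subgroup G), ∀ b ∈ (P : Subgroup G), a * b = b * a := by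
  classical
  by_contra hnonab
  haveI : Fintype K := Fintype.ofFinite K
  have hsup := us_sup_sylow_eq_top p K k hidx P
  have hex : ∃ β : IrrCharacter (G ⧸ K), charDegree (β : G ⧸ K → ℂ) ≠ 1 := by
    by_contra hall
    push_neg at hall
    apply hnonab
    intro a ha b hb
    have h1 := comm_of_all_linear hall (a : G ⧸ K) (b : G ⧸ K)
    have h2 : a * b * (b * a)⁻¹ ∈ K := by
      rw [← QuotientGroup.eq_one_iff]
      show (a : G ⧸ K) * (b : G ⧸ K) * ((b : G ⧸ K) * (a : G ⧸ K))⁻¹ = 1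
      rw [h1]
      exact mul_inv_cancel _
    have h3 : a * b * (b * a)⁻¹ ∈ K ⊓ (P : Subgroup G) :=
      ⟨h2, (P : Subgroup G).mul_mem ((P : Subgroup G).mul_mem ha hb)
        ((P : Subgroup G).inv_mem ((P : Subgroup G).mul_mem hb ha))⟩
    rw [hinf, Subgroup.mem_bot] at h3
    exact mul_inv_eq_one.mp h3
  obtain ⟨β, hβ⟩ := hex
  have hpβ : p ∣ charDegree (β : G ⧸ K → ℂ) := by
    have h1 := Helper25.irr_degree_dvd_card β
    have h2 : Nat.card (G ⧸ K) = p ^ k := hidx
    rw [h2] at h1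
    obtain ⟨j, _, hj⟩ := (Nat.dvd_prime_pow (Fact.out : p.Prime)).mp h1
    rw [hj]
    rcases Nat.eq_zero_or_pos j with h0 | h0
    · exfalso; apply hβ; rw [hj, h0, pow_zero]
    · exact dvd_pow_self p h0.ne'
  obtain ⟨χ₀, hχ₀⟩ : ∃ χ₀ : IrrCharacter G, χ₀ = Helper25.irrComp β (QuotientGroup.mk' K)
      (QuotientGroup.mk'_surjective K) := ⟨_, rfl⟩
  have hdeg : charDegree (χ₀ : G → ℂ) = charDegree (β : G ⧸ K → ℂ) := by
    rw [hχ₀]; exact Helper25.charDegree_irrComp β _ _
  have hχ₀K : ∀ x ∈ K, (χ₀ : G → ℂ) x = (χ₀ : G → ℂ) 1 := by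
    intro x hx
    rw [hχ₀, Helper25.irrComp_apply, Helper25.irrComp_apply]
    have : (QuotientGroup.mk' K) x = (QuotientGroup.mk' K) 1 := by
      rw [map_one]; exact (QuotientGroup.eq_one_iff x).mpr hx
    rw [this]
  have h01 : χ₀ = χ₁ := huniq χ₀ (hdeg ▸ hpβ)
  have huniq' : ∀ χ : IrrCharacter G, p ∣ charDegree (χ : G → ℂ) → χ = χ₀ := by
    intro χ hχ; rw [h01]; exact huniq χ hχ
  have hinv := us_invariant p K k hidx χ₀ hχ₀K huniq'
  have hcent := us_central p K P hsup hKp hinv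
  have hbot := us_direct_contra p K P hsup hinf hcent χ₀ hχ₀K huniq' hnonab
  apply hnil
  have hcard : Nat.card G = p ^ k := by
    rw [← Subgroup.card_mul_index K, hidx, hbot, Subgroup.card_bot, one_mul]
  exact (IsPGroup.of_card hcard).isNilpotent

theorem us_main (p : ℕ) [Fact p.Prime] (hnil : ¬ Group.IsNilpotent G) (N : Subgroup G)
    [N.Normal] (hN : (Nat.card N).Coprime p) (hidx : ∃ k : ℕ, N.index = p ^ k)
    (hone : Nat.card {χ : IrrCharacter G // p ∣ charDegree (χ : G → ℂ)} = 1) :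
    Nat.card {C : ConjClasses G // p ∣ Nat.card C.carrier} = 1 := by
  classical
  obtain ⟨k, hk⟩ := hidx
  obtain ⟨P⟩ : Nonempty (Sylow p G) := inferInstance
  obtain ⟨hsub, ⟨χ₁, hχ₁⟩⟩ := Nat.card_eq_one_iff_unique.mp hone
  have huniq : ∀ χ : IrrCharacter G, p ∣ charDegree (χ : G → ℂ) → χ = χ₁ := by
    intro χ hχ
    have := hsub.elim (⟨χ, hχ⟩ : {χ : IrrCharacter G // p ∣ charDegree (χ : G → ℂ)}) ⟨χ₁, hχ₁⟩
    exact congrArg Subtype.val this
  have hsup := us_sup_sylow_eq_top p N k hk P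
  obtain ⟨n, hn⟩ := IsPGroup.iff_card.mp P.isPGroup'
  have hn0 : n ≠ 0 := by
    rintro rfl
    have h1 : p ∣ Nat.card G := hχ₁.trans (Helper25.irr_degree_dvd_card χ₁)
    have h2 := P.dvd_card_of_dvd_card h1
    rw [hn, pow_zero] at h2
    exact (Fact.out : p.Prime).one_lt.ne' (Nat.dvd_one.mp h2)
  have hcopNP : (Nat.card N).Coprime (Nat.card (P : Subgroup G)) := by
    rw [hn]; exact Nat.Coprime.pow_right n hN
  have hinf : N ⊓ (P : Subgroup G) = ⊥ := disjoint_iff.mp (Subgroup.disjoint_of_coprime_natCard hcopNP)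
  have hab := us_sylow_abelian p hnil N hN k hk P hinf χ₁ huniq
  have hNC := us_norm_cent N (P : Subgroup G) (by rw [sup_comm]; exact hsup) hinf hab
  have hiff : ∀ d : ℕ, d.Coprime (Nat.card (P : Subgroup G)) ↔ ¬ p ∣ d := by
    intro d
    rw [hn, Nat.coprime_pow_right_iff (Nat.pos_of_ne_zero hn0), Nat.coprime_comm,
      (Fact.out : p.Prime).coprime_iff_not_dvd]
  haveI : Group.IsNilpotent (P : Subgroup G) := P.isPGroup'.isNilpotent
  have h52 := Cfsg.Agent.S4452.result N (P : Subgroup G) hsup hcopNP inferInstance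
  have hL : Nat.card {χ : IrrCharacter G //
      (charDegree (χ : G → ℂ)).Coprime (Nat.card (P : Subgroup G))} =
      Nat.card {χ : IrrCharacter G // ¬ p ∣ charDegree (χ : G → ℂ)} :=
    Nat.card_congr (Equiv.subtypeEquivRight (fun χ => hiff _))
  have hR : Nat.card {η : IrrCharacter (Subgroup.normalizer ((P : Subgroup G) : Set G)) //
      (charDegree (η : Subgroup.normalizer ((P : Subgroup G) : Set G) → ℂ)).Coprime
        (Nat.card (P : Subgroup G))} =
      Nat.card (IrrCharacter (Subgroup.normalizer ((P : Subgroup G) : Set G))) := by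
    apply Nat.card_congr
    apply Equiv.subtypeUnivEquiv
    intro η
    rw [hiff]
    intro hdvd
    have h1 := Cfsg.Agent.S4459.deg_dvd_index
      ((P : Subgroup G).subgroupOf (Subgroup.normalizer ((P : Subgroup G) : Set G)))
      (by
        intro a ha b hb
        rw [Subgroup.mem_subgroupOf] at ha hb
        exact Subtype.ext (hab _ ha _ hb)) η
    have h2 : ((P : Subgroup G).subgroupOf
        (Subgroup.normalizer ((P : Subgroup G) : Set G))).index ∣ (P : Subgroup G).index := by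
      have := Subgroup.relIndex_mul_index
        (Subgroup.le_normalizer : (P : Subgroup G) ≤ Subgroup.normalizer ((P : Subgroup G) : Set G))
      exact Dvd.intro _ this
    exact P.not_dvd_index (hdvd.trans (h1.trans h2))
  have hcls := us_class_count p P hNC
  have hirr := Helper1.card_irr (G := Subgroup.normalizer ((P : Subgroup G) : Set G))
  have hirrG := Helper1.card_irr (G := G)
  have s1 : Nat.card ({χ : IrrCharacter G // p ∣ charDegree (χ : G → ℂ)} ⊕
      {χ : IrrCharacter G // ¬ p ∣ charDegree (χ : G → ℂ)}) = Nat.card (IrrCharacter G) :=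
    Nat.card_congr (Equiv.sumCompl (fun χ : IrrCharacter G => p ∣ charDegree (χ : G → ℂ)))
  have s2 : Nat.card ({C : ConjClasses G // p ∣ Nat.card C.carrier} ⊕
      {C : ConjClasses G // ¬ p ∣ Nat.card C.carrier}) = Nat.card (ConjClasses G) :=
    Nat.card_congr (Equiv.sumCompl (fun C : ConjClasses G => p ∣ Nat.card C.carrier))
  rw [Nat.card_sum] at s1 s2
  omega

end UniqSingChar

end Cfsg.Agent.Helper2
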